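import Cfsg.Agent.Lib.PCon.Defs

/-! Arithmetic. -/

set_option autoImplicit false

namespace H68.PC

open Equiv H69 Finset MulAction

variable {α : Type*} [Fintype α] [DecidableEq α] {p : ℕ} [Fact p.Prime] {H : Subgroup (Perm α)}

namespace ArH

theorem w_succ (q n : ℕ) : w q (n + 1) = w q n + (n + 1).factorization q := by
  unfold w
  rw [Nat.factorial_succ, Nat.factorization_mul (Nat.add_one_ne_zero n) (Nat.factorial_ne_zero n)]
  simp only [Finsupp.coe_add, Pi.add_apply]
  omega

theorem w_mul {q : ℕ} (hq : q.Prime) (n : ℕ) : w q (q * n) = w q n + n := by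
  unfold w
  exact Nat.factorization_factorial_mul hq

theorem not_dvd_small {q n k : ℕ} (hq : q.Prime) (hn : n < q) (hk : k ≤ n) :
    ¬ q ∣ n.choose k := by
  intro h
  have h1 : q ∣ n.factorial := by
    rw [← Nat.choose_mul_factorial_mul_factorial hk]
    exact (h.mul_right _).mul_right _
  have := (hq.dvd_factorial).1 h1
  omega

theorem w_two_pow_eq (s : ℕ) : w 2 (2 ^ s) + 1 = 2 ^ s := by
  induction s with
  | zero => simp [w]
  | succ s ih =>
    rw [pow_succ, mul_comm, w_mul Nat.prime_two]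
    omega

end ArH

theorem w_lt {n : ℕ} (h : n < p) : w p n = 0 := by
  unfold w
  exact Nat.factorization_factorial_eq_zero_of_lt h

theorem w_self : w p p = 1 := by
  have hp : p.Prime := Fact.out
  have h := ArH.w_mul hp 1
  rw [mul_one, w_lt hp.one_lt] at h
  omega

theorem w_mono {m n : ℕ} (h : m ≤ n) : w p m ≤ w p n := by
  induction h with
  | refl => exact le_rfl
  | step _ ih =>
    rw [Nat.succ_eq_add_one, ArH.w_succ]
    omega

theorem w_add {k r : ℕ} (hk : p ∣ k) (hr : r < p) : w p (k + r) = w p k := by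
  induction r with
  | zero => rfl
  | succ r ih =>
    rw [← add_assoc, ArH.w_succ, ih (by omega), Nat.factorization_eq_zero_of_not_dvd, add_zero]
    intro hd
    rw [add_assoc] at hd
    have h2 : p ∣ r + 1 := (Nat.dvd_add_right hk).1 hd
    have := Nat.le_of_dvd (Nat.succ_pos r) h2
    omega

theorem w_pred_lt {k : ℕ} (hk : p ∣ k) (h0 : 0 < k) : w p (k - 1) < w p k := by
  have hp : p.Prime := Fact.out
  obtain ⟨m, rfl⟩ : ∃ m, k = m + 1 := ⟨k - 1, by omega⟩
  rw [ArH.w_succ, Nat.add_sub_cancel]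
  have := hp.factorization_pos_of_dvd (Nat.succ_ne_zero m) hk
  simp only [Nat.succ_eq_add_one] at this
  omega

theorem w_two_pow (s : ℕ) : w 2 (2 ^ (s + 1)) = 2 * w 2 (2 ^ s) + 1 := by
  have h1 := ArH.w_two_pow_eq s
  have h2 := ArH.w_two_pow_eq (s + 1)
  rw [pow_succ] at h2 ⊢
  omega

theorem w_two_pred (s : ℕ) : w 2 (2 ^ s) = w 2 (2 ^ s - 1) + s := by
  have h0 : 0 < 2 ^ s := Nat.two_pow_pos s
  have h := ArH.w_succ 2 (2 ^ s - 1)
  rw [Nat.sub_add_cancel h0, Nat.Prime.factorization_pow Nat.prime_two] at h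
  simpa using h

theorem w_vals : w 2 2 = 1 ∧ w 2 3 = 1 ∧ w 2 4 = 3 ∧ w 2 5 = 3 ∧ w 2 6 = 4 ∧ w 3 3 = 1 ∧ w 3 5 = 1 := by
  haveI : Fact (Nat.Prime 3) := ⟨Nat.prime_three⟩
  have h22 : w 2 2 = 1 := w_self
  have h23 : w 2 3 = 1 := by
    have := w_add (p := 2) (k := 2) (r := 1) dvd_rfl (by norm_num)
    rw [h22] at this
    exact this
  have h24 : w 2 4 = 3 := by
    have := ArH.w_mul Nat.prime_two 2
    rw [h22] at this
    exact this
  have h25 : w 2 5 = 3 := by
    have := w_add (p := 2) (k := 4) (r := 1) (by norm_num) (by norm_num)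
    rw [h24] at this
    exact this
  have h26 : w 2 6 = 4 := by
    have := ArH.w_mul Nat.prime_two 3
    rw [h23] at this
    exact this
  have h33 : w 3 3 = 1 := w_self
  have h35 : w 3 5 = 1 := by
    have := w_add (p := 3) (k := 3) (r := 2) dvd_rfl (by norm_num)
    rw [h33] at this
    exact this
  exact ⟨h22, h23, h24, h25, h26, h33, h35⟩

theorem choose_iff (n : ℕ) :
    (∀ k ≤ n, ¬ p ∣ n.choose k) ↔ ∃ a s : ℕ, 1 ≤ a ∧ a ≤ p - 1 ∧ n + 1 = a * p ^ s := by
  have hp : p.Prime := Fact.out
  have h2 := hp.two_le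
  constructor
  · induction n using Nat.strong_induction_on with
    | _ n ih =>
      intro h
      by_cases hn : n < p
      · by_cases hn' : n + 1 ≤ p - 1
        · exact ⟨n + 1, 0, by omega, hn', by simp⟩
        · exact ⟨1, 1, le_rfl, by omega, by rw [pow_one]; omega⟩
      · have hmod : n % p < p := Nat.mod_lt _ hp.pos
        have hr : n % p = p - 1 := by
          by_contra hne
          apply h (p - 1) (by omega)
          have hm := Choose.choose_modEq_choose_mod_mul_choose_div_nat (n := n) (k := p - 1) (p := p)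
          rw [Nat.mod_eq_of_lt (show p - 1 < p by omega),
            Nat.choose_eq_zero_of_lt (show n % p < p - 1 by omega), zero_mul] at hm
          exact (Nat.modEq_zero_iff_dvd).1 hm
        have hlt : n / p < n := Nat.div_lt_self (by omega) hp.one_lt
        obtain ⟨a, s, ha1, ha2, hs⟩ := ih (n / p) hlt (by
          intro k hk hd
          have hle : p * k ≤ n := (Nat.mul_le_mul_left p hk).trans (Nat.mul_div_le n p)
          apply h (p * k) hle
          have hm := Choose.choose_modEq_choose_mod_mul_choose_div_nat (n := n) (k := p * k) (p := p)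
          rw [Nat.mul_mod_right, Nat.choose_zero_right, one_mul,
            Nat.mul_div_cancel_left _ hp.pos] at hm
          exact (hm.dvd_iff dvd_rfl).2 hd)
        refine ⟨a, s + 1, ha1, ha2, ?_⟩
        have hdm := Nat.div_add_mod n p
        rw [pow_succ, ← mul_assoc, ← hs, add_mul, one_mul, mul_comm (n / p) p]
        omega
  · rintro ⟨a, s, ha1, ha2, hs⟩
    induction s generalizing n with
    | zero =>
      intro k hk
      rw [pow_zero, mul_one] at hs
      exact ArH.not_dvd_small hp (by omega) hk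
    | succ s ih =>
      intro k hk hd
      have hpos : 0 < a * p ^ s := Nat.mul_pos ha1 (pow_pos hp.pos s)
      obtain ⟨m, hm⟩ : ∃ m, a * p ^ s = m + 1 := ⟨a * p ^ s - 1, by omega⟩
      have hn : n = (p - 1) + p * m := by
        rw [pow_succ, ← mul_assoc, hm, add_mul, one_mul, mul_comm m p] at hs
        omega
      have hmod : n % p = p - 1 := by
        rw [hn, Nat.add_mul_mod_self_left, Nat.mod_eq_of_lt (by omega)]
      have hdiv : n / p = m := by
        rw [hn, Nat.add_mul_div_left _ _ hp.pos, Nat.div_eq_of_lt (by omega), zero_add]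
      have hc := Choose.choose_modEq_choose_mod_mul_choose_div_nat (n := n) (k := k) (p := p)
      rw [hmod, hdiv] at hc
      have hd' := (hc.dvd_iff dvd_rfl).1 hd
      rcases (hp.dvd_mul).1 hd' with h1 | h1
      · have hkm : k % p < p := Nat.mod_lt _ hp.pos
        exact ArH.not_dvd_small hp (by omega) (by omega) h1
      · refine ih m hm.symm (k / p) ?_ h1
        rw [← hdiv]
        exact Nat.div_le_div_right hk

theorem two_pow_step {n s : ℕ} (h : 2 ^ s ∣ n + 1) (ho : ¬ 2 ∣ n.choose (2 ^ s)) : 2 ^ (s + 1) ∣ n + 1 := by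
  obtain ⟨m, hm⟩ := h
  have h0 : 0 < 2 ^ s := Nat.two_pow_pos s
  obtain ⟨j, hj⟩ : ∃ j, 2 ^ s = j + 1 := ⟨2 ^ s - 1, by omega⟩
  obtain ⟨m', rfl⟩ : ∃ m', m = m' + 1 := by
    refine ⟨m - 1, ?_⟩
    rcases Nat.eq_zero_or_pos m with rfl | hm0
    · simp at hm
    · omega
  have hc := Nat.choose_succ_right_eq n j
  have hnj : n - j = m' * (j + 1) := by
    rw [hj, mul_add, mul_one, mul_comm (j + 1) m'] at hm
    omega
  rw [hnj, ← mul_assoc] at hc
  have hc' : n.choose (j + 1) = n.choose j * m' := Nat.eq_of_mul_eq_mul_right (Nat.succ_pos j) hc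
  rw [hj, hc'] at ho
  have hodd : ¬ 2 ∣ m' := fun hd => ho (hd.mul_left _)
  rw [hm, pow_succ]
  exact Nat.mul_dvd_mul_left _ (by omega)

end H68.PC
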