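import Cfsg.Agent.Lib.PCon.Defs2

/-! Sets, orbits, fixed points. -/

set_option autoImplicit false

namespace H68.PC

open Equiv H69 Finset MulAction

variable {α : Type*} [Fintype α] [DecidableEq α] {p : ℕ} [Fact p.Prime] {H : Subgroup (Perm α)}

theorem b1_image_eq {S : Finset α} {g : Perm α} (h : ∀ x ∈ S, g x ∈ S) : S.image g = S := by
  apply eq_of_subset_of_card_le
  · intro y hy
    obtain ⟨x, hx, rfl⟩ := mem_image.1 hy
    exact h x hx
  · rw [card_image_of_injective _ g.injective]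

theorem b1_mem_image {S : Finset α} {g : Perm α} {y : α} : y ∈ S.image g ↔ g⁻¹ y ∈ S := by
  constructor
  · intro hy
    obtain ⟨x, hx, rfl⟩ := mem_image.1 hy
    simpa using hx
  · intro hy
    exact mem_image.2 ⟨_, hy, by simp⟩

theorem mem_st_of {S : Finset α} {g : Perm α} (h : ∀ x ∈ S, g x ∈ S) : g ∈ st S := by
  intro x
  refine ⟨fun hx => ?_, h x⟩
  rw [← b1_image_eq h, b1_mem_image] at hx
  simpa using hx

theorem mem_st_iff_image {S : Finset α} {g : Perm α} : g ∈ st S ↔ S.image g = S := by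
  constructor
  · intro h
    exact b1_image_eq fun x hx => (h x).2 hx
  · intro h
    exact mem_st_of fun x hx => h ▸ mem_image_of_mem _ hx

theorem fx_le_st (S : Finset α) : fx S ≤ st S := fun _ hg =>
  mem_st_of fun x hx => by rw [hg x hx]; exact hx

theorem st_compl (S : Finset α) : st Sᶜ = st S := by
  ext g
  simp only [mem_st, mem_compl, not_iff_not]

theorem st_univ : st (univ : Finset α) = ⊤ := by
  ext g
  simp [mem_st]

theorem fx_univ : fx (univ : Finset α) = ⊥ := by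
  ext g
  simp [mem_fx, Equiv.ext_iff]

theorem fx_anti {S T : Finset α} (h : S ⊆ T) : fx T ≤ fx S := fun _ hg x hx => hg x (h hx)

theorem fx_union (S T : Finset α) : fx (S ∪ T) = fx S ⊓ fx T := by
  ext g
  simp only [Subgroup.mem_inf, mem_fx, mem_union]
  exact ⟨fun h => ⟨fun x hx => h x (Or.inl hx), fun x hx => h x (Or.inr hx)⟩,
    fun h x hx => hx.elim (h.1 x) (h.2 x)⟩

theorem st_inter (S T : Finset α) : st S ⊓ st T ≤ st (S ∩ T) := fun g hg x => by
  rw [mem_inter, mem_inter, hg.1 x, hg.2 x]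

theorem st_union (S T : Finset α) : st S ⊓ st T ≤ st (S ∪ T) := fun g hg x => by
  rw [mem_union, mem_union, hg.1 x, hg.2 x]

theorem st_sdiff (S T : Finset α) : st S ⊓ st T ≤ st (S \ T) := fun g hg x => by
  rw [mem_sdiff, mem_sdiff, hg.1 x, hg.2 x]

theorem fx_le_st_of_sub {S T : Finset α} (h : T ⊆ S) : fx S ≤ st T :=
  (fx_anti h).trans (fx_le_st T)

theorem st_le_norm_fx (S : Finset α) : st S ≤ 𝐍(fx S) := by
  intro g hg
  rw [Subgroup.mem_normalizer_iff]
  intro h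
  constructor
  · intro hh x hx
    have : g⁻¹ x ∈ S := ((st S).inv_mem hg x).2 hx
    simp only [Perm.mul_apply]
    rw [hh _ this]
    simp
  · intro hh x hx
    have h1 := hh (g x) ((hg x).2 hx)
    simpa using h1

theorem le_fx_iff {P : Subgroup (Perm α)} {S : Finset α} : P ≤ fx S ↔ S ⊆ Fix P :=
  ⟨fun h x hx => mem_Fix.2 fun _ hg => h hg x hx, fun h g hg _ hx => mem_Fix.1 (h hx) g hg⟩

theorem Fix_anti {P Q : Subgroup (Perm α)} (h : P ≤ Q) : Fix Q ⊆ Fix P := fun _ hx =>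
  mem_Fix.2 fun g hg => mem_Fix.1 hx g (h hg)

theorem le_fx_Fix (P : Subgroup (Perm α)) : P ≤ fx (Fix P) := le_fx_iff.2 (Subset.refl _)

theorem self_mem_orb (P : Subgroup (Perm α)) (x : α) : x ∈ orb P x := mem_orb.2 ⟨1, P.one_mem, rfl⟩

theorem orb_sub {P : Subgroup (Perm α)} {S : Finset α} {x : α} (h : P ≤ st S) (hx : x ∈ S) : orb P x ⊆ S := by
  intro y hy
  obtain ⟨g, hg, rfl⟩ := mem_orb.1 hy
  exact (h hg x).2 hx

theorem le_st_orb (P : Subgroup (Perm α)) (x : α) : P ≤ st (orb P x) := fun g hg =>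
  mem_st_of fun y hy => by
    obtain ⟨h, hh, rfl⟩ := mem_orb.1 hy
    exact mem_orb.2 ⟨g * h, P.mul_mem hg hh, rfl⟩

theorem orb_eq {P : Subgroup (Perm α)} {x y : α} (hy : y ∈ orb P x) : orb P y = orb P x := by
  apply Subset.antisymm (orb_sub (le_st_orb P x) hy)
  apply orb_sub (le_st_orb P y)
  obtain ⟨g, hg, rfl⟩ := mem_orb.1 hy
  exact mem_orb.2 ⟨g⁻¹, P.inv_mem hg, by simp⟩

theorem orb_mono {P Q : Subgroup (Perm α)} (h : P ≤ Q) (x : α) : orb P x ⊆ orb Q x := by
  intro y hy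
  obtain ⟨g, hg, rfl⟩ := mem_orb.1 hy
  exact mem_orb.2 ⟨g, h hg, rfl⟩

theorem orb_card_one {P : Subgroup (Perm α)} {x : α} : (orb P x).card = 1 ↔ x ∈ Fix P := by
  constructor
  · intro h
    obtain ⟨a, ha⟩ := card_eq_one.1 h
    refine mem_Fix.2 fun g hg => ?_
    have h1 : g x ∈ orb P x := mem_orb.2 ⟨g, hg, rfl⟩
    have h2 := self_mem_orb P x
    rw [ha, mem_singleton] at h1 h2
    rw [h1, h2]
  · intro h
    refine card_eq_one.2 ⟨x, eq_singleton_iff_unique_mem.2 ⟨self_mem_orb P x, fun y hy => ?_⟩⟩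
    obtain ⟨g, hg, rfl⟩ := mem_orb.1 hy
    exact mem_Fix.1 h g hg

theorem le_st_short (P : Subgroup (Perm α)) (m : ℕ) : P ≤ st (short P m) := fun g hg x => by
  rw [mem_short, mem_short, orb_eq (mem_orb.2 ⟨g, hg, rfl⟩)]

theorem orb_card {P : Subgroup (Perm α)} (hP : IsPGroup p P) (x : α) : ∃ a, (orb P x).card = p ^ a := by
  obtain ⟨a, ha⟩ := hP.card_orbit x
  refine ⟨a, ?_⟩
  rw [← ha, ← Set.ncard_coe_finset, ← Nat.card_coe_set_eq]
  congr 2
  ext y
  rw [mem_coe, mem_orb, mem_orbit_iff]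
  exact ⟨fun ⟨g, hg, h⟩ => ⟨⟨g, hg⟩, h⟩, fun ⟨g, h⟩ => ⟨g.1, g.2, h⟩⟩

theorem le_orb_card {P : Subgroup (Perm α)} (hP : IsPGroup p P) {x : α} (hx : x ∉ Fix P) :
    p ≤ (orb P x).card := by
  obtain ⟨a, ha⟩ := orb_card hP x
  rw [← orb_card_one, ha] at hx
  rw [ha]
  rcases a with _ | a
  · simp at hx
  · exact Nat.le_self_pow (by omega) p

theorem pow_dvd_card {P : Subgroup (Perm α)} (hP : IsPGroup p P) {S : Finset α} (h : P ≤ st S) {a : ℕ}
    (hm : ∀ x ∈ S, p ^ a ≤ (orb P x).card) : p ^ a ∣ S.card := by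
  induction S using Finset.strongInduction with
  | H S ih =>
    rcases S.eq_empty_or_nonempty with rfl | ⟨x, hx⟩
    · simp
    · have hs := orb_sub h hx
      have h1 : S \ orb P x ⊂ S := sdiff_ssubset hs ⟨x, self_mem_orb P x⟩
      have h2 := ih _ h1 (le_trans (le_inf h (le_st_orb P x)) (st_sdiff _ _))
        fun y hy => hm y (mem_sdiff.1 hy).1
      obtain ⟨b, hb⟩ := orb_card hP x
      have h3 : p ^ a ∣ (orb P x).card := by
        have := hm x hx
        rw [hb] at this ⊢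
        exact pow_dvd_pow _ ((Nat.pow_le_pow_iff_right (Fact.out : p.Prime).one_lt).1 this)
      rw [← card_sdiff_add_card_eq_card hs]
      exact dvd_add h2 h3

theorem card_mod {P : Subgroup (Perm α)} (hP : IsPGroup p P) {S : Finset α} (h : P ≤ st S) :
    S.card ≡ (S ∩ Fix P).card [MOD p] := by
  have h1 : p ^ 1 ∣ (S \ Fix P).card :=
    pow_dvd_card hP (le_trans (le_inf h ((le_fx_Fix P).trans (fx_le_st _))) (st_sdiff _ _))
      fun x hx => by rw [pow_one]; exact le_orb_card hP (mem_sdiff.1 hx).2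
  rw [pow_one] at h1
  rw [← card_sdiff_add_card_inter S (Fix P)]
  obtain ⟨c, hc⟩ := h1
  rw [hc]
  simp [Nat.ModEq]

theorem short_p {P : Subgroup (Perm α)} (hP : IsPGroup p P) : short P p = Fix P := by
  ext x
  rw [mem_short]
  constructor
  · intro h
    by_contra hx
    exact absurd (le_orb_card hP hx) (by omega)
  · intro h
    rw [orb_card_one.2 h]
    exact (Fact.out : p.Prime).one_lt

theorem st_cj (S : Finset α) (g : Perm α) : st S ^ᶜ g = st (S.image g) := by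
  ext h
  rw [mem_cj, mem_st, mem_st]
  simp only [b1_mem_image, Perm.mul_apply]
  exact ⟨fun hh x => by simpa using hh (g⁻¹ x), fun hh x => by simpa using hh (g x)⟩

theorem fx_cj (S : Finset α) (g : Perm α) : fx S ^ᶜ g = fx (S.image g) := by
  ext h
  rw [mem_cj, mem_fx, mem_fx]
  simp only [Perm.mul_apply, Perm.inv_eq_iff_eq]
  constructor
  · intro hh y hy
    obtain ⟨x, hx, rfl⟩ := mem_image.1 hy
    exact hh x hx
  · intro hh x hx
    exact hh _ (mem_image_of_mem _ hx)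

theorem Fix_cj (P : Subgroup (Perm α)) (g : Perm α) : Fix (P ^ᶜ g) = (Fix P).image g := by
  ext y
  rw [b1_mem_image, mem_Fix, mem_Fix]
  constructor
  · intro h a ha
    have := h _ (cj_mem g ha)
    rw [Perm.eq_inv_iff_eq]
    simpa using this
  · intro h a ha
    obtain ⟨b, hb, rfl⟩ := mem_cj'.1 ha
    simp only [Perm.mul_apply]
    rw [h b hb]
    simp

theorem orb_cj (P : Subgroup (Perm α)) (g : Perm α) (x : α) : orb (P ^ᶜ g) (g x) = (orb P x).image g := by
  ext y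
  rw [b1_mem_image, mem_orb, mem_orb]
  constructor
  · rintro ⟨a, ha, rfl⟩
    obtain ⟨b, hb, rfl⟩ := mem_cj'.1 ha
    exact ⟨b, hb, by simp⟩
  · rintro ⟨b, hb, h⟩
    exact ⟨_, cj_mem g hb, by simp [h]⟩

theorem short_cj (P : Subgroup (Perm α)) (g : Perm α) (m : ℕ) : short (P ^ᶜ g) m = (short P m).image g := by
  ext y
  rw [b1_mem_image, mem_short, mem_short]
  have : y = g (g⁻¹ y) := by simp
  conv_lhs => rw [this, orb_cj, card_image_of_injective _ g.injective]

theorem norm_le_st_Fix (T : Subgroup (Perm α)) : 𝐍(T) ≤ st (Fix T) := fun g hg => by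
  rw [mem_st_iff_image, ← Fix_cj, cj_eq_of_mem_normalizer hg]

theorem Eqv.refl (N : Subgroup (Perm α)) (S : Finset α) : Eqv N S S := ⟨1, N.one_mem, by simp⟩

theorem Eqv.symm {N : Subgroup (Perm α)} {S T : Finset α} (h : Eqv N S T) : Eqv N T S := by
  obtain ⟨g, hg, rfl⟩ := h
  refine ⟨g⁻¹, N.inv_mem hg, ?_⟩
  rw [image_image]
  simp [Function.comp_def]

theorem Eqv.trans {N : Subgroup (Perm α)} {S T U : Finset α} (h : Eqv N S T) (h' : Eqv N T U) : Eqv N S U := by
  obtain ⟨g, hg, rfl⟩ := h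
  obtain ⟨g', hg', rfl⟩ := h'
  exact ⟨g' * g, N.mul_mem hg' hg, by rw [image_image]; rfl⟩

theorem Eqv.card_eq {N : Subgroup (Perm α)} {S T : Finset α} (h : Eqv N S T) : S.card = T.card := by
  obtain ⟨g, -, rfl⟩ := h
  rw [card_image_of_injective _ g.injective]

theorem Eqv.compl {N : Subgroup (Perm α)} {S T : Finset α} (h : Eqv N S T) : Eqv N Sᶜ Tᶜ := by
  obtain ⟨g, hg, rfl⟩ := h
  refine ⟨g, hg, ?_⟩
  ext y
  simp only [b1_mem_image, mem_compl]

theorem eqv_erase {N : Subgroup (Perm α)} {V : Finset α} {g : Perm α} (hg : g ∈ N) (hV : g ∈ st V) (u : α) :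
    Eqv N (V.erase u) (V.erase (g u)) :=
  ⟨g, hg, by rw [image_erase g.injective, mem_st_iff_image.1 hV]⟩

theorem exists_perm {S T : Finset α} (h : S.card = T.card) : ∃ σ : Perm α, S.image σ = T := by
  have e : {x // x ∈ S} ≃ {x // x ∈ T} := Finset.equivOfCardEq h
  refine ⟨e.extendSubtype, ?_⟩
  apply eq_of_subset_of_card_le
  · intro y hy
    obtain ⟨x, hx, rfl⟩ := mem_image.1 hy
    exact e.extendSubtype_mem x hx
  · rw [card_image_of_injective _ (Equiv.injective _), h]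

theorem Tr.mono {N : Subgroup (Perm α)} {Φ : Finset α} {k k' : ℕ} (h : Tr N Φ k) (hk : k' ≤ k) : Tr N Φ k' :=
  fun S hS hc σ hσ => h S hS (hc.trans hk) σ hσ

theorem Tr.of_le {N N' : Subgroup (Perm α)} {Φ : Finset α} {k : ℕ} (h : Tr N Φ k) (hN : N ≤ N') : Tr N' Φ k :=
  fun S hS hc σ hσ => let ⟨g, hg, h'⟩ := h S hS hc σ hσ; ⟨g, hN hg, h'⟩

theorem Tr.hom {N : Subgroup (Perm α)} {Φ : Finset α} {k k' : ℕ} (h : Tr N Φ k) (hk : k' ≤ k) : Hom N Φ k' := by
  intro S hS S' hS' h1 h2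
  obtain ⟨σ, rfl⟩ := exists_perm (h1.trans h2.symm)
  obtain ⟨g, hg, h'⟩ := h S hS (h1 ▸ hk) σ fun x hx => hS' (mem_image_of_mem _ hx)
  exact ⟨g, hg, image_congr h'⟩

theorem Hom.compl {N : Subgroup (Perm α)} {k : ℕ} (h : Hom N univ k) (hk : k ≤ Fintype.card α) :
    Hom N univ (Fintype.card α - k) := by
  intro S _ S' _ h1 h2
  have := (h Sᶜ (subset_univ _) S'ᶜ (subset_univ _) (by rw [card_compl]; omega)
    (by rw [card_compl]; omega)).compl
  simpa using this

end H68.PC
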