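import Cfsg.Agent.Lib.PCon.B1

/-! Sylow subgroups of stabilisers. -/

set_option autoImplicit false
set_option linter.unusedSectionVars false

namespace H68.PC

open Equiv H69 Finset MulAction

variable {α : Type*} [Fintype α] [DecidableEq α] {p : ℕ} [Fact p.Prime] {H : Subgroup (Perm α)}

theorem syl_st (h : Conc p H) {S : Finset α} {P : Subgroup (Perm α)} (hP : IsSylowIn p P (H ⊓ st S)) :
    IsSylowIn p P H := by
  obtain ⟨Q, hQ, hS⟩ := h S
  exact hP.of_parabolic hQ (le_inf hQ.le hS) inf_le_left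

theorem ex_syl_st (h : Conc p H) {S : Finset α} {R : Subgroup (Perm α)} (hR : IsPGroup p R) (hRH : R ≤ H)
    (hRS : R ≤ st S) : ∃ P, IsSylowIn p P H ∧ R ≤ P ∧ P ≤ st S := by
  obtain ⟨P, hP, hR'⟩ := exists_isSylowIn_le hR (le_inf hRH hRS)
  exact ⟨P, syl_st h hP, hR', hP.le.trans inf_le_right⟩

theorem syl_conj_st {S : Finset α} {P P' : Subgroup (Perm α)} (hP : IsSylowIn p P H) (hP' : IsSylowIn p P' H)
    (hS : P ≤ st S) (hS' : P' ≤ st S) : ∃ g ∈ H, g ∈ st S ∧ P ^ᶜ g = P' := by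
  obtain ⟨g, hg, e⟩ := (hP.mono (le_inf hP.le hS) inf_le_left).conj (hP'.mono (le_inf hP'.le hS') inf_le_left)
  exact ⟨g, hg.1, hg.2, e⟩

theorem syl_fx {S : Finset α} {P : Subgroup (Perm α)} (hP : IsSylowIn p P H) (hS : P ≤ st S) :
    IsSylowIn p (P ⊓ fx S) (H ⊓ fx S) := by
  have := (hP.mono (le_inf hP.le hS) inf_le_left).inf_normal (N := H ⊓ fx S) (inf_le_inf_left _ (fx_le_st S))
    (le_normalizer_of_cj_le fun g hg => by
      rw [cj_inf, cj_eq_of_mem hg.1, cj_eq_of_mem_normalizer (st_le_norm_fx S hg.2)])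
  rwa [← inf_assoc, inf_eq_left.2 hP.le] at this

theorem card_pgroup {P : Subgroup (Perm α)} (hP : IsPGroup p P) : Nat.card P = p ^ v p P := by
  exact (isSylowIn_self hP).card_eq_pow_factorization

theorem v_syl {P L : Subgroup (Perm α)} (hP : IsSylowIn p P L) : v p P = v p L := by
  have := hP.card_eq_pow_factorization
  rw [card_pgroup hP.isP] at this
  exact Nat.pow_right_injective (Fact.out : p.Prime).two_le this

theorem v_mono {K L : Subgroup (Perm α)} (h : K ≤ L) : v p K ≤ v p L := by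
  exact (Nat.factorization_le_iff_dvd Nat.card_pos.ne' Nat.card_pos.ne').2 (Subgroup.card_dvd_of_le h) p

theorem v_lt {K L : Subgroup (Perm α)} (hL : IsPGroup p L) (h : K < L) : v p K < v p L := by
  by_contra k
  refine h.ne (Subgroup.eq_of_le_of_card_ge h.le ?_)
  rw [card_pgroup hL, card_pgroup (hL.to_le h.le)]
  exact Nat.pow_le_pow_right (Fact.out : p.Prime).pos (not_lt.1 k)

theorem eq_of_v_le {K L : Subgroup (Perm α)} (hL : IsPGroup p L) (h : K ≤ L) (hv : v p L ≤ v p K) : K = L := by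
  by_contra k
  exact absurd (v_lt hL (lt_of_le_of_ne h k)) (not_lt.2 hv)

theorem syl_of_v {P L : Subgroup (Perm α)} (hP : IsPGroup p P) (h : P ≤ L) (hv : v p L ≤ v p P) :
    IsSylowIn p P L := by
  obtain ⟨T, hT, k⟩ := exists_isSylowIn_le hP h
  rwa [eq_of_v_le hT.isP k (by rwa [v_syl hT])]

theorem v_cj (L : Subgroup (Perm α)) (g : Perm α) : v p (L ^ᶜ g) = v p L := by
  unfold v; rw [card_cj]

theorem v_bot : v p (⊥ : Subgroup (Perm α)) = 0 := by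
  unfold v; simp

theorem ex_ord_of_v {L : Subgroup (Perm α)} (h : 0 < v p L) : ∃ g ∈ L, orderOf g = p := by
  obtain ⟨R, h1, h2, h3⟩ := exists_isPGroup_ne_bot_of_dvd (p := p) (L := L) (Nat.dvd_of_factorization_pos h.ne')
  obtain ⟨x, hx, e⟩ := exists_orderOf_eq_prime h2 h3
  exact ⟨x, h1 hx, e⟩

theorem v_st (h : Conc p H) (S : Finset α) : v p (H ⊓ st S) = v p H := by
  obtain ⟨P, hP, hS⟩ := h S
  rw [← v_syl hP, v_syl (hP.mono (le_inf hP.le hS) inf_le_left)]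

theorem v_fx_eqv {S T : Finset α} (h : Eqv H S T) : v p (H ⊓ fx S) = v p (H ⊓ fx T) := by
  obtain ⟨g, hg, rfl⟩ := h
  rw [← fx_cj, ← v_cj (H ⊓ fx S) g, cj_inf, cj_eq_of_mem hg]

theorem norm_of_v {T P : Subgroup (Perm α)} (hP : IsPGroup p P) (h : T ≤ P) (hv : v p P ≤ v p T + 1) :
    P ≤ 𝐍(T) := by
  rcases h.eq_or_lt with rfl | k
  · exact Subgroup.le_normalizer
  · have k1 := v_lt (hP.to_le inf_le_left) (lt_inf_normalizer_of_lt hP k)
    exact (eq_of_v_le hP (inf_le_left : P ⊓ 𝐍(T) ≤ P) (by omega)).ge.trans inf_le_right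

theorem ex_step {T R B : Subgroup (Perm α)} (hR : IsPGroup p R) (hB : IsPGroup p B) (h : T < R)
    (hBT : B ≤ 𝐍(T)) (hBR : B ≤ 𝐍(R)) :
    ∃ x ∈ R, x ∈ 𝐍(T) ∧ x ∉ T ∧ x ^ p ∈ T ∧ ∀ b ∈ B, b * x * b⁻¹ * x⁻¹ ∈ T := by
  have hM : B ≤ 𝐍(R ⊓ 𝐍(T)) := le_normalizer_of_cj_le fun g hg => by
    rw [cj_inf, cj_eq_of_mem_normalizer (hBR hg), cj_eq_of_mem (hBT hg)]
  obtain ⟨X, ⟨h1, h2, h3⟩, mn⟩ := exists_minimal_of_wellFoundedLT
    (fun X : Subgroup (Perm α) => T < X ∧ X ≤ R ⊓ 𝐍(T) ∧ B ≤ 𝐍(X)) ⟨_, lt_inf_normalizer_of_lt hR h, le_rfl, hM⟩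
  have hX : IsPGroup p X := hR.to_le (h2.trans inf_le_left)
  have l0 : T ⊔ ⁅X, B⁆ ≤ X := sup_le h1.le (Subgroup.le_normalizer_iff_commutator_le_left.1 h3)
  have hc : ⁅X, B⁆ ≤ T := by
    by_contra k
    refine h1.not_ge (le_of_le_sup_commutator hX hB h3 h1.le hBT (mn ⟨?_, l0.trans h2, ?_⟩ l0))
    · exact lt_of_le_of_ne le_sup_left fun e => k (le_sup_right.trans e.ge)
    · exact le_normalizer_of_cj_le fun g hg => by
        rw [cj_sup, cj_commutator, cj_eq_of_mem_normalizer (hBT hg), cj_eq_of_mem_normalizer (h3 hg),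
          cj_eq_of_mem hg]
  obtain ⟨x, hx, hxT⟩ := SetLike.exists_of_lt h1
  obtain ⟨k, hk⟩ := hX ⟨x, hx⟩
  have hk' : x ^ p ^ k ∈ T := by rw [show x ^ p ^ k = 1 from congrArg Subtype.val hk]; exact T.one_mem
  have ex : ∃ y ∈ X, y ∉ T ∧ y ^ p ∈ T := by
    clear hk
    induction k with
    | zero => exact absurd (by simpa using hk') hxT
    | succ k ih =>
      by_cases e : x ^ p ^ k ∈ T
      · exact ih e
      · exact ⟨_, X.pow_mem hx _, e, by rwa [← pow_mul, ← pow_succ]⟩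
  obtain ⟨y, hy, k1, k2⟩ := ex
  refine ⟨y, (h2 hy).1, (h2 hy).2, k1, k2, fun b hb => hc ?_⟩
  rw [Subgroup.commutator_comm]
  exact Subgroup.commutator_mem_commutator hb hy

theorem pgroup_sup_zpowers {T : Subgroup (Perm α)} (hT : IsPGroup p T) {x : Perm α} (hx : x ∈ 𝐍(T))
    {a : ℕ} (hp : x ^ p ^ a ∈ T) : IsPGroup p ↥(T ⊔ Subgroup.zpowers x) := by
  obtain ⟨k, hk⟩ := hT ⟨_, hp⟩
  have e : x ^ p ^ (a + k) = 1 := by rw [pow_add, pow_mul]; exact congrArg Subtype.val hk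
  obtain ⟨j, -, hj⟩ := (Nat.dvd_prime_pow Fact.out).1 (orderOf_dvd_of_pow_eq_one e)
  exact hT.to_sup_of_normal_left' (IsPGroup.of_card (by rw [Nat.card_zpowers, hj])) (Subgroup.zpowers_le.2 hx)

theorem witt {T : Subgroup (Perm α)} {Z : Finset α} {g : Perm α} (hg : g ∈ H) (hZ : Z ⊆ Fix T)
    (hT : IsSylowIn p T (H ⊓ fx (Z.image g))) : ∃ g' ∈ H ⊓ 𝐍(T), ∀ x ∈ Z, g' x = g x := by
  have h1 : T ^ᶜ g ≤ H ⊓ fx (Z.image g) :=
    le_inf (cj_le_of_mem (hT.le.trans inf_le_left) hg) (fx_cj Z g ▸ cj_mono g (le_fx_iff.2 hZ))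
  obtain ⟨k, hk, e⟩ := (hT.of_card_le (isPGroup_cj hT.isP g) h1 (card_cj T g).ge).conj hT
  rw [cj_cj] at e
  exact ⟨k * g, ⟨H.mul_mem hk.1 hg, cj_eq_self_iff.1 e⟩, fun x hx => hk.2 _ (mem_image_of_mem g hx)⟩

theorem C0.inter_Fix (h : C0 p H) {S : Finset α} {P : Subgroup (Perm α)} (hP : IsSylowIn p P H)
    (hS : P ≤ st S) : (S ∩ Fix P).card = S.card % p := by
  have h1 : (S ∩ Fix P).card ≤ p - 1 := h.hf P hP ▸ card_le_card inter_subset_right
  have := (Fact.out : p.Prime).pos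
  rw [card_mod hP.isP hS, Nat.mod_eq_of_lt (by omega)]

theorem C0.dvd (h : C0 p H) : p ∣ Fintype.card α + 1 := by
  obtain ⟨P, hP⟩ := exists_isSylowIn p H
  have h1 := card_mod hP.isP (S := univ) (by rw [st_univ]; exact le_top)
  rw [univ_inter, h.hf P hP, card_univ] at h1
  have h2 := h1.add_right 1
  rw [Nat.sub_add_cancel (Fact.out : p.Prime).pos] at h2
  exact (Nat.modEq_zero_iff_dvd).1 (h2.trans (Nat.modEq_zero_iff_dvd.2 dvd_rfl))

theorem C0.fix_mod (h : C0 p H) {T : Subgroup (Perm α)} (hT : IsPGroup p T) : p ∣ (Fix T).card + 1 := by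
  have h1 := card_mod hT (S := univ) (by rw [st_univ]; exact le_top)
  rw [univ_inter, card_univ] at h1
  exact (Nat.modEq_zero_iff_dvd).1 ((h1.add_right 1).symm.trans (Nat.modEq_zero_iff_dvd.2 h.dvd))

theorem C0.ex_Fix (h : C0 p H) {S : Finset α} (hS : S.card = p - 1) : ∃ P, IsSylowIn p P H ∧ Fix P = S := by
  obtain ⟨P, hP, k⟩ := h.conc S
  have h1 := h.inter_Fix hP k
  have := (Fact.out : p.Prime).pos
  rw [hS, Nat.mod_eq_of_lt (by omega)] at h1
  exact ⟨P, hP, (eq_of_subset_of_card_le inter_subset_right (by rw [h1, h.hf P hP])).symm.trans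
    (eq_of_subset_of_card_le inter_subset_left (by rw [h1, hS]))⟩

end H68.PC
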