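import Cfsg.Agent.Lib.PCon.B2

/-! Orbits on subsets. -/

set_option autoImplicit false

namespace H68.PC

open Equiv H69 Finset MulAction

variable {α : Type*} [Fintype α] [DecidableEq α] {p : ℕ} [Fact p.Prime] {H : Subgroup (Perm α)}

open Pointwise in
theorem br_rel (H : Subgroup (Perm α)) (S : Finset α) : (sorb H S).card = (H ⊓ st S).relIndex H := by
  have e1 : stabilizer H S = (H ⊓ st S).subgroupOf H := by
    ext g
    rw [mem_stabilizer_iff, Subgroup.mem_subgroupOf, Subgroup.mem_inf, mem_st_iff_image]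
    exact ⟨fun h => ⟨g.2, h⟩, fun h => h.2⟩
  have e2 : orbit H S = (sorb H S : Set (Finset α)) := by
    ext T
    rw [mem_coe, mem_sorb]
    exact ⟨fun ⟨g, e⟩ => ⟨g, g.2, e⟩, fun ⟨g, hg, e⟩ => ⟨⟨g, hg⟩, e⟩⟩
  rw [Subgroup.relIndex, ← e1, index_stabilizer, e2, Set.ncard_coe_finset]

theorem br_set (H : Subgroup (Perm α)) (S : Finset α) :
    Nat.card {t : Set α // ∃ h ∈ H, t = h '' (S : Set α)} = (sorb H S).card := by
  rw [← Set.ncard_coe_finset, ← Set.ncard_image_of_injective _ Finset.coe_injective,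
    ← Nat.card_coe_set_eq]
  refine Nat.card_congr (Equiv.subtypeEquivRight fun t => ⟨?_, ?_⟩)
  · rintro ⟨g, hg, rfl⟩
    exact ⟨S.image g, mem_sorb.2 ⟨g, hg, rfl⟩, coe_image⟩
  · rintro ⟨T, hT, rfl⟩
    obtain ⟨g, hg, rfl⟩ := mem_sorb.1 hT
    exact ⟨g, hg, coe_image⟩

theorem card_sorb (H : Subgroup (Perm α)) (S : Finset α) :
    (sorb H S).card * Nat.card ↥(H ⊓ st S) = Nat.card H := by
  rw [br_rel, ← Nat.card_congr (Subgroup.subgroupOfEquivOfLe (inf_le_left : H ⊓ st S ≤ H)).toEquiv]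
  exact Subgroup.index_mul_card _

theorem sorb_sub (H : Subgroup (Perm α)) (S : Finset α) : sorb H S ⊆ powersetCard S.card univ := by
  exact fun T hT => mem_powersetCard.2 ⟨subset_univ _, (mem_sorb.1 hT).card_eq.symm⟩

theorem card_sorb_le (H : Subgroup (Perm α)) (S : Finset α) :
    (sorb H S).card ≤ (Fintype.card α).choose S.card := by
  simpa using card_le_card (sorb_sub H S)

theorem card_sorb_hom {S : Finset α} (h : Hom H univ S.card) :
    (sorb H S).card = (Fintype.card α).choose S.card := by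
  refine (card_sorb_le H S).antisymm ?_
  simpa using card_le_card (s := powersetCard S.card univ) fun T hT =>
    mem_sorb.2 (h S (subset_univ _) T (subset_univ _) rfl (mem_powersetCard.1 hT).2)

theorem hom_of_card {S : Finset α} (h : (Fintype.card α).choose S.card ≤ (sorb H S).card) :
    Hom H univ S.card := by
  have e := eq_of_subset_of_card_le (sorb_sub H S) (by simpa using h)
  have k : ∀ T : Finset α, T.card = S.card → Eqv H S T := fun T hT =>
    mem_sorb.1 (e.ge (mem_powersetCard.2 ⟨subset_univ _, hT⟩))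
  exact fun T _ T' _ hT hT' => (k T hT).symm.trans (k T' hT')

theorem conc_iff : Conc p H ↔ ∀ S : Finset α, ¬ p ∣ (sorb H S).card := by
  refine forall_congr' fun S => ?_
  rw [br_rel]
  refine ⟨fun ⟨P, hP, k⟩ => hP.not_dvd_relIndex_of_le (le_inf hP.le k) inf_le_left, fun k => ?_⟩
  obtain ⟨P, hP⟩ := exists_isSylowIn p (H ⊓ st S)
  exact ⟨P, hP.trans_of_not_dvd inf_le_left k, hP.le.trans inf_le_right⟩

theorem set_iff : (∀ s : Set α, ¬ p ∣ Nat.card {t : Set α // ∃ h ∈ H, t = h '' s}) ↔ Conc p H := by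
  rw [conc_iff]
  refine ⟨fun h S => br_set H S ▸ h S, fun h s => ?_⟩
  rw [← (Set.toFinite s).coe_toFinset, br_set]
  exact h _

theorem hom_not_dvd (hc : Conc p H) {k : ℕ} (hk : k ≤ Fintype.card α) (h : Hom H univ k) :
    ¬ p ∣ (Fintype.card α).choose k := by
  obtain ⟨S, -, rfl⟩ := exists_subset_card_eq (s := (univ : Finset α)) (card_univ (α := α) ▸ hk)
  exact card_sorb_hom h ▸ conc_iff.1 hc S

theorem hom_giant (hn : 3 ≤ Fintype.card α) (h : alternatingGroup α ≤ H) (k : ℕ) : Hom H univ k := by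
  intro S _ T _ hS hT
  obtain ⟨σ, rfl⟩ := exists_perm (hS.trans hT.symm)
  rcases Int.units_eq_one_or (Perm.sign σ) with e | e
  · exact ⟨σ, h (Perm.mem_alternatingGroup.2 e), rfl⟩
  have k : ∀ U : Finset α, 1 < U.card → ∃ a b, a ≠ b ∧ swap a b ∈ st U := fun U hU => by
    obtain ⟨a, ha, b, hb, e⟩ := one_lt_card.1 hU
    refine ⟨a, b, e, mem_st_of fun x hx => ?_⟩
    rw [swap_apply_def]
    split_ifs <;> assumption
  obtain ⟨a, b, ab, m⟩ : ∃ a b, a ≠ b ∧ swap a b ∈ st S := by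
    by_cases c : 1 < S.card
    · exact k S c
    · exact st_compl S ▸ k Sᶜ (by rw [card_compl]; omega)
  refine ⟨σ * swap a b, h (Perm.mem_alternatingGroup.2 (by simp [e, ab])), ?_⟩
  rw [Perm.coe_mul, ← image_image, mem_st_iff_image.1 m]

theorem conc_giant (hn : 3 ≤ Fintype.card α) (h : alternatingGroup α ≤ H) :
    Conc p H ↔ ∀ k ≤ Fintype.card α, ¬ p ∣ (Fintype.card α).choose k := by
  refine ⟨fun c k hk => hom_not_dvd c hk (hom_giant hn h k), fun c => conc_iff.2 fun S => ?_⟩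
  rw [card_sorb_hom (hom_giant hn h _)]
  exact c _ (card_le_univ S)

theorem conc_of_dvd (h2 : ¬ p ^ 2 ∣ Nat.card H) (h : ∀ S : Finset α, p ∣ Nat.card ↥(H ⊓ st S)) : Conc p H := by
  exact conc_iff.2 fun S k => h2 (by rw [sq, ← card_sorb H S]; exact mul_dvd_mul k (h S))

end H68.PC
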