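import Cfsg.Agent.Lib.PCon.Up

/-! Majority classes. -/

set_option autoImplicit false

namespace H68.PC

open Equiv H69 Finset MulAction

variable {α : Type*} [Fintype α] [DecidableEq α] {p : ℕ} [Fact p.Prime] {H : Subgroup (Perm α)}

theorem Maj.congr {V X X' : Finset α} (h : Maj H V X) (h' : Eqv H X X') : Maj H V X' := by
  obtain ⟨γ, hγ, k⟩ := h
  exact ⟨γ, hγ, fun u hu ne => (k u hu ne).trans h'⟩

theorem Maj.eqv {V V' X : Finset α} (h : Maj H V X) (h' : Eqv H V V') : Maj H V' X := by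
  obtain ⟨γ, hγ, k⟩ := h
  obtain ⟨g, hg, rfl⟩ := h'
  refine ⟨g γ, mem_image_of_mem g hγ, fun u' hu' ne => ?_⟩
  obtain ⟨u, hu, rfl⟩ := mem_image.1 hu'
  refine Eqv.trans (Eqv.symm ⟨g, hg, image_erase g.injective V u⟩) (k u hu fun e => ne (by rw [e]))

theorem Maj.uniq {V X X' : Finset α} (hV : 3 ≤ V.card) (h : Maj H V X) (h' : Maj H V X') : Eqv H X X' := by
  obtain ⟨γ, -, k⟩ := h
  obtain ⟨γ', -, k'⟩ := h'
  obtain ⟨u, hu, hn⟩ := exists_mem_notMem_of_card_lt_card (s := {γ, γ'}) (t := V)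
    (lt_of_le_of_lt card_le_two hV)
  rw [mem_insert, mem_singleton, not_or] at hn
  exact (k u hu hn.1).symm.trans (k' u hu hn.2)

theorem Maj.two {V X : Finset α} (h : Maj H V X) {u u' : α} (hu : u ∈ V) (hu' : u' ∈ V) (hne : u ≠ u')
    (he : Eqv H (V.erase u) (V.erase u')) : Maj H V (V.erase u) := by
  refine h.congr (Eqv.symm ?_)
  obtain ⟨γ, -, k⟩ := h
  by_cases e : u = γ
  · exact he.trans (k u' hu' fun d => hne (e.trans d.symm))
  · exact k u hu e

theorem ex_maj (h : C0 p H) {k : ℕ} (hk : p ∣ k) (ho : One p H k) (V : Finset α)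
    (hV : V.card = k + 1) : ∃ X, Maj H V X := by
  obtain ⟨P, hP, f, hf, fP, hs, ht⟩ := ex_apex h hk ho V hV
  rcases (V.erase f).eq_empty_or_nonempty with e | ⟨x, hx⟩
  · exact ⟨∅, f, hf, fun u hu ne => absurd (mem_erase.2 ⟨ne, hu⟩) (e ▸ notMem_empty u)⟩
  refine ⟨V.erase x, f, hf, fun u hu ne => ?_⟩
  obtain ⟨g, hg, rfl⟩ := mem_orb.1 ((ht u (mem_erase.2 ⟨ne, hu⟩)).ge hx)
  refine eqv_erase (hP.le hg) (mem_st_of fun y hy => ?_) u
  by_cases e : y = f
  · rwa [e, mem_Fix.1 fP g hg]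
  · exact mem_of_mem_erase ((hs hg y).2 (mem_erase.2 ⟨e, hy⟩))

theorem hom_fin {k : ℕ} (hk : 2 ≤ k) (hex : ∀ V : Finset α, V.card = k + 1 → ∃ X, Maj H V X)
    (hc : ∀ W : Finset α, W.card = k + 2 → ∀ u ∈ W, ∀ u' ∈ W, ∀ X, Maj H (W.erase u) X → Maj H (W.erase u') X)
    (hz : ∀ Z : Finset α, Z.card = k - 1 → ∀ y, y ∉ Z →
      ∃ y1, y1 ∉ Z ∧ y1 ≠ y ∧ Eqv H (insert y Z) (insert y1 Z))
    (hh : Hom H univ (k - 1)) : Hom H univ k := by
  have cA : ∀ Z : Finset α, Z.card = k - 1 → ∀ y y', y ∉ Z → y' ∉ Z → y' ≠ y →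
      (insert y' (insert y Z)).card = k + 1 := fun Z hZ y y' hy hy' ne => by
    rw [card_insert_of_notMem (by simp [ne, hy']), card_insert_of_notMem hy]
    omega
  have A : ∀ Z : Finset α, Z.card = k - 1 → ∀ y y', y ∉ Z → y' ∉ Z → y' ≠ y →
      Maj H (insert y' (insert y Z)) (insert y Z) := fun Z hZ y y' hy hy' ne => by
    obtain ⟨y1, h1, n1, e⟩ := hz Z hZ y hy
    obtain ⟨X, hX⟩ := hex _ (cA Z hZ y y1 hy h1 n1)
    have e1 : (insert y1 (insert y Z)).erase y1 = insert y Z := erase_insert (by simp [n1, h1])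
    have e2 : (insert y1 (insert y Z)).erase y = insert y1 Z := by
      rw [insert_comm]; exact erase_insert (by simp [n1.symm, hy])
    have m := hX.two (mem_insert_self _ _) (mem_insert_of_mem (mem_insert_self _ _)) n1 (by rwa [e1, e2])
    rw [e1] at m
    by_cases d : y1 = y'
    · rwa [← d]
    have n2 : y' ∉ insert y1 (insert y Z) := by simp [Ne.symm d, ne, hy']
    have := hc (insert y' (insert y1 (insert y Z)))
      (by rw [card_insert_of_notMem n2, cA Z hZ y y1 hy h1 n1]) y' (mem_insert_self _ _) y1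
      (mem_insert_of_mem (mem_insert_self _ _)) _ (by rwa [erase_insert n2])
    rwa [insert_comm, erase_insert (by simp [d, n1, h1])] at this
  have B : ∀ Z : Finset α, Z.card = k - 1 → ∀ y y', y ∉ Z → y' ∉ Z → Eqv H (insert y Z) (insert y' Z) :=
    fun Z hZ y y' hy hy' => by
      by_cases e : y' = y
      · rw [e]; exact Eqv.refl _ _
      have m := A Z hZ y' y hy' hy (Ne.symm e)
      rw [insert_comm] at m
      exact (A Z hZ y y' hy hy' e).uniq (by rw [cA Z hZ y y' hy hy' e]; omega) m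
  intro S _ S' _ hS hS'
  obtain ⟨y, hy⟩ := card_pos.1 (show 0 < S.card by omega)
  obtain ⟨y', hy'⟩ := card_pos.1 (show 0 < S'.card by omega)
  have c' : (S'.erase y').card = k - 1 := by rw [card_erase_of_mem hy', hS']
  obtain ⟨g, hg, e⟩ := hh (S.erase y) (subset_univ _) (S'.erase y') (subset_univ _)
    (by rw [card_erase_of_mem hy, hS]) c'
  have n1 : g y ∉ S'.erase y' := by
    rw [← e, image_erase g.injective]; exact notMem_erase _ _
  have := B _ c' (g y) y' n1 (notMem_erase _ _)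
  rw [insert_erase hy'] at this
  refine Eqv.trans ⟨g, hg, ?_⟩ this
  rw [← e, ← image_insert, insert_erase hy]

end H68.PC
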