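import Cfsg.Agent.Lib.PCon.B1

/-! The number of orbits on subsets grows up to the middle. -/

set_option autoImplicit false

namespace H68.PC

open Equiv H69 Finset MulAction

variable {α : Type*} [Fintype α] [DecidableEq α] {p : ℕ} [Fact p.Prime] {H : Subgroup (Perm α)}

theorem lw_dc (k : ℕ) (F : Finset α → α → ℚ) :
    ∑ V ∈ powersetCard (k + 1) univ, ∑ u ∈ V, F V u =
      ∑ T ∈ powersetCard k univ, ∑ u ∈ Tᶜ, F (insert u T) u := by
  rw [sum_sigma', sum_sigma']
  refine sum_nbij' (fun x => ⟨x.1.erase x.2, x.2⟩) (fun y => ⟨insert y.2 y.1, y.2⟩) ?_ ?_ ?_ ?_ ?_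
  · rintro ⟨V, u⟩ h
    simp only [mem_sigma, mem_powersetCard_univ] at h ⊢
    exact ⟨by rw [card_erase_of_mem h.2, h.1]; rfl, by simp⟩
  · rintro ⟨T, u⟩ h
    simp only [mem_sigma, mem_powersetCard_univ, mem_compl] at h ⊢
    exact ⟨by rw [card_insert_of_notMem h.2, h.1], by simp⟩
  · rintro ⟨V, u⟩ h
    simp only [mem_sigma] at h
    simp [insert_erase h.2]
  · rintro ⟨T, u⟩ h
    simp only [mem_sigma, mem_compl] at h
    simp [erase_insert h.2]
  · rintro ⟨V, u⟩ h
    simp only [mem_sigma] at h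
    simp [insert_erase h.2]

theorem lw_inner (w : ℕ → ℚ) (S T : Finset α) : ∑ u ∈ Tᶜ, w (insert u T ∩ S).card =
    (S \ T).card * w ((T ∩ S).card + 1) + ((S ∪ T)ᶜ).card * w (T ∩ S).card := by
  rw [← sum_filter_add_sum_filter_not Tᶜ (· ∈ S)]
  congr 1
  · rw [sum_congr (s₂ := S \ T) (g := fun _ => w ((T ∩ S).card + 1)) (by ext; simp [and_comm]), sum_const,
      nsmul_eq_mul]
    intro u hu
    rw [mem_sdiff] at hu
    rw [insert_inter_of_mem hu.1, card_insert_of_notMem (by simp [hu.2])]
  · rw [sum_congr (s₂ := (S ∪ T)ᶜ) (g := fun _ => w (T ∩ S).card) (by ext; simp [and_comm]), sum_const,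
      nsmul_eq_mul]
    intro u hu
    rw [insert_inter_of_notMem (fun h => mem_compl.1 hu (mem_union_left _ h))]

theorem up_inj {k : ℕ} (hk : 2 * k + 1 ≤ Fintype.card α) (f : Finset α → ℚ)
    (h : ∀ V : Finset α, V.card = k + 1 → ∑ u ∈ V, f (V.erase u) = 0) (S : Finset α) (hS : S.card = k) :
    f S = 0 := by
  let w : ℕ → ℚ := fun j => ∏ i ∈ range j, -(((Fintype.card α : ℚ) - 2 * k + i) / (k - i))
  have hk' : (2 * k + 1 : ℚ) ≤ Fintype.card α := by exact_mod_cast hk
  have hw : w k ≠ 0 := prod_ne_zero_iff.2 fun i hi => by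
    have h1 : (i : ℚ) < k := by exact_mod_cast mem_range.1 hi
    have h2 : (0 : ℚ) ≤ i := Nat.cast_nonneg i
    exact neg_ne_zero.2 (div_ne_zero (by linarith) (by linarith))
  have e := lw_dc k fun V u => w (V ∩ S).card * f (V.erase u)
  rw [sum_eq_zero fun V hV => by rw [← mul_sum, h V (mem_powersetCard_univ.1 hV), mul_zero],
    sum_congr rfl (g := fun T => (∑ u ∈ Tᶜ, w (insert u T ∩ S).card) * f T) fun T _ => by
      rw [sum_mul]; exact sum_congr rfl fun u hu => by rw [erase_insert (mem_compl.1 hu)],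
    sum_eq_single_of_mem S (mem_powersetCard_univ.2 hS), lw_inner, sdiff_self, inter_self, union_self,
    card_compl, hS] at e
  · have : ((Fintype.card α - k : ℕ) : ℚ) ≠ 0 := Nat.cast_ne_zero.2 (by omega)
    simpa [this, hw] using e.symm
  intro T hT hne
  have hT := mem_powersetCard_univ.1 hT
  have h1 := card_sdiff_add_card_inter S T
  have h2 := card_union_add_card_inter S T
  have h3 := card_compl (S ∪ T)
  have h4 : (S ∪ T).card ≤ Fintype.card α := card_le_univ _
  have h5 : (S ∩ T).card < k := hT ▸ card_lt_card (inter_subset_right.ssubset_of_ne fun e =>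
    hne (eq_of_subset_of_card_le (inter_eq_right.1 e) (by omega)))
  rw [lw_inner, inter_comm T S]
  generalize (S ∩ T).card = j at *
  have e1 : ((S \ T).card : ℚ) = k - j := by rw [eq_sub_iff_add_eq]; exact_mod_cast hS ▸ h1
  have e2 : (((S ∪ T)ᶜ).card : ℚ) = Fintype.card α - 2 * k + j := by
    have : ((S ∪ T)ᶜ).card + 2 * k = Fintype.card α + j := by omega
    have : (((S ∪ T)ᶜ).card : ℚ) + 2 * k = Fintype.card α + j := by exact_mod_cast this
    linarith
  have e3 : (k : ℚ) - j ≠ 0 := sub_ne_zero.2 (by exact_mod_cast h5.ne')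
  have e4 : w (j + 1) = w j * -(((Fintype.card α : ℚ) - 2 * k + j) / (k - j)) := prod_range_succ _ _
  rw [e1, e2, e4]
  field_simp
  ring

theorem nO_le {k : ℕ} (hk : 2 * k + 1 ≤ Fintype.card α) : nO H k ≤ nO H (k + 1) := by
  let Q := fun k => Quot fun S S' : {S : Finset α // S.card = k} => Eqv H S.1 S'.1
  let f : (Q k → ℚ) → Finset α → ℚ := fun φ S => if h : S.card = k then φ (Quot.mk _ ⟨S, h⟩) else 0
  have inv : ∀ φ S T, Eqv H S T → f φ S = f φ T := fun φ S T e => by
    by_cases h : S.card = k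
    · have h' : T.card = k := e.card_eq ▸ h
      simp only [f, dif_pos h, dif_pos h']
      exact congrArg φ (Quot.sound e)
    · simp only [f, dif_neg h, dif_neg (e.card_eq ▸ h)]
  let L : (Q k → ℚ) →ₗ[ℚ] (Q (k + 1) → ℚ) :=
    { toFun := fun φ => Quot.lift (fun V => ∑ u ∈ V.1, f φ (V.1.erase u)) (by
        rintro V V' ⟨g, hg, e⟩
        rw [← e, sum_image fun _ _ _ _ h => g.injective h]
        exact sum_congr rfl fun u _ => inv _ _ _ ⟨g, hg, image_erase g.injective _ _⟩)
      map_add' := fun φ ψ => funext fun c => Quot.inductionOn c fun V => by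
        show ∑ u ∈ V.1, f (φ + ψ) (V.1.erase u) = ∑ u ∈ V.1, f φ (V.1.erase u) + ∑ u ∈ V.1, f ψ (V.1.erase u)
        rw [← sum_add_distrib]
        exact sum_congr rfl fun u _ => by simp only [f]; split_ifs <;> simp
      map_smul' := fun a φ => funext fun c => Quot.inductionOn c fun V => by
        show ∑ u ∈ V.1, f (a • φ) (V.1.erase u) = a * ∑ u ∈ V.1, f φ (V.1.erase u)
        rw [mul_sum]
        exact sum_congr rfl fun u _ => by simp only [f]; split_ifs <;> simp }
  have hL : Function.Injective L := (injective_iff_map_eq_zero L).2 fun φ e =>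
    funext fun c => Quot.inductionOn c fun S => by
      have := up_inj hk (f φ) (fun V hV => congrFun e (Quot.mk _ ⟨V, hV⟩)) S.1 S.2
      simp only [f, dif_pos S.2] at this
      exact this
  haveI := Fintype.ofFinite (Q k)
  haveI := Fintype.ofFinite (Q (k + 1))
  have := LinearMap.finrank_le_finrank_of_injective hL
  rwa [Module.finrank_fintype_fun_eq_card, Module.finrank_fintype_fun_eq_card, ← Nat.card_eq_fintype_card,
    ← Nat.card_eq_fintype_card] at this

end H68.PC
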