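import Cfsg.Agent.Lib.PCon.Up
import Cfsg.Agent.Lib.PCon.LW

/-! An orbit with a fixed point added. -/

set_option autoImplicit false

namespace H68.PC

open Equiv H69 Finset MulAction

variable {α : Type*} [Fintype α] [DecidableEq α] {p : ℕ} [Fact p.Prime] {H : Subgroup (Perm α)}

theorem d2_mk {k : ℕ} (S T : {S : Finset α // S.card = k}) :
    Quot.mk (fun S S' : {S : Finset α // S.card = k} => Eqv H S.1 S'.1) S = Quot.mk _ T ↔
      Eqv H S.1 T.1 :=
  Equivalence.quot_mk_eq_iff ⟨fun S => Eqv.refl H S.1, fun h => h.symm, fun h h' => h.trans h'⟩ S T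

theorem d2_mono {k : ℕ} (j : ℕ) (hk : 2 * (k + j) ≤ Fintype.card α + 1) : nO H k ≤ nO H (k + j) := by
  induction j with
  | zero => exact le_rfl
  | succ j ih => exact (ih (by omega)).trans (nO_le (k := k + j) (by omega))

theorem d2_down (h : C0 p H) : nO H (2 * p - 1) ≤ nO H p := by
  have key : ∀ c : Quot fun S S' : {S : Finset α // S.card = 2 * p - 1} => Eqv H S.1 S'.1,
      ∃ (O : {S : Finset α // S.card = p}) (P : Subgroup (Perm α)), IsSylowIn p P H ∧ P ≤ st O.1 ∧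
        c.out.1 = O.1 ∪ short P (p ^ 1) := fun c => by
    obtain ⟨P, hP, O, hO, k1, k2⟩ := base (s := 1) h.conc h.short1 c.out.1 (by rw [pow_one]; exact c.out.2)
    exact ⟨⟨O, by rwa [pow_one] at hO⟩, P, hP, k1, k2⟩
  choose O P hP hO e using key
  refine Nat.card_le_card_of_injective (fun c => Quot.mk _ (O c)) fun c c' k => ?_
  obtain ⟨g, hg, k1, k2⟩ := eqv_base (hP c) (hP c') (hO c) (hO c') ((d2_mk _ _).1 k) (p ^ 1)
  rw [← c.out_eq, ← c'.out_eq, d2_mk]
  exact ⟨g, hg, by rw [e, e, image_union, k1, k2]⟩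

theorem d2_not_mem (h : C0 p H) {P : Subgroup (Perm α)} (hP : IsSylowIn p P H) {U : Finset α}
    (hU : U.card = p) (hPU : P ≤ st U) {f : α} (hf : f ∈ Fix P) : f ∉ U := fun k => by
  have := h.inter_Fix hP hPU
  rw [hU, Nat.mod_self, card_eq_zero] at this
  exact notMem_empty f (this ▸ mem_inter.2 ⟨k, hf⟩)

theorem d2_st {P : Subgroup (Perm α)} {U : Finset α} (hPU : P ≤ st U) {f : α} (hf : f ∈ Fix P) :
    P ≤ st (insert f U) := fun g hg => mem_st_of fun x hx => by
  rcases mem_insert.1 hx with rfl | hx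
  · rw [mem_Fix.1 hf g hg]
    exact mem_insert_self _ _
  · exact mem_insert_of_mem ((hPU hg x).2 hx)

theorem d2_lem (h : C0 p H) {P P' : Subgroup (Perm α)} (hP : IsSylowIn p P H) (hP' : IsSylowIn p P' H)
    {U U' : Finset α} (hU : U.card = p) (hU' : U'.card = p) (hPU : P ≤ st U) (hPU' : P' ≤ st U')
    {f f' : α} (hf : f ∈ Fix P) (hf' : f' ∈ Fix P') (e : Eqv H (insert f U) (insert f' U')) :
    Eqv H U U' := by
  obtain ⟨g, hg, k1, k2⟩ := eqv_base hP hP' (d2_st hPU hf) (d2_st hPU' hf') e p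
  rw [short_p hP.isP, short_p hP'.isP] at k2
  have n1 := d2_not_mem h hP hU hPU hf
  have n2 := d2_not_mem h hP' hU' hPU' hf'
  have e1 : g f = f' := by
    have a1 : g f ∈ insert f' U' := k1 ▸ mem_image_of_mem g (mem_insert_self _ _)
    exact (mem_insert.1 a1).resolve_right
      (d2_not_mem h hP' hU' hPU' (k2 ▸ mem_image_of_mem g hf))
  refine ⟨g, hg, ?_⟩
  rw [← erase_insert n1, image_erase g.injective, k1, e1, erase_insert n2]

theorem eqv_ins (h : C0 p H) (hn : 4 * p ≤ Fintype.card α + 3) {P : Subgroup (Perm α)}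
    (hP : IsSylowIn p P H) {U : Finset α} (hU : U.card = p) (hPU : P ≤ st U) {f f' : α} (hf : f ∈ Fix P)
    (hf' : f' ∈ Fix P) : Eqv H (insert f U) (insert f' U) := by
  have p2 : 2 ≤ p := (Fact.out : p.Prime).two_le
  have le : nO H (p + 1) ≤ nO H p := by
    refine le_trans ?_ (d2_down h)
    have := d2_mono (H := H) (k := p + 1) (p - 2) (by omega)
    rwa [show p + 1 + (p - 2) = 2 * p - 1 by omega] at this
  have key : ∀ c : Quot fun S S' : {S : Finset α // S.card = p} => Eqv H S.1 S'.1,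
      ∃ (S : {S : Finset α // S.card = p}) (R : Subgroup (Perm α)) (y : α), Quot.mk _ S = c ∧
        IsSylowIn p R H ∧ R ≤ st S.1 ∧ y ∈ Fix R ∧
        (c = Quot.mk _ ⟨U, hU⟩ → insert y S.1 = insert f U) := fun c => by
    by_cases hc : c = Quot.mk _ ⟨U, hU⟩
    · exact ⟨⟨U, hU⟩, P, f, hc.symm, hP, hPU, hf, fun _ => rfl⟩
    · obtain ⟨R, hR, k⟩ := h.conc c.out.1
      obtain ⟨y, hy⟩ : (Fix R).Nonempty := card_pos.1 (by rw [h.hf R hR]; omega)
      exact ⟨c.out, R, y, c.out_eq, hR, k, hy, fun e => absurd e hc⟩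
  choose S R y e hR hS hy hc using key
  have cd : ∀ c, (insert (y c) (S c).1).card = p + 1 := fun c => by
    rw [card_insert_of_notMem (d2_not_mem h (hR c) (S c).2 (hS c) (hy c)), (S c).2]
  have inj : Function.Injective fun c => Quot.mk
      (fun S S' : {S : Finset α // S.card = p + 1} => Eqv H S.1 S'.1) ⟨_, cd c⟩ := fun c c' k => by
    rw [← e c, ← e c', d2_mk]
    exact d2_lem h (hR c) (hR c') (S c).2 (S c').2 (hS c) (hS c') (hy c) (hy c') ((d2_mk _ _).1 k)
  obtain ⟨c, k⟩ := (inj.bijective_of_nat_card_le le).2 (Quot.mk _ ⟨insert f' U, by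
    rw [card_insert_of_notMem (d2_not_mem h hP hU hPU hf'), hU]⟩)
  have k' : Eqv H (insert (y c) (S c).1) (insert f' U) := (d2_mk _ _).1 k
  rwa [hc c ((e c).symm.trans ((d2_mk _ _).2
    (d2_lem h (hR c) hP (S c).2 hU (hS c) hPU (hy c) hf' k')))] at k'

end H68.PC
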