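import Cfsg.Agent.Lib.PCon.B1
import Cfsg.Agent.S0711
import Cfsg.Agent.S0713
import Cfsg.Agent.S0743
import Cfsg.Agent.S0745
import Cfsg.Agent.S0748

/-! Multiple transitivity on all points. -/

set_option autoImplicit false
set_option linter.unusedSectionVars false

namespace H68.PC

open Equiv H69 Finset MulAction

variable {α : Type*} [Fintype α] [DecidableEq α] {p : ℕ} [Fact p.Prime] {H : Subgroup (Perm α)}

theorem tr_iff {k : ℕ} (hk : k ≤ Fintype.card α) : Tr H univ k ↔ IsMultiplyPretransitive H α k := by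
  rw [isMultiplyPretransitive_iff]
  constructor
  · intro h x y
    obtain ⟨σ, hσ⟩ := Perm.exists_extending_pair x y x.injective y.injective
    obtain ⟨g, hg, e⟩ := h (univ.map x) (subset_univ _) (by simp) σ fun _ _ => mem_univ _
    exact ⟨⟨g, hg⟩, Function.Embedding.ext fun i => (e _ (mem_map_of_mem x (mem_univ i))).trans (hσ i)⟩
  · intro h S _ hS σ _
    obtain ⟨T, hT, hc⟩ := exists_superset_card_eq hS hk
    let x : Fin k ↪ α := (T.equivFinOfCardEq hc).symm.toEmbedding.trans (Function.Embedding.subtype _)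
    obtain ⟨g, e⟩ := h x (x.trans σ.toEmbedding)
    refine ⟨g, g.2, fun z hz => ?_⟩
    have e1 : x (T.equivFinOfCardEq hc ⟨z, hT hz⟩) = z := by simp [x]
    rw [← e1]
    exact DFunLike.congr_fun e _

theorem hom_iff {k : ℕ} : Hom H univ k ↔ IsPretransitive H (Set.powersetCard α k) := by
  rw [isPretransitive_iff]
  constructor
  · intro h s t
    obtain ⟨g, hg, e⟩ := h s.1 (subset_univ _) t.1 (subset_univ _) s.2 t.2
    exact ⟨⟨g, hg⟩, Subtype.ext e⟩
  · intro h S _ T _ hS hT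
    obtain ⟨g, e⟩ := h ⟨S, hS⟩ ⟨T, hT⟩
    exact ⟨g, g.2, congrArg Subtype.val e⟩

theorem gleason0 {k : ℕ} (hk : 1 ≤ k) (hkn : k < Fintype.card α)
    (h : ∀ S : Finset α, S.card = k → ∃ P, P ≤ H ∧ IsPGroup p P ∧ Fix P = S) : Tr H univ k := by
  refine (tr_iff hkn.le).2 (Cfsg.Agent.S0743.result H (Fact.out : p.Prime) hk hkn fun S hS => ?_)
  obtain ⟨P, h1, h2, rfl⟩ := h S hS
  refine ⟨P.subgroupOf H, h2.comap_subtype, Set.ext fun x => ?_⟩
  rw [mem_coe, mem_Fix, mem_fixedPoints]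
  exact ⟨fun e g hg => e ⟨⟨g, h1 hg⟩, hg⟩, fun e g => e _ g.2⟩

theorem lw5 {k : ℕ} (hk : 5 ≤ k) (hkn : 2 * k ≤ Fintype.card α) (h : Hom H univ k) : Tr H univ k := by
  exact (tr_iff (by omega)).2 (Cfsg.Agent.S0748.result H hk hkn (hom_iff.1 h))

theorem giant_of_tr {k : ℕ} (h : Tr H univ k) (hk : 3 ≤ k) (hkn : k < Fintype.card α)
    (hn : Fintype.card α + 3 < 3 * k) : alternatingGroup α ≤ H := by
  obtain ⟨S, -, hS⟩ := exists_subset_card_eq (s := (univ : Finset α)) hkn.le
  obtain ⟨a, ha⟩ : S.Nonempty := card_pos.1 (by omega)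
  obtain ⟨b, -, hb⟩ := exists_mem_notMem_of_card_lt_card (s := S) (t := univ) (by rwa [hS])
  obtain ⟨g, hg, e⟩ := h S (subset_univ _) hS.le (swap a b) fun _ _ => mem_univ _
  have h1 : g ≠ 1 := fun e1 => hb (by
    have := e a ha
    rw [e1, swap_apply_left, Perm.one_apply] at this
    exact this ▸ ha)
  have h2 : g.support ⊆ (S.erase a)ᶜ := fun x hx => mem_compl.2 fun hx' => Perm.mem_support.1 hx (by
    obtain ⟨c1, c2⟩ := mem_erase.1 hx'
    rw [e x c2, swap_apply_of_ne_of_ne c1 fun (e1 : x = b) => hb (e1 ▸ c2)])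
  have h3 := card_le_card h2
  rw [card_compl, card_erase_of_mem ha, hS] at h3
  exact (Cfsg.Agent.S0711.result H hk hkn.le ((tr_iff hkn.le).1 h) g hg h1 (by omega)).2

theorem giant_of_supp {k : ℕ} (h : Tr H univ k) (hk : 3 ≤ k) (hkn : k ≤ Fintype.card α) {g : Perm α}
    (hg : g ∈ H) (h1 : g ≠ 1) (hs : g.support.card < 2 * k - 2) : alternatingGroup α ≤ H := by
  exact (Cfsg.Agent.S0711.result H hk hkn ((tr_iff hkn).1 h) g hg h1 hs).2

theorem giant7 (hn : Fintype.card α = 7) (h : Tr H univ 3) : alternatingGroup α ≤ H := by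
  have h4 := (h.hom le_rfl).compl (by omega)
  have h5 := (h.hom (k' := 2) (by omega)).compl (by omega)
  rw [hn] at h4 h5
  refine giant_of_tr (k := 4) ((tr_iff (by omega)).2 (by_contra fun hc => ?_)) (by omega) (by omega) (by omega)
  have := Cfsg.Agent.S0745.result H (k := 5) (by omega) (by omega) ((tr_iff (by omega)).1 h) hc
    (hom_iff.1 h4) (hom_iff.1 h5)
  omega

theorem giant_of_pcyc (hprim : IsPreprimitive H α) {g : Perm α} (hg : g ∈ H) (ho : g ^ p = 1)
    (hs : g.support.card = p) (hn : p ≤ 3 ∨ p + 3 ≤ Fintype.card α) : alternatingGroup α ≤ H := by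
  have hp : p.Prime := Fact.out
  have h2 := hp.two_le
  by_cases e2 : p = 2
  · rw [Perm.subgroup_eq_top_of_isPreprimitive_of_isSwap_mem hprim g (Perm.card_support_eq_two.1 (hs.trans e2)) hg]
    exact le_top
  by_cases e3 : p = 3
  · exact Perm.alternatingGroup_le_of_isPreprimitive_of_isThreeCycle_mem hprim
      (card_support_eq_three_iff.1 (hs.trans e3)) hg
  have h1 : g ≠ 1 := fun e => by
    rw [e, Perm.support_one, card_empty] at hs
    omega
  have h3 := orderOf_eq_prime ho h1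
  exact Cfsg.Agent.S0713.result H hprim hp (by omega) (by omega)
    (Perm.isCycle_of_prime_order (h3 ▸ hp) (by omega)) hs hg

end H68.PC
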