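import Cfsg.Agent.Lib.PCon.Col
import Cfsg.Agent.Lib.PCon.D2
import Cfsg.Agent.Lib.PCon.Rel2

/-! The start of the induction for odd primes. -/

set_option autoImplicit false

namespace H68.PC

open Equiv H69 Finset MulAction

variable {α : Type*} [Fintype α] [DecidableEq α] {p : ℕ} [Fact p.Prime] {H : Subgroup (Perm α)}

theorem d3_all (hp : p ≠ 2) (h : C0 p H) (hn : 4 * p ≤ Fintype.card α + 1) (W : Finset α)
    (hW : W.card = p + 2) : ∃ A, ∀ u ∈ W, Maj H (W.erase u) A := by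
  have p2 := (Fact.out : p.Prime).two_le
  have p3 : 3 ≤ p := by omega
  obtain ⟨P, hP, hPW⟩ := h.conc W
  have c2 : (W ∩ Fix P).card = 2 := by
    rw [h.inter_Fix hP hPW, hW, Nat.add_mod_left, Nat.mod_eq_of_lt (by omega)]
  have ce : ∀ u ∈ W, (W.erase u).card = p + 1 := fun u hu => by rw [card_erase_of_mem hu, hW]; rfl
  have ex : ∀ u ∈ W, ∃ X, Maj H (W.erase u) X := fun u hu => ex_maj h dvd_rfl h.one _ (ce u hu)
  have key : ∀ d ∈ W ∩ Fix P, ∀ o ∈ W \ Fix P, Maj H (W.erase d) ((W.erase d).erase o) := by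
    intro d hd o ho
    obtain ⟨hd, fd⟩ := mem_inter.1 hd
    obtain ⟨ho, fo⟩ := mem_sdiff.1 ho
    obtain ⟨g, hg, go⟩ : ∃ g ∈ P, g o ≠ o := by
      by_contra k
      push Not at k
      exact fo (mem_Fix.2 k)
    have gs : g ∈ st (W.erase d) := mem_st_of fun x hx => mem_erase.2 ⟨fun e =>
      (mem_erase.1 hx).1 (g.injective (e.trans (mem_Fix.1 fd g hg).symm)),
      (hPW hg x).2 (mem_erase.1 hx).2⟩
    have oV : o ∈ W.erase d := mem_erase.2 ⟨fun e => fo (e ▸ fd), ho⟩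
    obtain ⟨X, hX⟩ := ex d hd
    exact hX.two oV ((gs o).2 oV) go.symm (eqv_erase (hP.le hg) gs o)
  have cO : (W \ Fix P).card = p := by
    have := card_sdiff_add_card_inter W (Fix P)
    omega
  have PO : P ≤ st (W \ Fix P) := (le_inf hPW ((le_fx_Fix P).trans (fx_le_st _))).trans (st_sdiff _ _)
  obtain ⟨d, d', dd, e⟩ := card_eq_two.1 c2
  have hd : d ∈ W ∩ Fix P := e ▸ mem_insert_self _ _
  have hd' : d' ∈ W ∩ Fix P := e ▸ mem_insert_of_mem (mem_singleton_self _)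
  have mm : ∀ x, x ∈ W → x ∈ Fix P → x = d ∨ x = d' := fun x h1 h2 => by
    simpa using (e ▸ mem_inter.2 ⟨h1, h2⟩ : x ∈ ({d, d'} : Finset α))
  have er : ∀ a b, a ∈ W ∩ Fix P → b ∈ W ∩ Fix P → a ≠ b → (∀ x, x ∈ W → x ∈ Fix P → x = a ∨ x = b) →
      W.erase a = insert b (W \ Fix P) := fun a b ha hb ab m => by
    ext x
    rw [mem_erase, mem_insert, mem_sdiff]
    constructor
    · rintro ⟨h1, h2⟩
      by_cases k : x ∈ Fix P
      · exact Or.inl ((m x h2 k).resolve_left h1)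
      · exact Or.inr ⟨h2, k⟩
    · rintro (rfl | ⟨h1, h2⟩)
      · exact ⟨ab.symm, (mem_inter.1 hb).1⟩
      · exact ⟨fun k => h2 (k ▸ (mem_inter.1 ha).2), h1⟩
  have ev : Eqv H (W.erase d) (W.erase d') := by
    rw [er d d' hd hd' dd mm, er d' d hd' hd dd.symm fun x h1 h2 => (mm x h1 h2).symm]
    exact eqv_ins h (by omega) hP cO PO (mem_inter.1 hd').2 (mem_inter.1 hd).2
  obtain ⟨o, ho⟩ : (W \ Fix P).Nonempty := card_pos.1 (by omega)
  have dW := (mem_inter.1 hd).1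
  have dW' := (mem_inter.1 hd').1
  refine ⟨(W.erase d).erase o, fun u hu => ?_⟩
  by_cases k : u ∈ Fix P
  · rcases mm u hu k with rfl | rfl
    · exact key _ hd o ho
    · exact (key _ hd o ho).eqv ev
  · have uO : u ∈ W \ Fix P := mem_sdiff.2 ⟨hu, k⟩
    have e1 : Eqv H ((W.erase d).erase u) ((W.erase d').erase u) :=
      Maj.uniq (by rw [ce _ dW']; omega) ((key _ hd u uO).eqv ev) (key _ hd' u uO)
    have e2 : Eqv H ((W.erase d).erase u) ((W.erase d).erase o) :=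
      Maj.uniq (by rw [ce _ dW]; omega) (key _ hd u uO) (key _ hd o ho)
    obtain ⟨X, hX⟩ := ex u hu
    rw [erase_right_comm (a := d), erase_right_comm (a := d')] at e1
    rw [erase_right_comm (a := d) (b := u)] at e2
    exact (hX.two (mem_erase.2 ⟨fun e => k (e ▸ (mem_inter.1 hd).2), dW⟩)
      (mem_erase.2 ⟨fun e => k (e ▸ (mem_inter.1 hd').2), dW'⟩) dd e1).congr e2

theorem d3 (hp : p ≠ 2) (h : C0 p H) (hn : 4 * p ≤ Fintype.card α + 1) : Tr H univ (2 * p - 1) := by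
  have p2 := (Fact.out : p.Prime).two_le
  have p3 : 3 ≤ p := by omega
  have t : Tr H univ (p - 1) := gleason0 (p := p) (by omega) (by omega) fun S hS => by
    obtain ⟨P, hP, e⟩ := h.ex_Fix hS
    exact ⟨P, hP.le, hP.isP, e⟩
  have hm : Hom H univ p := hom_fin p2 (ex_maj h dvd_rfl h.one) (fun W hW u hu u' hu' X hX => by
    obtain ⟨A, hA⟩ := d3_all hp h hn W hW
    exact (hA u' hu').congr (Maj.uniq (by rw [card_erase_of_mem hu, hW]; omega) (hA u hu) hX))
    (fun Z hZ => hz_of_short h.conc (s := 1) le_rfl h.short1 Z (by rw [pow_one, hZ])) (t.hom le_rfl)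
  have hu := hom_up h.conc (s := 1) h.short1 (by rw [pow_one]; exact hm)
  rw [pow_one] at hu
  exact lw5 (by omega) (by omega) hu

end H68.PC
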