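import Mathlib
import Cfsg.Agent.Lib.LocStruct.SylowIn

/-! Permutation groups in which every subset is fixed by a Sylow subgroup: definitions. -/

set_option autoImplicit false

namespace H68.PC

open Equiv H69 Finset

variable {α : Type*} [Fintype α] [DecidableEq α]

/-- the setwise stabiliser -/
def st (S : Finset α) : Subgroup (Perm α) where
  carrier := {g | ∀ x, g x ∈ S ↔ x ∈ S}
  mul_mem' := fun {a b} ha hb x => by rw [Perm.mul_apply, ha, hb]
  one_mem' := fun _ => Iff.rfl
  inv_mem' := fun {a} ha x => by rw [← ha, Perm.inv_def, Equiv.apply_symm_apply]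

/-- the pointwise stabiliser -/
def fx (S : Finset α) : Subgroup (Perm α) where
  carrier := {g | ∀ x ∈ S, g x = x}
  mul_mem' := fun {a b} ha hb x hx => by rw [Perm.mul_apply, hb x hx, ha x hx]
  one_mem' := fun _ _ => rfl
  inv_mem' := fun {a} ha x hx => by rw [Perm.inv_eq_iff_eq, ha x hx]

open Classical in
/-- the fixed points -/
noncomputable def Fix (P : Subgroup (Perm α)) : Finset α := univ.filter fun x => ∀ g ∈ P, g x = x

open Classical in
/-- the orbit of a point -/
noncomputable def orb (P : Subgroup (Perm α)) (x : α) : Finset α := univ.filter fun y => ∃ g ∈ P, g x = y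

/-- the points in orbits of length less than `m` -/
noncomputable def short (P : Subgroup (Perm α)) (m : ℕ) : Finset α := univ.filter fun x => (orb P x).card < m

/-- the exponent of `p` in the order -/
noncomputable def v (p : ℕ) (L : Subgroup (Perm α)) : ℕ := (Nat.card L).factorization p

/-- the exponent of `p` in `n!` -/
def w (p n : ℕ) : ℕ := n.factorial.factorization p

/-- every subset is fixed by a Sylow subgroup -/
def Conc (p : ℕ) (H : Subgroup (Perm α)) : Prop := ∀ S : Finset α, ∃ P, IsSylowIn p P H ∧ P ≤ st S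

/-- every subset is fixed by a Sylow subgroup, and Sylow subgroups fix `p - 1` points -/
structure C0 (p : ℕ) (H : Subgroup (Perm α)) : Prop where
  conc : Conc p H
  hf : ∀ P, IsSylowIn p P H → (Fix P).card = p - 1

/-- `N` is `k`-transitive on `Φ` -/
def Tr (N : Subgroup (Perm α)) (Φ : Finset α) (k : ℕ) : Prop :=
  ∀ S ⊆ Φ, S.card ≤ k → ∀ σ : Perm α, (∀ x ∈ S, σ x ∈ Φ) → ∃ g ∈ N, ∀ x ∈ S, g x = σ x

/-- two subsets in one orbit -/
def Eqv (N : Subgroup (Perm α)) (S S' : Finset α) : Prop := ∃ g ∈ N, S.image g = S'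

/-- `N` is `k`-homogeneous on `Φ` -/
def Hom (N : Subgroup (Perm α)) (Φ : Finset α) (k : ℕ) : Prop :=
  ∀ S ⊆ Φ, ∀ S' ⊆ Φ, S.card = k → S'.card = k → Eqv N S S'

/-- all but at most one of the sets `V - u` are in the orbit of `X` -/
def Maj (H : Subgroup (Perm α)) (V X : Finset α) : Prop := ∃ γ ∈ V, ∀ u ∈ V, u ≠ γ → Eqv H (V.erase u) X

/-- the number of orbits on `k`-subsets -/
noncomputable def nO (H : Subgroup (Perm α)) (k : ℕ) : ℕ :=
  Nat.card (Quot fun S S' : {S : Finset α // S.card = k} => Eqv H S.1 S'.1)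

/-- no Sylow subgroup fixes `U` pointwise -/
def Lset (p : ℕ) (H : Subgroup (Perm α)) (U : Finset α) : Prop := ¬ ∃ P, IsSylowIn p P H ∧ P ≤ fx U

/-- `q` is the least size of a set that no Sylow subgroup fixes pointwise -/
structure Q0 (p : ℕ) (H : Subgroup (Perm α)) (q : ℕ) : Prop where
  conc : Conc p H
  lt : ∀ U : Finset α, U.card < q → ¬ Lset p H U
  ex : ∃ U : Finset α, U.card = q ∧ Lset p H U

open Classical in
/-- the clique of `U` -/
noncomputable def cl (p : ℕ) (H : Subgroup (Perm α)) (U : Finset α) : Finset α :=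
  U ∪ univ.filter fun b => ∃ u ∈ U, Lset p H (insert b (U.erase u))

/-- a Sylow 2-subgroup of the stabiliser of three points fixes no further point -/
def G1 (H : Subgroup (Perm α)) : Prop :=
  ∀ X : Finset α, X.card = 3 → ∀ T, IsSylowIn 2 T (H ⊓ fx X) → Fix T = X

/-- every Sylow subgroup that fixes a `k`-set is transitive on it -/
def One (p : ℕ) (H : Subgroup (Perm α)) (k : ℕ) : Prop :=
  ∀ P, IsSylowIn p P H → ∀ Y : Finset α, Y.card = k → P ≤ st Y → ∀ x ∈ Y, orb P x = Y

/-- an invariant Steiner quadruple system on eight points -/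
structure SQ (H : Subgroup (Perm α)) (B : Finset (Finset α)) : Prop where
  card : ∀ S ∈ B, S.card = 4
  tri : ∀ Z : Finset α, Z.card = 3 → ∃! S, S ∈ B ∧ Z ⊆ S
  compl : ∀ S ∈ B, Sᶜ ∈ B
  inv : ∀ g ∈ H, ∀ S ∈ B, S.image g ∈ B
  non : ∀ S : Finset α, S.card = 4 → S ∉ B → 56 * Nat.card ↥(H ⊓ st S) = Nat.card H
  tr3 : ∀ Z : Finset α, Z.card = 3 → 56 * Nat.card ↥(H ⊓ st Z) = Nat.card H
  hom3 : Hom H univ 3
  tr2 : Tr H univ 2
  o3 : ∀ g ∈ H, orderOf g = 3 → g.support.card = 6
  d3 : ∀ Z : Finset α, Z.card = 3 → 3 ∣ Nat.card ↥(H ⊓ st Z)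

omit [Fintype α] [DecidableEq α] in
theorem mem_st {S : Finset α} {g : Perm α} : g ∈ st S ↔ ∀ x, g x ∈ S ↔ x ∈ S := Iff.rfl
omit [Fintype α] [DecidableEq α] in
theorem mem_fx {S : Finset α} {g : Perm α} : g ∈ fx S ↔ ∀ x ∈ S, g x = x := Iff.rfl
theorem mem_Fix {P : Subgroup (Perm α)} {x : α} : x ∈ Fix P ↔ ∀ g ∈ P, g x = x := by simp [Fix]
theorem mem_orb {P : Subgroup (Perm α)} {x y : α} : y ∈ orb P x ↔ ∃ g ∈ P, g x = y := by simp [orb]
theorem mem_short {P : Subgroup (Perm α)} {m : ℕ} {x : α} : x ∈ short P m ↔ (orb P x).card < m := by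
  simp [short]
theorem mem_cl {p : ℕ} {H : Subgroup (Perm α)} {U : Finset α} {b : α} :
    b ∈ cl p H U ↔ b ∈ U ∨ ∃ u ∈ U, Lset p H (insert b (U.erase u)) := by simp [cl]

end H68.PC
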