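import Cfsg.Agent.Lib.PCon.Defs

/-! The group induced on a subset. -/

set_option autoImplicit false

namespace H68.PC

open Equiv H69 Finset

variable {α : Type*} [Fintype α] [DecidableEq α]

/-- the permutations of `S` induced by elements of `L` -/
def res (S : Finset α) (L : Subgroup (Perm α)) : Subgroup (Perm ↥S) where
  carrier := {σ | ∃ g ∈ L, ∀ x : ↥S, g (x : α) = (σ x : α)}
  mul_mem' := by
    rintro a b ⟨g, hg, ha⟩ ⟨h, hh, hb⟩
    exact ⟨g * h, L.mul_mem hg hh, fun x => by rw [Perm.mul_apply, hb, ha, Perm.mul_apply]⟩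
  one_mem' := ⟨1, L.one_mem, fun _ => rfl⟩
  inv_mem' := by
    rintro a ⟨g, hg, ha⟩
    refine ⟨g⁻¹, L.inv_mem hg, fun x => ?_⟩
    rw [Perm.inv_eq_iff_eq, ha]
    simp

omit [Fintype α] [DecidableEq α] in
theorem mem_res {S : Finset α} {L : Subgroup (Perm α)} {σ : Perm ↥S} :
    σ ∈ res S L ↔ ∃ g ∈ L, ∀ x : ↥S, g (x : α) = (σ x : α) := Iff.rfl

/-- `P` induces a Sylow subgroup of the symmetric group on `S` -/
def Full (p : ℕ) (P : Subgroup (Perm α)) (S : Finset α) : Prop :=
  IsPGroup p P ∧ P ≤ st S ∧ v p (P ⊓ fx S) + w p S.card ≤ v p P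

open Classical in
/-- the orbit of a subset -/
noncomputable def sorb (H : Subgroup (Perm α)) (S : Finset α) : Finset (Finset α) :=
  univ.filter fun T => Eqv H S T

theorem mem_sorb {H : Subgroup (Perm α)} {S T : Finset α} : T ∈ sorb H S ↔ Eqv H S T := by
  simp [sorb]

end H68.PC
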