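import Cfsg.Agent.Lib.PCon.R0

/-! Sylow subgroups of the symmetric group. -/

set_option autoImplicit false

namespace H68.PC

open Equiv H69 Finset MulAction

variable {α : Type*} [Fintype α] [DecidableEq α] {p : ℕ} [Fact p.Prime] {H : Subgroup (Perm α)}

theorem sy0_mem {x : Perm α} {a y : α} : y ∈ orb (Subgroup.zpowers x) a ↔ x.SameCycle a y := by
  rw [mem_orb]
  exact ⟨fun ⟨_, ⟨i, hi⟩, h⟩ => ⟨i, by rw [← h, ← hi]⟩, fun ⟨i, hi⟩ => ⟨_, ⟨i, rfl⟩, hi⟩⟩

theorem sy0_card {x : Perm α} {a : α} (hxa : x a ≠ a) (ho : (x ^ p) a = a) :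
    (orb (Subgroup.zpowers x) a).card = p := by
  classical
  have h1 : Function.minimalPeriod (x • ·) a = p := by
    have : Function.IsPeriodicPt (x • ·) p a := by
      change (x • ·)^[p] a = a
      rw [smul_iterate_apply]; exact ho
    exact Function.minimalPeriod_eq_prime this hxa
  rw [← h1, minimalPeriod_eq_card]
  refine (Fintype.card_of_subtype _ fun y => ?_).symm
  rw [mem_orb]
  exact ⟨fun ⟨g, hg, h⟩ => ⟨⟨g, hg⟩, h⟩, fun ⟨g, h⟩ => ⟨g.1, g.2, h⟩⟩

theorem sy0_z {Q : Subgroup (Perm α)} (hQ : IsPGroup p Q) {x : Perm α} (hx : x ∈ Q) {a : α} (ha : x a ≠ a) :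
    ∃ z : Perm α, z ^ p = 1 ∧ z a ≠ a ∧ ∀ q ∈ Q, q * z = z * q := by
  have hS := le_st_orb Q a
  have hR := res_pgroup (orb Q a) hQ
  have ne : res (orb Q a) Q ≠ ⊥ := by
    obtain ⟨σ, hσ, e⟩ := exists_res hx (hS hx)
    intro h
    rw [h, Subgroup.mem_bot] at hσ
    have := e ⟨a, self_mem_orb Q a⟩
    rw [hσ] at this
    exact ha this
  obtain ⟨σ, ⟨-, hc⟩, ho⟩ := exists_orderOf_eq_prime hR.to_inf_left (center_ne_bot hR ne)
  have cm : ∀ q ∈ Q, q * Perm.ofSubtype σ = Perm.ofSubtype σ * q := by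
    intro q hq
    obtain ⟨τ, hτ, e⟩ := exists_res hq (hS hq)
    ext y
    rw [Perm.mul_apply, Perm.mul_apply]
    by_cases hy : y ∈ orb Q a
    · have e1 := congrArg (fun f : Perm (orb Q a) => (f ⟨y, hy⟩ : α)) (hc τ hτ)
      simp only [Perm.mul_apply] at e1
      rw [Perm.ofSubtype_apply_of_mem σ hy, e, e1, e ⟨y, hy⟩, Perm.ofSubtype_apply_coe]
    · rw [Perm.ofSubtype_apply_of_not_mem σ hy, Perm.ofSubtype_apply_of_not_mem σ (fun h => hy ((hS hq y).1 h))]
  refine ⟨Perm.ofSubtype σ, by rw [← map_pow, ← ho, pow_orderOf_eq_one, map_one], fun h => ?_, cm⟩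
  have : σ = 1 := by
    ext ⟨y, hy⟩
    obtain ⟨q, hq, rfl⟩ := mem_orb.1 hy
    have e1 := congrArg (fun f : Perm α => f a) (cm q hq)
    simp only [Perm.mul_apply] at e1
    rw [h, Perm.ofSubtype_apply_of_mem σ hy] at e1
    exact e1.symm
  rw [this, orderOf_one] at ho
  exact (Fact.out : p.Prime).one_lt.ne ho

omit [Fintype α] [DecidableEq α] in
theorem sy0_cm {g z : Perm α} (h : g * z = z * g) (i : ℤ) (y : α) : g ((z ^ i) y) = (z ^ i) (g y) := by
  rw [← Perm.mul_apply, ← Perm.mul_apply, (Commute.zpow_right h i).eq]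

omit [Fintype α] [DecidableEq α] in
theorem sy0_pow {g z : Perm α} (h : g * z = z * g) {i : ℤ} {y : α} (e : g y = (z ^ i) y) (m : ℕ) :
    (g ^ m) y = (z ^ (i * m)) y := by
  induction m with
  | zero => simp
  | succ m ih =>
    rw [pow_succ', Perm.mul_apply, ih, sy0_cm h, e, ← Perm.mul_apply, ← zpow_add]
    congr 2
    push_cast; ring

/-- the permutations that commute with `z` and keep its cycles -/
def sy0_E (z : Perm α) : Subgroup (Perm α) where
  carrier := {g | g * z = z * g ∧ ∀ y, ∃ i : ℤ, g y = (z ^ i) y}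
  mul_mem' := by
    rintro g h ⟨c1, h1⟩ ⟨c2, h2⟩
    refine ⟨(Commute.mul_left c1 c2).eq, fun y => ?_⟩
    obtain ⟨i, hi⟩ := h1 y
    obtain ⟨j, hj⟩ := h2 y
    exact ⟨j + i, by rw [Perm.mul_apply, hj, sy0_cm c1, hi, zpow_add, Perm.mul_apply]⟩
  one_mem' := ⟨by simp, fun y => ⟨0, rfl⟩⟩
  inv_mem' := by
    rintro g ⟨c, h⟩
    refine ⟨(Commute.inv_left c).eq, fun y => ?_⟩
    obtain ⟨i, hi⟩ := h (g⁻¹ y)
    refine ⟨-i, ?_⟩
    rw [zpow_neg, Perm.eq_inv_iff_eq, ← hi]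
    simp

theorem sy0_le {Q : Subgroup (Perm α)} (hQ : IsSylowIn p Q ⊤) {z : Perm α} (hz : z ^ p = 1)
    (hc : ∀ q ∈ Q, q * z = z * q) : sy0_E z ≤ Q := by
  refine hQ.le_of_le_normalizer (fun g => ⟨1, Subtype.ext ?_⟩) le_top ?_
  · ext y
    obtain ⟨i, hi⟩ := g.2.2 y
    change (g.1 ^ p ^ 1) y = y
    rw [pow_one, sy0_pow g.2.1 hi, mul_comm, zpow_mul, zpow_natCast, hz, one_zpow, Perm.one_apply]
  · have k : ∀ q ∈ Q, ∀ g ∈ sy0_E z, q * g * q⁻¹ ∈ sy0_E z := by
      rintro q hq g ⟨c, h⟩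
      have c1 : Commute q z := hc q hq
      refine ⟨((c1.mul_left c).mul_left c1.inv_left).eq, fun y => ?_⟩
      obtain ⟨i, hi⟩ := h (q⁻¹ y)
      exact ⟨i, by rw [Perm.mul_apply, Perm.mul_apply, hi, sy0_cm c1]; simp⟩
    intro q hq
    rw [Subgroup.mem_normalizer_iff]
    intro g
    refine ⟨k q hq g, fun h => ?_⟩
    have := k _ (Q.inv_mem hq) _ h
    simpa [mul_assoc] using this

theorem cyc0 (hp : p ≠ 2) {Q : Subgroup (Perm α)} (hQ : IsSylowIn p Q ⊤) {x : Perm α} (hx : x ∈ Q)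
    (ho : x ^ p = 1) (hs : x.support.card = 2 * p) {a : α} (ha : x a ≠ a) : x.cycleOf a ∈ Q := by
  obtain ⟨z, hz, za, hc⟩ := sy0_z hQ.isP hx ha
  have c := hc x hx
  have cB : (orb (Subgroup.zpowers z) a).card = p := sy0_card za (by rw [hz]; rfl)
  have key : z.SameCycle a (x a) := by
    by_contra hn
    have za' : z (x a) ≠ x a := fun e => za (x.injective (by rw [← Perm.mul_apply, c, Perm.mul_apply, e]))
    have cB' : (orb (Subgroup.zpowers z) (x a)).card = p := sy0_card za' (by rw [hz]; rfl)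
    have sub : ∀ b, x b ≠ b → orb (Subgroup.zpowers z) b ⊆ x.support := by
      intro b hb y hy
      obtain ⟨i, rfl⟩ := sy0_mem.1 hy
      rw [Perm.mem_support, sy0_cm c]
      exact fun e => hb ((z ^ i).injective e)
    have dj : Disjoint (orb (Subgroup.zpowers z) a) (orb (Subgroup.zpowers z) (x a)) := by
      rw [Finset.disjoint_left]
      exact fun y h1 h2 => hn ((sy0_mem.1 h1).trans (sy0_mem.1 h2).symm)
    have un : orb (Subgroup.zpowers z) a ∪ orb (Subgroup.zpowers z) (x a) = x.support :=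
      eq_of_subset_of_card_le (union_subset (sub a ha) (sub _ fun e => ha (x.injective e)))
        (by rw [card_union_of_disjoint dj, cB, cB', hs]; omega)
    have m2 : x (x a) ∈ x.support := Perm.mem_support.2 fun e => ha (x.injective (x.injective e))
    rw [← un, mem_union, sy0_mem, sy0_mem] at m2
    rcases m2 with ⟨i, hi⟩ | ⟨i, hi⟩
    · obtain ⟨m, hm⟩ := (Fact.out : p.Prime).odd_of_ne_two hp
      have c2 : x ^ 2 * z = z * x ^ 2 := (Commute.pow_left c 2).eq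
      have := sy0_pow c2 (i := i) (y := a) (by rw [hi, sq]; rfl) (m + 1)
      rw [← pow_mul, show 2 * (m + 1) = p + 1 by omega, pow_succ, ho, one_mul] at this
      exact hn ⟨_, this.symm⟩
    · rw [← sy0_cm c] at hi
      exact hn ⟨i, x.injective hi⟩
  obtain ⟨i, hi⟩ := key
  have eq : orb (Subgroup.zpowers x) a = orb (Subgroup.zpowers z) a := by
    refine eq_of_subset_of_card_le (fun y hy => ?_) (by rw [cB, sy0_card ha (by rw [ho]; rfl)])
    obtain ⟨m, -, rfl⟩ := (sy0_mem.1 hy).exists_pow_eq'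
    exact sy0_mem.2 ⟨_, (sy0_pow c hi.symm m).symm⟩
  have sc : ∀ y, x.SameCycle a y ↔ z.SameCycle a y := fun y => by rw [← sy0_mem, ← sy0_mem, eq]
  refine sy0_le hQ hz hc ⟨?_, fun y => ?_⟩
  · ext y
    rw [Perm.mul_apply, Perm.mul_apply, Perm.cycleOf_apply, Perm.cycleOf_apply]
    by_cases hy : x.SameCycle a y
    · rw [if_pos hy, if_pos ((sc _).2 ((sc y).1 hy).apply_right), ← Perm.mul_apply, c, Perm.mul_apply]
    · rw [if_neg hy, if_neg fun h => hy ((sc y).2 (Perm.sameCycle_apply_right.1 ((sc _).1 h)))]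
  · rw [Perm.cycleOf_apply]
    by_cases hy : x.SameCycle a y
    · obtain ⟨j, rfl⟩ := (sc y).1 hy
      refine ⟨i, ?_⟩
      rw [if_pos hy, sy0_cm c, ← hi, ← Perm.mul_apply, ← Perm.mul_apply, ← zpow_add, ← zpow_add, add_comm]
    · exact ⟨0, if_neg hy⟩

end H68.PC
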