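import Cfsg.Agent.Lib.PCon.R0
import Cfsg.Agent.Lib.PCon.Sy0

/-! A product of two cycles splits in a full Sylow subgroup. -/

set_option autoImplicit false

namespace H68.PC

open Equiv H69 Finset MulAction

variable {α : Type*} [Fintype α] [DecidableEq α] {p : ℕ} [Fact p.Prime] {H : Subgroup (Perm α)}

theorem Full.cyc (hp : p ≠ 2) {P : Subgroup (Perm α)} {S : Finset α} (h : Full p P S) {x : Perm α}
    (hx : x ∈ P) (ho : x ^ p ∈ fx S) (hs : (S.filter fun y => x y ≠ y).card = 2 * p) {a : α} (ha : a ∈ S)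
    (hxa : x a ≠ a) : ∃ u ∈ P, ∀ y ∈ S, u y = if y ∈ orb (Subgroup.zpowers x) a then x y else y := by
  obtain ⟨σ, hσ, e⟩ := exists_res hx (h.2.1 hx)
  have pw : ∀ (m : ℕ) (y : ↥S), (x ^ m) (y : α) = ((σ ^ m) y : α) := by
    intro m
    induction m with
    | zero => exact fun _ => rfl
    | succ m ih => exact fun y => by rw [pow_succ', pow_succ', Perm.mul_apply, Perm.mul_apply, ih, e]
  have h1 : σ ^ p = 1 := by
    ext y
    rw [← pw, ho y.1 y.2]; rfl
  have h2 : σ.support.card = 2 * p := by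
    rw [← hs]
    refine card_bij (fun y _ => (y : α)) (fun y hy => ?_) (fun _ _ _ _ h => Subtype.ext h) (fun y hy => ?_)
    · rw [mem_filter, e]
      exact ⟨y.2, fun h => Perm.mem_support.1 hy (Subtype.ext h)⟩
    · obtain ⟨y1, y2⟩ := mem_filter.1 hy
      exact ⟨⟨y, y1⟩, Perm.mem_support.2 fun h => y2 ((e ⟨y, y1⟩).trans (congrArg Subtype.val h)), rfl⟩
  obtain ⟨u, hu, hu'⟩ := cyc0 hp h.syl hσ h1 h2 (a := ⟨a, ha⟩)
    fun h => hxa ((e ⟨a, ha⟩).trans (congrArg Subtype.val h))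
  refine ⟨u, hu, fun y hy => ?_⟩
  have sc : y ∈ orb (Subgroup.zpowers x) a ↔ σ.SameCycle ⟨a, ha⟩ ⟨y, hy⟩ := by
    rw [sy0_mem]
    constructor
    · intro h
      obtain ⟨m, -, hm⟩ := h.exists_pow_eq'
      exact ⟨m, Subtype.ext (by rw [zpow_natCast, ← pw]; exact hm)⟩
    · intro h
      obtain ⟨m, -, hm⟩ := h.exists_pow_eq'
      exact ⟨m, by rw [zpow_natCast]; exact (pw m ⟨a, ha⟩).trans (congrArg Subtype.val hm)⟩
  rw [hu' ⟨y, hy⟩, Perm.cycleOf_apply]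
  by_cases c : σ.SameCycle ⟨a, ha⟩ ⟨y, hy⟩
  · rw [if_pos c, if_pos (sc.2 c), e ⟨y, hy⟩]
  · rw [if_neg c, if_neg fun h => c (sc.1 h)]

theorem orb_zp_card {x : Perm α} {a : α} (hxa : x a ≠ a) (ho : (x ^ p) a = a) :
    (orb (Subgroup.zpowers x) a).card = p := by
  exact sy0_card hxa ho

end H68.PC
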