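import Cfsg.Agent.Lib.PCon.B2
import Cfsg.Agent.Lib.PCon.Rel2
import Cfsg.Agent.Lib.PCon.Sy1

/-! Degrees `2 p - 1` and `3 p - 1`. -/

set_option autoImplicit false
set_option linter.unusedSectionVars false
set_option linter.unusedVariables false

namespace H68.PC

open Equiv H69 Finset MulAction

variable {α : Type*} [Fintype α] [DecidableEq α] {p : ℕ} [Fact p.Prime] {H : Subgroup (Perm α)}

theorem e1_supp {g : Perm α} (hg : orderOf g = p) : ∃ n, g.support.card = (n + 1) * p := by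
  obtain ⟨n, hn⟩ := Perm.cycleType_prime_order (σ := g) (hg ▸ Fact.out)
  exact ⟨n, by rw [← Perm.sum_cycleType, hn, Multiset.sum_replicate, hg, smul_eq_mul]⟩

theorem e1_sub {g : Perm α} {F : Finset α} (hg : g ∈ fx F) : g.support ⊆ Fᶜ := fun y hy =>
  mem_compl.2 fun e => Perm.mem_support.1 hy (hg y e)

theorem e1_ex (h : C0 p H) (hn : p ≤ Fintype.card α) :
    ∃ P, IsSylowIn p P H ∧ ∃ x ∈ P, orderOf x = p := by
  obtain ⟨P, hP⟩ := exists_isSylowIn p H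
  refine ⟨P, hP, exists_orderOf_eq_prime hP.isP ?_⟩
  rintro rfl
  have h1 := h.hf _ hP
  rw [show Fix (⊥ : Subgroup (Perm α)) = univ from eq_univ_iff_forall.2 fun x => mem_Fix.2 fun g hg => by
    rw [Subgroup.mem_bot.1 hg]; rfl, card_univ] at h1
  have := (Fact.out : p.Prime).pos
  omega

theorem e1a (hp : p ≠ 2) (hprim : IsPreprimitive H α) (h : C0 p H) (hn : Fintype.card α + 1 = 2 * p) :
    alternatingGroup α ≤ H := by
  have p0 := (Fact.out : p.Prime).pos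
  obtain ⟨P, hP, x, hx, ho⟩ := e1_ex h (by omega)
  obtain ⟨n, e⟩ := e1_supp ho
  have h1 := card_le_card (e1_sub (le_fx_Fix P hx))
  rw [card_compl, h.hf P hP, e] at h1
  have h2 : n = 0 := by
    by_contra h0
    have : 2 * p ≤ (n + 1) * p := Nat.mul_le_mul_right p (by omega)
    omega
  exact giant_of_pcyc hprim (hP.le hx) (ho ▸ pow_orderOf_eq_one x) (by rw [e, h2]; simp) (by omega)

theorem e1_pow {d c : Perm α} {F : Finset α} (h : ∀ y ∈ F, d y = c y) (hc : ∀ y ∈ F, c y ∈ F) (n : ℕ) :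
    ∀ y ∈ F, (d ^ n) y = (c ^ n) y := by
  induction n with
  | zero => simp
  | succ n ih => intro y hy; rw [pow_succ, pow_succ, Perm.mul_apply, Perm.mul_apply, h y hy, ih _ (hc y hy)]

theorem e1b (hp : 5 ≤ p) (hprim : IsPreprimitive H α) (h : C0 p H) (hn : Fintype.card α + 1 = 3 * p) :
    alternatingGroup α ≤ H := by
  by_contra hg
  have pp : p.Prime := Fact.out
  obtain ⟨P, hP, x, hx, ho⟩ := e1_ex h (by omega)
  have hF := h.hf P hP
  have hFc : (Fix P)ᶜ.card = 2 * p := by rw [card_compl, hF]; omega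
  have xp : x ^ p = 1 := ho ▸ pow_orderOf_eq_one x
  have A : ∀ g ∈ P, orderOf g = p → ∀ y ∉ Fix P, g y ≠ y := fun g hgP o y hy => by
    obtain ⟨n, e⟩ := e1_supp o
    have s := e1_sub (le_fx_Fix P hgP)
    have h1 := card_le_card s
    have h2 : n ≠ 0 := fun h0 => hg (giant_of_pcyc hprim (hP.le hgP) (o ▸ pow_orderOf_eq_one g)
      (by rw [e, h0]; simp) (by omega))
    have : 2 * p ≤ (n + 1) * p := Nat.mul_le_mul_right p (by omega)
    exact Perm.mem_support.1 ((eq_of_subset_of_card_le s (by omega)).ge (mem_compl.2 hy))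
  have st' : P ≤ st (Fix P)ᶜ := st_compl (Fix P) ▸ (le_fx_Fix P).trans (fx_le_st _)
  have oc : ∀ y ∉ Fix P, (orb (Subgroup.zpowers x) y).card = p := fun y hy =>
    orb_zp_card (A x hx ho y hy) (by rw [xp]; rfl)
  have B : ∀ y ∉ Fix P, orb P y = orb (Subgroup.zpowers x) y := fun y hy => by
    obtain ⟨a, ha⟩ := orb_card hP.isP y
    have h1 := card_le_card (orb_sub st' (mem_compl.2 hy))
    have h2 : a ≤ 1 := by
      by_contra h0
      have : p ^ 2 ≤ p ^ a := Nat.pow_le_pow_right pp.pos (by omega)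
      nlinarith
    refine (eq_of_subset_of_card_le (orb_mono (Subgroup.zpowers_le.2 hx) y) ?_).symm
    rw [oc y hy, ha]
    simpa using Nat.pow_le_pow_right pp.pos h2
  obtain ⟨o, ho1⟩ : ∃ o, o ∉ Fix P := by
    obtain ⟨o, e⟩ := card_pos.1 (show 0 < (Fix P)ᶜ.card by omega)
    exact ⟨o, mem_compl.1 e⟩
  have C : ∀ y ∈ P, ∃ i : ℤ, x ^ i = y := fun y hy => by
    obtain ⟨_, ⟨i, rfl⟩, e⟩ := mem_orb.1 ((B o ho1).le (mem_orb.2 ⟨y, hy, rfl⟩))
    refine ⟨i, by_contra fun e' => ?_⟩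
    have m : y⁻¹ * x ^ i ∈ P := mul_mem (inv_mem hy) (zpow_mem hx i)
    obtain ⟨_, ⟨j, rfl⟩, e2⟩ := exists_orderOf_eq_prime (hP.isP.to_le (Subgroup.zpowers_le.2 m))
      (fun e3 => e' (inv_mul_eq_one.1 (Subgroup.zpowers_eq_bot.1 e3)).symm)
    refine A _ (zpow_mem m j) e2 o ho1 (Perm.zpow_apply_eq_self_of_apply_eq_self ?_ j)
    rw [Perm.mul_apply]
    exact Perm.inv_eq_iff_eq.2 e
  have tr : Tr H univ (p - 1) := gleason0 (p := p) (by omega) (by omega) fun S hS =>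
    let ⟨Q, h1, h2⟩ := h.ex_Fix hS; ⟨Q, h1.le, h1.isP, h2⟩
  have sw : ∀ f ∈ Fix P, ∀ f' ∈ Fix P, ∀ y ∈ Fix P, swap f f' y ∈ Fix P := fun f hf f' hf' y hy => by
    rw [swap_apply_def]; split_ifs <;> assumption
  have D : ∀ f ∈ Fix P, ∀ f' ∈ Fix P, ∃ a ∈ H, (∃ i : ℤ, a * x * a⁻¹ = x ^ i) ∧
      (∀ y ∈ Fix P, a y = swap f f' y) ∧ ∀ y ∈ Fix P, a⁻¹ y = swap f f' y := fun f hf f' hf' => by
    obtain ⟨g, g1, g2⟩ := tr (Fix P) (subset_univ _) hF.le (swap f f') fun _ _ => mem_univ _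
    have e : (Fix P).image g = Fix P := mem_st_iff_image.1 (mem_st_of fun y hy => g2 y hy ▸ sw f hf f' hf' y hy)
    obtain ⟨a, a1, a2⟩ := witt (T := P) g1 subset_rfl
      (e.symm ▸ hP.mono (le_inf hP.le (le_fx_Fix P)) inf_le_left)
    have a3 : ∀ y ∈ Fix P, a y = swap f f' y := fun y hy => (a2 y hy).trans (g2 y hy)
    obtain ⟨i, hi⟩ := C _ (conj_mem_of_mem_normalizer a1.2 hx)
    exact ⟨a, a1.1, ⟨i, hi.symm⟩, a3, fun y hy => Perm.inv_eq_iff_eq.2 (by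
      rw [a3 _ (sw f hf f' hf' y hy), swap_apply_self])⟩
  obtain ⟨f1, f2, f3, m1, m2, m3, n12, n13, n23⟩ := two_lt_card_iff.1 (show 2 < (Fix P).card by omega)
  obtain ⟨a, aH, ⟨i, ai⟩, a1, a2⟩ := D f1 m1 f2 m2
  obtain ⟨b, bH, ⟨j, bj⟩, b1, b2⟩ := D f1 m1 f3 m3
  have t3 := Perm.isThreeCycle_swap_mul_swap_same n12 n13 n23
  have cF : ∀ y ∈ Fix P, (swap f1 f2 * swap f1 f3) y ∈ Fix P := fun y hy =>
    sw _ m1 _ m2 _ (sw _ m1 _ m3 _ hy)
  have cN : ∀ y ∉ Fix P, (swap f1 f2 * swap f1 f3) y = y := fun y hy => by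
    have k : ∀ f ∈ Fix P, y ≠ f := fun f hf e => hy (e ▸ hf)
    rw [Perm.mul_apply, swap_apply_of_ne_of_ne (k _ m1) (k _ m3), swap_apply_of_ne_of_ne (k _ m1) (k _ m2)]
  have d1 : ∀ y ∈ Fix P, (a⁻¹ * b⁻¹ * a * b) y = ((swap f1 f2 * swap f1 f3) ^ 2) y := fun y hy => by
    have h1 := sw _ m1 _ m3 _ hy
    have h2 := sw _ m1 _ m2 _ h1
    rw [sq]
    simp only [Perm.mul_apply]
    rw [b1 y hy, a1 _ h1, b2 _ h2, a2 _ (sw _ m1 _ m3 _ h2)]
  have d2 : Commute (a⁻¹ * b⁻¹ * a * b) x := by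
    have e : a * (b * x * b⁻¹) * a⁻¹ = b * (a * x * a⁻¹) * b⁻¹ := by
      rw [ai, bj, ← conj_zpow, ← conj_zpow, ai, bj, ← zpow_mul, ← zpow_mul, mul_comm i]
    calc _ = a⁻¹ * b⁻¹ * (a * (b * x * b⁻¹) * a⁻¹) * a * b := by group
      _ = _ := by rw [e]; group
  have dH : a⁻¹ * b⁻¹ * a * b ∈ H := mul_mem (mul_mem (mul_mem (inv_mem aH) (inv_mem bH)) aH) bH
  generalize a⁻¹ * b⁻¹ * a * b = d at d1 d2 dH
  generalize swap f1 f2 * swap f1 f3 = c at t3 cF cN d1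
  have c2 : ∀ y ∈ Fix P, (c ^ 2) y ∈ Fix P := fun y hy => by rw [sq]; exact cF _ (cF _ hy)
  have dS : ∀ y, d y ∈ Fix P ↔ y ∈ Fix P := mem_st_of fun y hy => d1 y hy ▸ c2 y hy
  have cm : ∀ (k : ℤ) y, d ((x ^ k) y) = (x ^ k) (d y) := fun k y =>
    congrArg (fun g : Perm α => g y) (d2.zpow_right k).eq
  have E : ∀ y ∉ Fix P, ∃ k : ℤ, (d ^ 2) y = (x ^ k) y := fun y hy => by
    have y1 := mt (dS y).1 hy
    have y2 := mt (dS _).1 y1
    by_cases e1 : d y ∈ orb (Subgroup.zpowers x) y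
    · obtain ⟨_, ⟨k, rfl⟩, e⟩ := mem_orb.1 e1
      have e : (x ^ k) y = d y := e
      exact ⟨k + k, by rw [sq, Perm.mul_apply, ← e, cm, ← e, zpow_add, Perm.mul_apply]⟩
    by_cases e2 : d (d y) ∈ orb (Subgroup.zpowers x) y
    · obtain ⟨_, ⟨k, rfl⟩, e⟩ := mem_orb.1 e2
      exact ⟨k, by rw [sq]; exact e.symm⟩
    exfalso
    have s1 : orb P y ⊆ (Fix P)ᶜ := orb_sub st' (mem_compl.2 hy)
    rw [← B y hy] at e1 e2
    have s2 : orb P (d y) ⊆ (Fix P)ᶜ \ orb P y := orb_sub (le_inf st' (le_st_orb P y) |>.trans (st_sdiff _ _))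
      (mem_sdiff.2 ⟨mem_compl.2 y1, e1⟩)
    have s3 := (eq_of_subset_of_card_le s2 (by
      rw [card_sdiff_of_subset s1, hFc, B y hy, oc y hy, B _ y1, oc _ y1]; omega)).ge
      (mem_sdiff.2 ⟨mem_compl.2 y2, e2⟩)
    rw [B _ y1] at s3
    obtain ⟨_, ⟨k, rfl⟩, e⟩ := mem_orb.1 s3
    have e : (x ^ k) (d y) = d (d y) := e
    rw [← cm] at e
    exact e1 (mem_orb.2 ⟨_, zpow_mem hx k, d.injective e⟩)
  have G : (d ^ 2) ^ p = c ^ (2 * 2 * p) := Perm.ext fun y => by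
    by_cases hy : y ∈ Fix P
    · rw [← pow_mul, e1_pow d1 c2 _ y hy, ← pow_mul, ← mul_assoc]
    · rw [Perm.pow_apply_eq_self_of_apply_eq_self (cN y hy)]
      obtain ⟨k, e⟩ := E y hy
      have e1 : ((x ^ k)⁻¹ * d ^ 2) y = y := by rw [Perm.mul_apply, e]; simp
      have e2 := Perm.pow_apply_eq_self_of_apply_eq_self e1 p
      rwa [((d2.pow_left 2).zpow_right k).symm.inv_left.mul_pow, inv_pow, ← zpow_natCast (x ^ k), ← zpow_mul,
        mul_comm k, zpow_mul, zpow_natCast, xp, one_zpow, inv_one, one_mul] at e2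
  refine hg (giant_of_supp tr (by omega) (by omega) (G ▸ pow_mem (pow_mem dH 2) p) (fun e => ?_) ?_)
  · have := orderOf_dvd_of_pow_eq_one e
    rw [t3.orderOf] at this
    rcases (Nat.Prime.dvd_mul Nat.prime_three).1 this with e | e
    · omega
    · have := (Nat.prime_dvd_prime_iff_eq Nat.prime_three pp).1 e
      omega
  · have := card_le_card (Perm.support_pow_le c (2 * 2 * p))
    rw [t3.card_support] at this
    omega

end H68.PC
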