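import Cfsg.Agent.Lib.PCon.B2
import Cfsg.Agent.Lib.PCon.Rel2
import Cfsg.Agent.Lib.PCon.Br

/-! Degree eight: first facts. -/

set_option autoImplicit false

namespace H68.PC

open Equiv H69 Finset MulAction

variable {α : Type*} [Fintype α] [DecidableEq α] {p : ℕ} [Fact p.Prime] {H : Subgroup (Perm α)}

theorem e8a_supp {g : Perm α} (hg : orderOf g = p) : ∃ n, g.support.card = (n + 1) * p := by
  obtain ⟨n, hn⟩ := Perm.cycleType_prime_order (σ := g) (hg ▸ Fact.out)
  exact ⟨n, by rw [← Perm.sum_cycleType, hn, Multiset.sum_replicate, hg, smul_eq_mul]⟩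

theorem e8a_pos (h : C0 p H) (hn : p - 1 < Fintype.card α) : 0 < v p H := by
  obtain ⟨P, hP⟩ := exists_isSylowIn p H
  refine Nat.pos_of_ne_zero fun e => ?_
  have h1 := card_pgroup hP.isP
  rw [v_syl hP, e, pow_zero, Subgroup.card_eq_one] at h1
  have h2 := h.hf P hP
  rw [eq_univ_of_forall fun x => (mem_Fix (P := P)).2 fun g hg => by
    rw [h1, Subgroup.mem_bot] at hg; rw [hg]; rfl, card_univ] at h2
  omega

theorem e8_o3 (hn : Fintype.card α = 8) (hprim : IsPreprimitive H α) (hng : ¬ alternatingGroup α ≤ H) :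
    ∀ g ∈ H, orderOf g = 3 → g.support.card = 6 := by
  have : Fact (Nat.Prime 3) := ⟨Nat.prime_three⟩
  intro g hg ho
  obtain ⟨n, e⟩ := e8a_supp ho
  have := card_le_univ g.support
  by_contra k
  exact hng (giant_of_pcyc (p := 3) hprim hg (ho ▸ pow_orderOf_eq_one g) (by omega) (.inl le_rfl))

theorem e8_tr2 (hn : Fintype.card α = 8) (h : C0 3 H) : Tr H univ 2 := by
  have : Fact (Nat.Prime 3) := ⟨Nat.prime_three⟩
  refine gleason0 (p := 3) (by omega) (by omega) fun S hS => ?_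
  obtain ⟨P, hP, e⟩ := h.ex_Fix (S := S) hS
  exact ⟨P, hP.le, hP.isP, e⟩

theorem e8_orb (hn : Fintype.card α = 8) (hprim : IsPreprimitive H α) (h : C0 3 H)
    (hng : ¬ alternatingGroup α ≤ H) (S : Finset α) (hS : S.card = 4) : ∃ i, (sorb H S).card = 7 * 2 ^ i := by
  have : Fact (Nat.Prime 3) := ⟨Nat.prime_three⟩
  have : Fact (Nat.Prime 5) := ⟨Nat.prime_five⟩
  have p7 : Fact (Nat.Prime 7) := ⟨by norm_num⟩
  have h0 : Nat.card H ≠ 0 := Nat.card_pos.ne'
  have h8 : Nat.card H ∣ 40320 := by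
    have := Subgroup.card_subgroup_dvd_card H
    rwa [Nat.card_perm, Nat.card_eq_fintype_card (α := α), hn] at this
  have h5 : ¬ 5 ∣ Nat.card H := fun k => by
    obtain ⟨g, hg, ho⟩ := ex_ord_of_v (p := 5) (L := H) (Nat.prime_five.factorization_pos_of_dvd h0 k)
    obtain ⟨n, e⟩ := e8a_supp ho
    have := card_le_univ g.support
    exact hng (giant_of_pcyc (p := 5) hprim hg (ho ▸ pow_orderOf_eq_one g) (by omega) (.inr (by omega)))
  have h7 : 7 ∣ Nat.card H := by
    obtain ⟨Z, -, hZ⟩ := exists_subset_card_eq (s := (univ : Finset α)) (n := 2) (by rw [card_univ]; omega)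
    have e := card_sorb_hom (S := Z) ((e8_tr2 hn h).hom hZ.le)
    rw [← card_sorb H Z, e, hn, hZ]
    exact Dvd.dvd.mul_right (by decide) _
  have n7 : ¬ 7 ∣ Nat.card ↥(H ⊓ st S) := fun k => by
    obtain ⟨g, hg, ho⟩ := ex_ord_of_v (p := 7) (L := H ⊓ st S)
      (p7.out.factorization_pos_of_dvd Nat.card_pos.ne' k)
    obtain ⟨n, e⟩ := e8a_supp ho
    have k1 := card_mod (p := 7) (P := Subgroup.zpowers g) (S := S)
      (IsPGroup.of_card (n := 1) (by rw [Nat.card_zpowers, ho, pow_one])) (Subgroup.zpowers_le.2 hg.2)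
    have k2 : S ∩ Fix (Subgroup.zpowers g) ⊆ g.supportᶜ := fun x hx => mem_compl.2 fun m =>
      Perm.mem_support.1 m (mem_Fix.1 (mem_inter.1 hx).2 g (Subgroup.mem_zpowers g))
    have k3 := card_le_card k2
    rw [card_compl, hn] at k3
    rw [hS, Nat.ModEq] at k1
    omega
  have e := card_sorb H S
  have m3 := conc_iff.1 h.conc S
  have m70 := card_sorb_le H S
  rw [hn, hS, show Nat.choose 8 4 = 70 by decide] at m70
  have md : (sorb H S).card ∣ Nat.card H := Dvd.intro _ e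
  have m5 : ¬ 5 ∣ (sorb H S).card := fun k => h5 (k.trans md)
  have m8 := md.trans h8
  obtain ⟨k, hk⟩ := (p7.out.dvd_mul.1 (e ▸ h7)).resolve_right n7
  rw [hk] at m3 m5 m8 m70 ⊢
  have : k ≤ 10 := by omega
  interval_cases k <;> first | omega | exact ⟨0, rfl⟩ | exact ⟨1, rfl⟩ | exact ⟨2, rfl⟩ | exact ⟨3, rfl⟩

theorem e8_d3 (hn : Fintype.card α = 8) (h : C0 3 H) (Z : Finset α) : 3 ∣ Nat.card ↥(H ⊓ st Z) := by
  have : Fact (Nat.Prime 3) := ⟨Nat.prime_three⟩
  exact Nat.dvd_of_factorization_pos ((e8a_pos h (by omega)).trans_eq (v_st h.conc Z).symm).ne'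

end H68.PC
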