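import Cfsg.Agent.Lib.PCon.B2

/-! Sets of size `k - 1`, `k`, `k + 1` and `2 k - 1`. -/

set_option autoImplicit false

namespace H68.PC

open Equiv H69 Finset MulAction

variable {α : Type*} [Fintype α] [DecidableEq α] {p : ℕ} [Fact p.Prime] {H : Subgroup (Perm α)}

theorem up_dvd {P : Subgroup (Perm α)} (hP : IsPGroup p P) {Z : Finset α} (h : P ≤ st Z) (s : ℕ) :
    p ^ s ∣ (Z \ short P (p ^ s)).card :=
  pow_dvd_card hP ((le_inf h (le_st_short P _)).trans (st_sdiff _ _)) fun x hx =>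
    not_lt.1 (mt mem_short.2 (mem_sdiff.1 hx).2)

theorem short_eq {s : ℕ} {P : Subgroup (Perm α)} (hP : IsPGroup p P)
    (hs : (short P (p ^ s)).card = p ^ s - 1) {Z : Finset α} (hZ : Z.card = p ^ s - 1) (h : P ≤ st Z) :
    short P (p ^ s) = Z := by
  have h0 : 0 < p ^ s := pow_pos (Fact.out : p.Prime).pos s
  have h1 := Nat.eq_zero_of_dvd_of_lt (up_dvd hP h s)
    (lt_of_le_of_lt (card_le_card sdiff_subset) (by omega))
  rw [card_eq_zero, sdiff_eq_empty_iff_subset] at h1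
  exact (eq_of_subset_of_card_le h1 (by omega)).symm

theorem one_of_short {s : ℕ} (hs : ∀ P, IsSylowIn p P H → (short P (p ^ s)).card = p ^ s - 1) :
    One p H (p ^ s) := by
  intro P hP Y hY h x hx
  have h0 : 0 < p ^ s := pow_pos (Fact.out : p.Prime).pos s
  have h1 := le_card_sdiff (short P (p ^ s)) Y
  have h2 := Nat.le_of_dvd (by have := hs P hP; omega) (up_dvd hP.isP h s)
  have h3 : Y \ short P (p ^ s) = Y := eq_of_subset_of_card_le sdiff_subset (by omega)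
  rw [← h3] at hx
  exact eq_of_subset_of_card_le (orb_sub h (mem_sdiff.1 hx).1)
    (hY ▸ not_lt.1 (mt mem_short.2 (mem_sdiff.1 hx).2))

theorem hz_of_short (hc : Conc p H) {s : ℕ} (h1 : 1 ≤ s)
    (hs : ∀ P, IsSylowIn p P H → (short P (p ^ s)).card = p ^ s - 1) (Z : Finset α)
    (hZ : Z.card = p ^ s - 1) (y : α) (hy : y ∉ Z) :
    ∃ y1, y1 ∉ Z ∧ y1 ≠ y ∧ Eqv H (insert y Z) (insert y1 Z) := by
  obtain ⟨P, hP, h⟩ := hc Z
  have h2 : 1 < p ^ s := Nat.one_lt_pow (by omega) (Fact.out : p.Prime).one_lt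
  rw [← short_eq hP.isP (hs P hP) hZ h, mem_short, not_lt] at hy
  have h3 : y ∉ Fix P := fun k => by rw [orb_card_one.2 k] at hy; omega
  rw [mem_Fix] at h3
  push Not at h3
  obtain ⟨g, hg, k⟩ := h3
  refine ⟨g y, fun e => ?_, k, g, hP.le hg, by rw [image_insert, mem_st_iff_image.1 (h hg)]⟩
  rw [mem_st.1 (h hg), ← short_eq hP.isP (hs P hP) hZ h, mem_short] at e
  omega

theorem ex_apex (h : C0 p H) {k : ℕ} (hk : p ∣ k) (ho : One p H k) (V : Finset α)
    (hV : V.card = k + 1) : ∃ P, IsSylowIn p P H ∧ ∃ f ∈ V, f ∈ Fix P ∧ P ≤ st (V.erase f) ∧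
      ∀ x ∈ V.erase f, orb P x = V.erase f := by
  obtain ⟨P, hP, h1⟩ := h.conc V
  have h2 := h.inter_Fix hP h1
  obtain ⟨j, rfl⟩ := hk
  rw [hV, Nat.mul_add_mod, Nat.mod_eq_of_lt (Fact.out : p.Prime).one_lt] at h2
  obtain ⟨f, hf⟩ := card_pos.1 (h2 ▸ Nat.one_pos)
  obtain ⟨f1, f2⟩ := mem_inter.1 hf
  have h3 : P ≤ st (V.erase f) := fun g hg => mem_st_of fun x hx => mem_erase.2
    ⟨fun e => (mem_erase.1 hx).1 (g.injective (e.trans (mem_Fix.1 f2 g hg).symm)),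
      (mem_st.1 (h1 hg) x).2 (mem_erase.1 hx).2⟩
  exact ⟨P, hP, f, f1, f2, h3, ho P hP _ (by rw [card_erase_of_mem f1, hV]; rfl) h3⟩

theorem base (hc : Conc p H) {s : ℕ} (hs : ∀ P, IsSylowIn p P H → (short P (p ^ s)).card = p ^ s - 1)
    (W : Finset α) (hW : W.card = 2 * p ^ s - 1) :
    ∃ P, IsSylowIn p P H ∧ ∃ O : Finset α, O.card = p ^ s ∧ P ≤ st O ∧ W = O ∪ short P (p ^ s) := by
  obtain ⟨P, hP, h⟩ := hc W
  have h0 : 0 < p ^ s := pow_pos (Fact.out : p.Prime).pos s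
  have h1 := le_card_sdiff (short P (p ^ s)) W
  have h2 := card_le_card (sdiff_subset (s := W) (t := short P (p ^ s)))
  have h3 := hs P hP
  obtain ⟨j, hj⟩ := up_dvd hP.isP h s
  have h4 : j = 1 := by
    rcases j with _ | _ | j
    · omega
    · rfl
    · rw [mul_add, mul_add] at hj; omega
  rw [h4, mul_one] at hj
  have h5 := card_sdiff_add_card_inter W (short P (p ^ s))
  have h6 : W ∩ short P (p ^ s) = short P (p ^ s) := eq_of_subset_of_card_le inter_subset_right (by omega)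
  exact ⟨P, hP, _, hj, (le_inf h (le_st_short P _)).trans (st_sdiff _ _),
    (sdiff_union_of_subset (inter_eq_right.1 h6)).symm⟩

theorem eqv_base {P P' : Subgroup (Perm α)} (hP : IsSylowIn p P H) (hP' : IsSylowIn p P' H)
    {O O' : Finset α} (hO : P ≤ st O) (hO' : P' ≤ st O') (h : Eqv H O O') (m : ℕ) :
    ∃ g ∈ H, O.image g = O' ∧ (short P m).image g = short P' m := by
  obtain ⟨g, hg, e⟩ := h
  obtain ⟨k, hk, k1, k2⟩ := syl_conj_st (hP.cj_of_mem hg) hP' (by rw [← e, ← st_cj]; exact cj_mono g hO) hO'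
  refine ⟨k * g, mul_mem hk hg, ?_, by rw [← short_cj, ← cj_cj, k2]⟩
  rw [Perm.coe_mul, ← image_image, e, mem_st_iff_image.1 k1]

theorem hom_up (hc : Conc p H) {s : ℕ} (hs : ∀ P, IsSylowIn p P H → (short P (p ^ s)).card = p ^ s - 1)
    (h : Hom H univ (p ^ s)) : Hom H univ (2 * p ^ s - 1) := by
  intro W _ W' _ h1 h2
  obtain ⟨P, hP, O, a1, a2, rfl⟩ := base hc hs W h1
  obtain ⟨P', hP', O', b1, b2, rfl⟩ := base hc hs W' h2
  obtain ⟨g, hg, e1, e2⟩ := eqv_base hP hP' a2 b2 (h O (subset_univ _) O' (subset_univ _) a1 b1) (p ^ s)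
  exact ⟨g, hg, by rw [image_union, e1, e2]⟩

theorem C0.short1 (h : C0 p H) : ∀ P, IsSylowIn p P H → (short P (p ^ 1)).card = p ^ 1 - 1 := by
  intro P hP
  rw [pow_one, short_p hP.isP, h.hf P hP]

theorem C0.one (h : C0 p H) : One p H p := by
  simpa using one_of_short h.short1

end H68.PC
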