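import Cfsg.Agent.Lib.PCon.E8a
import Cfsg.Agent.Lib.PCon.Up

/-! Degree eight: two orbits on four-sets. -/

set_option autoImplicit false

namespace H68.PC

open Equiv H69 Finset MulAction

variable {α : Type*} [Fintype α] [DecidableEq α] {p : ℕ} [Fact p.Prime] {H : Subgroup (Perm α)}

theorem e8b_inv (h : Conc p H) {P : Subgroup (Perm α)} (hP : IsSylowIn p P H) (S : Finset α) :
    ∃ T, Eqv H T S ∧ P ≤ st T := by
  obtain ⟨Q, hQ, hS⟩ := h S
  obtain ⟨g, hg, -, e⟩ := syl_conj_st (S := univ) hQ hP (by rw [st_univ]; exact le_top)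
    (by rw [st_univ]; exact le_top)
  exact ⟨S.image g, Eqv.symm ⟨g, hg, rfl⟩, by rw [← st_cj, ← e]; exact cj_mono g hS⟩

theorem e8b_three {P : Subgroup (Perm α)} {o : α} (h3 : (orb P o).card = 3)
    (h3' : ((Fix P)ᶜ \ orb P o).card = 3) {T : Finset α} (hT : P ≤ st T) (hd : ∀ x ∈ T, x ∉ Fix P)
    (hc : T.card = 3) : T = orb P o ∨ T = (Fix P)ᶜ \ orb P o := by
  by_cases ho : o ∈ T
  · exact .inl (eq_of_subset_of_card_le (orb_sub hT ho) (by omega)).symm
  · refine .inr (eq_of_subset_of_card_le (fun x hx => mem_sdiff.2 ⟨mem_compl.2 (hd x hx), fun k => ho ?_⟩)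
      (by omega))
    exact orb_sub hT hx (orb_eq k ▸ self_mem_orb P o)

theorem e8_two (hn : Fintype.card α = 8) (h : C0 3 H) :
    ∃ A A' : Finset α, A.card = 4 ∧ A'.card = 4 ∧ (∀ S : Finset α, S.card = 4 → Eqv H A S ∨ Eqv H A' S) ∧
      (Hom H univ 3 ∨ Eqv H A' Aᶜ) := by
  obtain ⟨P, hP, -⟩ := h.conc ∅
  have c2 : (Fix P).card = 2 := h.hf P hP
  obtain ⟨f, f', ff, hF⟩ := card_eq_two.1 c2
  have c6 : (Fix P)ᶜ.card = 6 := by rw [card_compl, hn, c2]
  have PF : P ≤ st (Fix P) := (le_fx_Fix P).trans (fx_le_st _)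
  obtain ⟨o, ho⟩ := card_pos.1 (by omega : 0 < (Fix P)ᶜ.card)
  have sub : orb P o ⊆ (Fix P)ᶜ := orb_sub (by rwa [st_compl]) ho
  have h3 : (orb P o).card = 3 := by
    obtain ⟨a, ha⟩ := orb_card hP.isP o
    have l1 := le_orb_card hP.isP (mem_compl.1 ho)
    have l2 := card_le_card sub
    rw [ha] at l1 l2 ⊢
    rcases a with _ | _ | a
    · omega
    · rfl
    · have : 0 < 3 ^ a := by positivity
      rw [pow_succ, pow_succ] at l2
      omega
  have h3' : ((Fix P)ᶜ \ orb P o).card = 3 := by rw [card_sdiff_of_subset sub]; omega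
  have three := fun T => e8b_three (T := T) h3 h3'
  have PO := le_st_orb P o
  have PO' : P ≤ st ((Fix P)ᶜ \ orb P o) := (le_inf (by rwa [st_compl]) PO).trans (st_sdiff _ _)
  have cpl : (insert f (orb P o))ᶜ = insert f' ((Fix P)ᶜ \ orb P o) := by
    ext x
    have := @sub x
    simp only [hF, mem_compl, mem_insert, mem_singleton, mem_sdiff] at this ⊢
    constructor
    · tauto
    · rintro (rfl | k)
      · tauto
      · tauto
  have dO : ∀ x ∈ orb P o, x ∉ Fix P := fun x hx => mem_compl.1 (sub hx)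
  have dO' : ∀ x ∈ (Fix P)ᶜ \ orb P o, x ∉ Fix P := fun x hx => mem_compl.1 (mem_sdiff.1 hx).1
  have ne : orb P o ≠ (Fix P)ᶜ \ orb P o := fun k => (mem_sdiff.1 (k ▸ self_mem_orb P o)).2 (self_mem_orb P o)
  generalize (Fix P)ᶜ \ orb P o = O' at *
  generalize orb P o = O at *
  have fF : f ∈ Fix P := by simp [hF]
  have fF' : f' ∈ Fix P := by simp [hF]
  obtain ⟨g0, hg0, e0⟩ := e8_tr2 hn h (Fix P) (subset_univ _) c2.le (swap f f') fun _ _ => mem_univ _
  have im : (Fix P).image g0 = Fix P := by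
    rw [hF, image_insert, image_singleton, e0 f fF, e0 f' fF', swap_apply_left, swap_apply_right, pair_comm]
  obtain ⟨g, ⟨hg, gN⟩, e⟩ := witt (p := 3) hg0 (Subset.refl (Fix P)) (by
    have := syl_fx hP PF
    rwa [inf_eq_left.2 (le_fx_Fix P), ← im] at this)
  have g1 : g f = f' := by rw [e f fF, e0 f fF, swap_apply_left]
  have g2 : g f' = f := by rw [e f' fF', e0 f' fF', swap_apply_right]
  have mv : ∀ T : Finset α, P ≤ st T → (∀ x ∈ T, x ∉ Fix P) → T.card = 3 → T.image g = O ∨ T.image g = O' :=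
    fun T a b c => three _ (by rw [← st_cj, ← cj_eq_self_iff.2 gN]; exact cj_mono g a) (fun x hx k => by
      obtain ⟨y, hy, rfl⟩ := mem_image.1 hx
      exact b y hy ((norm_le_st_Fix P gN y).1 k)) (by rw [card_image_of_injective _ g.injective, c])
  have t3 : ∀ S : Finset α, S.card = 3 → Eqv H O S ∨ Eqv H O' S := fun S hS => by
    obtain ⟨T, a, b⟩ := e8b_inv h.conc hP S
    have c := a.card_eq.trans hS
    have d := h.inter_Fix hP b
    rw [c, card_eq_zero] at d
    rcases three T b (fun x hx k => notMem_empty x (d ▸ mem_inter.2 ⟨hx, k⟩)) c with rfl | rfl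
    exacts [.inl a, .inr a]
  have t4 : ∀ S : Finset α, S.card = 4 → (Eqv H (insert f O) S ∨ Eqv H (insert f O') S) ∨
      Eqv H (insert f' O) S ∨ Eqv H (insert f' O') S := fun S hS => by
    obtain ⟨T, a, b⟩ := e8b_inv h.conc hP S
    have c := a.card_eq.trans hS
    have d := h.inter_Fix hP b
    rw [c] at d
    obtain ⟨x, hx⟩ := card_eq_one.1 d
    have k : T = insert x (T \ Fix P) := by rw [insert_eq, ← hx, union_comm, sdiff_union_inter]
    have k3 := three (T \ Fix P) ((le_inf b PF).trans (st_sdiff _ _)) (fun y hy => (mem_sdiff.1 hy).2)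
      (by have := card_sdiff_add_card_inter T (Fix P); omega)
    have xF : x ∈ Fix P := (mem_inter.1 (hx ▸ mem_singleton_self x)).2
    rw [hF, mem_insert, mem_singleton] at xF
    rw [k] at a
    rcases xF with e | e <;> rcases k3 with e' | e' <;> rw [e, e'] at a
    exacts [.inl (.inl a), .inl (.inr a), .inr (.inl a), .inr (.inr a)]
  have ins : ∀ (x : α) (T : Finset α), Eqv H (insert x T) (insert (g x) (T.image g)) := fun x T =>
    ⟨g, hg, image_insert _ _ _⟩
  have c4 : ∀ x ∈ Fix P, ∀ T : Finset α, (∀ x ∈ T, x ∉ Fix P) → T.card = 3 → (insert x T).card = 4 :=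
    fun x hx T a b => by rw [card_insert_of_notMem fun k => a x k hx, b]
  have inj : O.image g ≠ O'.image g := fun k => ne (image_injective g.injective k)
  rcases mv O PO dO h3 with a | a
  · have a' := (mv O' PO' dO' h3').resolve_left fun k => inj (a.trans k.symm)
    have i1 := ins f O
    have i2 := ins f O'
    rw [g1, a] at i1
    rw [g1, a'] at i2
    refine ⟨insert f O, insert f O', c4 f fF O dO h3, c4 f fF O' dO' h3', fun S hS => ?_, .inr (cpl ▸ i2)⟩
    exact (t4 S hS).elim id (Or.imp i1.trans i2.trans)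
  · have i1 := ins f O
    have i2 := ins f' O
    rw [g1, a] at i1
    rw [g2, a] at i2
    refine ⟨insert f O, insert f' O, c4 f fF O dO h3, c4 f' fF' O dO h3, fun S hS => ?_,
      .inl fun S _ S' _ hS hS' => ?_⟩
    · rcases t4 S hS with (k | k) | k | k
      exacts [.inl k, .inr (i2.trans k), .inr k, .inl (i1.trans k)]
    · have OO : Eqv H O O' := ⟨g, hg, a⟩
      exact ((t3 S hS).elim id OO.trans).symm.trans ((t3 S' hS').elim id OO.trans)

end H68.PC
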