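import Cfsg.Agent.Lib.PCon.E8b

/-! Degree eight: the quadruple system. -/

set_option autoImplicit false

namespace H68.PC

open Equiv H69 Finset MulAction

variable {α : Type*} [Fintype α] [DecidableEq α] {p : ℕ} [Fact p.Prime] {H : Subgroup (Perm α)}

theorem e8c_eq {S T : Finset α} (h : Eqv H S T) : sorb H S = sorb H T := by
  ext U
  rw [mem_sorb, mem_sorb]
  exact ⟨h.symm.trans, h.trans⟩

theorem e8c_compl (H : Subgroup (Perm α)) (S : Finset α) : (sorb H Sᶜ).card = (sorb H S).card := by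
  have h := card_sorb H Sᶜ
  rw [st_compl, ← card_sorb H S] at h
  exact Nat.eq_of_mul_eq_mul_right Nat.card_pos h

theorem e8c_le {A Z Z' : Finset α} (h : Eqv H Z Z') :
    ((sorb H A).filter (Z ⊆ ·)).card ≤ ((sorb H A).filter (Z' ⊆ ·)).card := by
  obtain ⟨g, hg, rfl⟩ := h
  refine card_le_card_of_injOn (fun S => S.image g) (fun S hS => ?_)
    (image_injective g.injective).injOn
  rw [mem_coe, mem_filter, mem_sorb] at hS ⊢
  exact ⟨hS.1.trans ⟨g, hg, rfl⟩, image_subset_image hS.2⟩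

theorem e8c_tri (hn : Fintype.card α = 8) (h3 : Hom H univ 3) {A : Finset α} (hA : A.card = 4)
    (h14 : (sorb H A).card = 14) (Z : Finset α) (hZ : Z.card = 3) : ∃! S, S ∈ sorb H A ∧ Z ⊆ S := by
  have key := card_mul_eq_card_mul (s := powersetCard 3 (univ : Finset α)) (t := sorb H A) (· ⊆ ·)
    (m := ((sorb H A).filter (Z ⊆ ·)).card) (n := 4) (fun Z' hZ' => by
      have e := h3 Z (subset_univ _) Z' (subset_univ _) hZ (mem_powersetCard.1 hZ').2
      exact le_antisymm (e8c_le e.symm) (e8c_le e)) fun S hS => by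
      have e : (powersetCard 3 (univ : Finset α)).bipartiteBelow (· ⊆ ·) S = powersetCard 3 S := by
        ext T
        simp [mem_bipartiteBelow, mem_powersetCard, and_comm]
      rw [e, card_powersetCard, ← (mem_sorb.1 hS).card_eq, hA]
      rfl
  rw [card_powersetCard, card_univ, hn, h14, show Nat.choose 8 3 = 56 from rfl] at key
  obtain ⟨S, hS⟩ := card_eq_one.1 (show ((sorb H A).filter (Z ⊆ ·)).card = 1 by omega)
  exact ⟨S, mem_filter.1 (hS ▸ mem_singleton_self S), fun T hT => mem_singleton.1 (hS ▸ mem_filter.2 hT)⟩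

theorem e8c_mk (hn : Fintype.card α = 8) (hprim : IsPreprimitive H α) (h : C0 3 H)
    (hng : ¬ alternatingGroup α ≤ H) (h3 : Hom H univ 3) {A A' : Finset α} (hA : A.card = 4)
    (hc : ∀ S : Finset α, S.card = 4 → Eqv H A S ∨ Eqv H A' S) (h14 : (sorb H A).card = 14)
    (h56 : (sorb H A').card = 56) : SQ H (sorb H A) where
  card S hS := (mem_sorb.1 hS).card_eq.symm.trans hA
  tri := e8c_tri hn h3 hA h14
  compl S hS := by
    have e := mem_sorb.1 hS
    refine mem_sorb.2 ((hc Sᶜ (by rw [card_compl, hn, ← e.card_eq, hA])).resolve_right fun e' => ?_)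
    rw [e8c_eq e', e8c_compl, ← e8c_eq e, h14] at h56
    omega
  inv g hg S hS := mem_sorb.2 ((mem_sorb.1 hS).trans ⟨g, hg, rfl⟩)
  non S hS hB := by
    rw [← card_sorb H S, ← e8c_eq ((hc S hS).resolve_left fun e => hB (mem_sorb.2 e)), h56]
  tr3 Z hZ := by
    rw [← card_sorb H Z, card_sorb_hom (hZ ▸ h3), hn, hZ]
    rfl
  hom3 := h3
  tr2 := e8_tr2 hn h
  o3 := e8_o3 hn hprim hng
  d3 Z _ := e8_d3 hn h Z

theorem e8_sq (hn : Fintype.card α = 8) (hprim : IsPreprimitive H α) (h : C0 3 H)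
    (hng : ¬ alternatingGroup α ≤ H) : ∃ B, SQ H B := by
  obtain ⟨A, A', hA, hA', hc, hh⟩ := e8_two hn h
  obtain ⟨i, hi⟩ := e8_orb hn hprim h hng A hA
  obtain ⟨j, hj⟩ := e8_orb hn hprim h hng A' hA'
  have hu : sorb H A ∪ sorb H A' = powersetCard 4 univ := by
    refine subset_antisymm (union_subset (hA ▸ sorb_sub H A) (hA' ▸ sorb_sub H A')) fun S hS => ?_
    rw [mem_union, mem_sorb, mem_sorb]
    exact hc S (mem_powersetCard.1 hS).2
  have h70 : (sorb H A ∪ sorb H A').card = 70 := by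
    rw [hu, card_powersetCard, card_univ, hn]
    rfl
  have b : ∀ k, 7 * 2 ^ k ≤ 70 → k < 4 := fun k hk =>
    (Nat.pow_lt_pow_iff_right (by norm_num : 1 < 2)).1 (by omega)
  have i4 := b i (hi ▸ h70 ▸ card_le_card subset_union_left)
  have j4 := b j (hj ▸ h70 ▸ card_le_card subset_union_right)
  have hd : Disjoint (sorb H A) (sorb H A') := disjoint_left.2 fun S h1 h2 => by
    rw [← e8c_eq ((mem_sorb.1 h1).trans (mem_sorb.1 h2).symm), union_self, hi] at h70
    interval_cases i <;> omega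
  rw [card_union_of_disjoint hd] at h70
  have hv : (sorb H A).card = 14 ∧ (sorb H A').card = 56 ∨ (sorb H A).card = 56 ∧ (sorb H A').card = 14 := by
    rw [hi, hj] at h70 ⊢
    interval_cases i <;> interval_cases j <;> omega
  have h3 : Hom H univ 3 := hh.resolve_right fun e => by
    rw [e8c_eq e, e8c_compl] at hv
    omega
  rcases hv with hv | hv
  · exact ⟨_, e8c_mk hn hprim h hng h3 hA hc hv.1 hv.2⟩
  · exact ⟨_, e8c_mk hn hprim h hng h3 hA' (fun S hS => (hc S hS).symm) hv.2 hv.1⟩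

end H68.PC
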