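import Cfsg.Agent.Lib.PCon.R0

/-! Degree eight: the order. -/

set_option autoImplicit false

namespace H68.PC

open Equiv H69 Finset MulAction

variable {α : Type*} [Fintype α] [DecidableEq α] {p : ℕ} [Fact p.Prime] {H : Subgroup (Perm α)}

theorem e8d_blk {B : Finset (Finset α)} (h : SQ H B) {Z : Finset α} (hZ : Z.card = 3) :
    ∃ d, d ∉ Z ∧ insert d Z ∈ B := by
  obtain ⟨S, ⟨hS, hZS⟩, -⟩ := h.tri Z hZ
  have h4 := h.card S hS
  have h1 : (S \ Z).card = 1 := by rw [card_sdiff_of_subset hZS]; omega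
  obtain ⟨d, hd⟩ := card_eq_one.1 h1
  have hd' : d ∈ S \ Z := by rw [hd]; exact mem_singleton_self d
  refine ⟨d, (mem_sdiff.1 hd').2, ?_⟩
  have : insert d Z = S := by
    apply eq_of_subset_of_card_le
    · exact insert_subset (mem_sdiff.1 hd').1 hZS
    · rw [card_insert_of_notMem (mem_sdiff.1 hd').2]; omega
  rwa [this]

theorem e8d_uniq {B : Finset (Finset α)} (h : SQ H B) {Z S S' : Finset α} (hZ : Z.card = 3)
    (hS : S ∈ B) (hS' : S' ∈ B) (h1 : Z ⊆ S) (h2 : Z ⊆ S') : S = S' :=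
  (h.tri Z hZ).unique ⟨hS, h1⟩ ⟨hS', h2⟩

theorem e8d_fourth {B : Finset (Finset α)} (h : SQ H B) {Z : Finset α} (hZ : Z.card = 3) {d : α}
    (hd : d ∉ Z) (hB : insert d Z ∈ B) {g : Perm α} (hg : g ∈ H) (hgZ : g ∈ st Z) : g d = d := by
  have h1 := h.inv g hg _ hB
  have h2 : (insert d Z).image g = insert d Z := by
    refine e8d_uniq h hZ h1 hB ?_ (subset_insert _ _)
    rw [image_insert, mem_st_iff_image.1 hgZ]
    exact subset_insert _ _
  have h3 : g d ∈ insert d Z := by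
    rw [← h2]; exact mem_image_of_mem _ (mem_insert_self _ _)
  rcases mem_insert.1 h3 with h4 | h4
  · exact h4
  · exact absurd ((mem_st.1 hgZ d).1 h4) hd

theorem e8d_five (hn : Fintype.card α = 8) {B : Finset (Finset α)} (h : SQ H B) {j : Perm α}
    (hj : j ∈ H) {F : Finset α} (hF : 5 ≤ F.card) (hjF : j ∈ fx F) : j = 1 := by
  by_contra hne
  obtain ⟨y, hy⟩ : ∃ y, j y ≠ y := by
    by_contra hc
    push Not at hc
    exact hne (Equiv.ext hc)
  set F0 : Finset α := univ.filter fun x => j x = x with hF0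
  have hm : ∀ x, x ∈ F0 ↔ j x = x := fun x => by simp [hF0]
  have h5 : 5 ≤ F0.card := hF.trans (card_le_card fun x hx => (hm x).2 (hjF x hx))
  obtain ⟨u, hu⟩ : F0.Nonempty := card_pos.1 (by omega)
  have huy : u ≠ y := fun e => hy (e ▸ (hm u).1 hu)
  have hex : ∀ w ∈ F0.erase u, ∃ z, z ∉ ({u, w, y} : Finset α) ∧ insert z ({u, w, y} : Finset α) ∈ B := by
    intro w hw
    have hwy : w ≠ y := fun e => hy (e ▸ (hm w).1 (mem_of_mem_erase hw))
    exact e8d_blk h (card_eq_three.2 ⟨u, w, y, (ne_of_mem_erase hw).symm, huy, hwy, rfl⟩)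
  choose! z hz1 hz2 using hex
  have hmap : ∀ w ∈ F0.erase u, z w ∈ F0ᶜ.erase y := by
    intro w hw
    have hz := hz1 w hw
    simp only [mem_insert, mem_singleton, not_or] at hz
    have hwy : w ≠ y := fun e => hy (e ▸ (hm w).1 (mem_of_mem_erase hw))
    refine mem_erase.2 ⟨hz.2.2, mem_compl.2 fun hc => hy ?_⟩
    have hc3 : ({u, w, z w} : Finset α).card = 3 :=
      card_eq_three.2 ⟨u, w, z w, (ne_of_mem_erase hw).symm, Ne.symm hz.1, Ne.symm hz.2.1, rfl⟩
    refine e8d_fourth h hc3 ?_ ?_ hj (fx_le_st _ ?_)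
    · simp only [mem_insert, mem_singleton, not_or]
      exact ⟨huy.symm, hwy.symm, Ne.symm hz.2.2⟩
    · have : insert y ({u, w, z w} : Finset α) = insert (z w) {u, w, y} := by
        ext t; simp only [mem_insert, mem_singleton]; tauto
      rw [this]; exact hz2 w hw
    · intro t ht
      simp only [mem_insert, mem_singleton] at ht
      rcases ht with rfl | rfl | rfl
      · exact (hm _).1 hu
      · exact (hm _).1 (mem_of_mem_erase hw)
      · exact (hm _).1 hc
  have hinj : Set.InjOn z (F0.erase u : Finset α) := by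
    intro w hw w' hw' e
    have hw : w ∈ F0.erase u := hw
    have hw' : w' ∈ F0.erase u := hw'
    have hz := hz1 w hw
    simp only [mem_insert, mem_singleton, not_or] at hz
    have hwy : w ≠ y := fun e => hy (e ▸ (hm w).1 (mem_of_mem_erase hw))
    have hc3 : ({z w, u, y} : Finset α).card = 3 :=
      card_eq_three.2 ⟨z w, u, y, hz.1, hz.2.2, huy, rfl⟩
    have := e8d_uniq h hc3 (hz2 w hw) (hz2 w' hw')
      (by intro t; simp only [mem_insert, mem_singleton]; tauto)
      (by intro t; simp only [mem_insert, mem_singleton, ← e]; tauto)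
    have h2 : w ∈ insert (z w') ({u, w', y} : Finset α) := by rw [← this]; simp
    simp only [mem_insert, mem_singleton, ← e] at h2
    rcases h2 with h2 | h2 | h2 | h2
    · exact absurd h2.symm hz.2.1
    · exact absurd h2 (ne_of_mem_erase hw)
    · exact h2
    · exact absurd h2 hwy
  have hle := card_le_card_of_injOn z hmap hinj
  have hy' : y ∈ F0ᶜ := mem_compl.2 fun hc => hy ((hm y).1 hc)
  rw [card_erase_of_mem hu, card_erase_of_mem hy', card_compl, hn] at hle
  omega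

theorem e8d_semi (hn : Fintype.card α = 8) {B : Finset (Finset α)} (h : SQ H B) {Z : Finset α}
    (hZ : Z.card = 3) {d : α} (hd : d ∉ Z) (hB : insert d Z ∈ B) {x : α} (hx : x ∉ insert d Z)
    {j : Perm α} (hj : j ∈ H ⊓ fx Z) (hjx : j x = x) : j = 1 := by
  refine e8d_five hn h hj.1 (F := insert x (insert d Z)) ?_ ?_
  · rw [card_insert_of_notMem hx, card_insert_of_notMem hd]; omega
  · intro t ht
    rcases mem_insert.1 ht with rfl | ht
    · exact hjx
    rcases mem_insert.1 ht with rfl | ht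
    · exact e8d_fourth h hZ hd hB hj.1 (fx_le_st _ hj.2)
    · exact hj.2 t ht

theorem e8d_J (hn : Fintype.card α = 8) {B : Finset (Finset α)} (h : SQ H B) {Z : Finset α}
    (hZ : Z.card = 3) {d : α} (hd : d ∉ Z) (hB : insert d Z ∈ B) {x : α} (hx : x ∉ insert d Z) :
    Nat.card ↥(H ⊓ fx Z) ≤ 4 ∧
      (Nat.card ↥(H ⊓ fx Z) = 4 → ∀ y, y ∉ insert d Z → ∃ j ∈ H ⊓ fx Z, j x = y) := by
  classical
  haveI : Fintype ↥(H ⊓ fx Z) := Fintype.ofFinite _
  set T : Finset α := (univ : Finset ↥(H ⊓ fx Z)).image fun j : ↥(H ⊓ fx Z) => (j : Perm α) x with hT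
  have hinj : Function.Injective fun j : ↥(H ⊓ fx Z) => (j : Perm α) x := by
    intro j j' e
    have e' : (j : Perm α) x = (j' : Perm α) x := e
    have h1 : ((j'⁻¹ * j : ↥(H ⊓ fx Z)) : Perm α) = 1 := by
      refine e8d_semi hn h hZ hd hB hx (j'⁻¹ * j).2 ?_
      simp [e']
    have h2 : j'⁻¹ * j = 1 := Subtype.ext h1
    exact (inv_mul_eq_one.1 h2).symm
  have hc : T.card = Nat.card ↥(H ⊓ fx Z) := by
    rw [hT, card_image_of_injective _ hinj, card_univ, Nat.card_eq_fintype_card]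
  have hsub : T ⊆ (insert d Z)ᶜ := by
    intro t ht
    obtain ⟨j, -, rfl⟩ := mem_image.1 ht
    refine mem_compl.2 fun hc => hx ?_
    have hfx : (j : Perm α) ∈ fx (insert d Z) := by
      intro t ht
      rcases mem_insert.1 ht with rfl | ht
      · exact e8d_fourth h hZ hd hB j.2.1 (fx_le_st _ j.2.2)
      · exact j.2.2 t ht
    exact (mem_st.1 (fx_le_st _ hfx) x).1 hc
  have h4 : (insert d Z)ᶜ.card = 4 := by rw [card_compl, hn, h.card _ hB]
  refine ⟨hc ▸ (card_le_card hsub).trans h4.le, fun h5 y hy => ?_⟩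
  have : T = (insert d Z)ᶜ := eq_of_subset_of_card_le hsub (by omega)
  have hy' : y ∈ T := this ▸ mem_compl.2 hy
  obtain ⟨j, -, hj⟩ := mem_image.1 hy'
  exact ⟨j, j.2, hj⟩

theorem e8d_Jeq {B : Finset (Finset α)} (h : SQ H B) {Z Z' : Finset α} (hZ : Z.card = 3)
    (hZ' : Z'.card = 3) : Nat.card ↥(H ⊓ fx Z) = Nat.card ↥(H ⊓ fx Z') := by
  obtain ⟨g, hg, rfl⟩ := h.hom3 Z (subset_univ _) Z' (subset_univ _) hZ hZ'
  rw [← fx_cj, ← card_cj (H ⊓ fx Z) g, cj_inf, cj_eq_of_mem hg]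

theorem e8d_mod {g : Perm α} (hg : orderOf g = p) {Z : Finset α} (hZ : g ∈ st Z) :
    Z.card ≡ (Z ∩ g.supportᶜ).card [MOD p] := by
  have h1 : IsPGroup p (Subgroup.zpowers g) :=
    IsPGroup.of_card (n := 1) (by rw [Nat.card_zpowers, hg, pow_one])
  have h2 := card_mod h1 ((Subgroup.zpowers_le).2 hZ)
  have h3 : Fix (Subgroup.zpowers g) = g.supportᶜ := by
    ext x
    rw [mem_Fix, mem_compl, Perm.notMem_support]
    constructor
    · exact fun hx => hx g (Subgroup.mem_zpowers g)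
    · rintro hx _ ⟨k, rfl⟩
      exact Perm.zpow_apply_eq_self_of_apply_eq_self hx k
  rwa [h3] at h2

theorem e8d_r (hn : Fintype.card α = 8) {B : Finset (Finset α)} (h : SQ H B) {Z : Finset α}
    (hZ : Z.card = 3) {d : α} (hd : d ∉ Z) (hB : insert d Z ∈ B) :
    ∃ r ∈ H ⊓ st Z, orderOf r = 3 ∧ ∃ e, e ∉ insert d Z ∧ ∀ x, r x = x ↔ x = d ∨ x = e := by
  haveI : Fact (Nat.Prime 3) := ⟨Nat.prime_three⟩
  obtain ⟨r, hr⟩ := exists_prime_orderOf_dvd_card' 3 (h.d3 Z hZ)
  have hr3 : orderOf (r : Perm α) = 3 := by rw [Subgroup.orderOf_coe, hr]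
  have h6 := h.o3 r r.2.1 hr3
  have h2 : (r : Perm α).supportᶜ.card = 2 := by rw [card_compl, hn, h6]
  have hd' : d ∈ (r : Perm α).supportᶜ :=
    mem_compl.2 (Perm.notMem_support.2 (e8d_fourth h hZ hd hB r.2.1 r.2.2))
  have h1 : ((r : Perm α).supportᶜ.erase d).card = 1 := by rw [card_erase_of_mem hd', h2]
  obtain ⟨e, he⟩ := card_eq_one.1 h1
  have hs : (r : Perm α).supportᶜ = insert d {e} := by rw [← he, insert_erase hd']
  have hed : e ≠ d := ne_of_mem_erase (he ▸ mem_singleton_self e)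
  refine ⟨r, r.2, hr3, e, ?_, fun x => ?_⟩
  · intro hc
    rcases mem_insert.1 hc with hc | hc
    · exact hed hc
    have h3 := e8d_mod hr3 r.2.2
    have h4 : Z ∩ (r : Perm α).supportᶜ = {e} := by
      rw [hs]
      ext t
      simp only [mem_inter, mem_insert, mem_singleton]
      constructor
      · rintro ⟨h5, rfl | h6⟩
        · exact absurd h5 hd
        · exact h6
      · rintro rfl
        exact ⟨hc, Or.inr rfl⟩
    rw [h4, hZ, card_singleton] at h3
    exact absurd h3 (by decide)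
  · rw [← Perm.notMem_support, ← mem_compl, hs]
    simp

theorem e8d_res {Z : Finset α} (hZ : Z.card = 3) (L : Subgroup (Perm α)) : Nat.card (res Z L) ∣ 6 := by
  have := Subgroup.card_subgroup_dvd_card (res Z L)
  rwa [Nat.card_perm, Nat.card_eq_fintype_card (α := ↥Z), Fintype.card_coe, hZ] at this

theorem e8d_h {Z : Finset α} :
    Nat.card ↥(H ⊓ st Z) = Nat.card ↥(H ⊓ fx Z) * Nat.card (res Z (H ⊓ st Z)) := by
  rw [card_res (S := Z) (L := H ⊓ st Z) inf_le_right, inf_assoc, inf_eq_right.2 (fx_le_st Z)]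

theorem e8d_n3 (hn : Fintype.card α = 8) {B : Finset (Finset α)} (h : SQ H B) {Z : Finset α}
    (hZ : Z.card = 3) : ¬ 3 ∣ Nat.card ↥(H ⊓ fx Z) := by
  intro h3
  haveI : Fact (Nat.Prime 3) := ⟨Nat.prime_three⟩
  obtain ⟨r, hr⟩ := exists_prime_orderOf_dvd_card' 3 h3
  have hr3 : orderOf (r : Perm α) = 3 := by rw [Subgroup.orderOf_coe, hr]
  have h6 := h.o3 r r.2.1 hr3
  have h1 : Z ⊆ (r : Perm α).supportᶜ := fun x hx => mem_compl.2 (Perm.notMem_support.2 (r.2.2 x hx))
  have h2 := card_le_card h1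
  rw [card_compl, hn, h6] at h2
  omega

/-- an element that conjugates `r` to a power and fixes `d` fixes `e` -/
theorem e8d_fixe {r t : Perm α} {d e : α} (hr : ∀ x, r x = x ↔ x = d ∨ x = e)
    (ht : t⁻¹ * r * t ∈ Subgroup.zpowers r) (hd : t d = d) (hed : e ≠ d) : t e = e := by
  obtain ⟨k, hk⟩ := ht
  have h1 : (t⁻¹ * r * t) e = e := by
    rw [← hk]; exact Perm.zpow_apply_eq_self_of_apply_eq_self ((hr e).2 (Or.inr rfl)) k
  have h2 : r (t e) = t e := by
    rw [Perm.mul_apply, Perm.mul_apply, Perm.inv_eq_iff_eq] at h1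
    exact h1
  rcases (hr _).1 h2 with h3 | h3
  · exact absurd (t.injective (h3.trans hd.symm)) hed
  · exact h3

theorem e8d_two (hn : Fintype.card α = 8) {B : Finset (Finset α)} (h : SQ H B) {Z : Finset α}
    (hZ : Z.card = 3) : Nat.card ↥(H ⊓ fx Z) ≠ 2 := by
  intro h2
  obtain ⟨d, hd, hB⟩ := e8d_blk h hZ
  obtain ⟨r, hr, -, e, he, hre⟩ := e8d_r hn h hZ hd hB
  obtain ⟨j, hj1, hj⟩ := (Nat.card_eq_two_iff' (1 : ↥(H ⊓ fx Z))).1 h2
  have hmem : r * (j : Perm α) * r⁻¹ ∈ H ⊓ fx Z := by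
    refine ⟨H.mul_mem (H.mul_mem hr.1 j.2.1) (H.inv_mem hr.1), fun x hx => ?_⟩
    have hx' : r⁻¹ x ∈ Z := (mem_st.1 ((st Z).inv_mem hr.2) x).2 hx
    rw [Perm.mul_apply, Perm.mul_apply, j.2.2 _ hx']
    simp
  have hne : (⟨_, hmem⟩ : ↥(H ⊓ fx Z)) ≠ 1 := by
    intro hc
    have hc' : r * (j : Perm α) * r⁻¹ = 1 := congrArg Subtype.val hc
    apply hj1
    apply Subtype.ext
    have : (j : Perm α) = r⁻¹ * (r * (j : Perm α) * r⁻¹) * r := by group
    rw [this, hc']
    simp
  have hcomm : r * (j : Perm α) * r⁻¹ = j := congrArg Subtype.val (hj _ hne)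
  have hz : (j : Perm α)⁻¹ * r * j ∈ Subgroup.zpowers r := by
    have : (j : Perm α)⁻¹ * r * j = r := by
      calc (j : Perm α)⁻¹ * r * j = (j : Perm α)⁻¹ * (r * (j : Perm α) * r⁻¹) * r := by group
        _ = r := by rw [hcomm]; group
    rw [this]; exact Subgroup.mem_zpowers r
  have hje := e8d_fixe hre hz (e8d_fourth h hZ hd hB j.2.1 (fx_le_st _ j.2.2))
    (fun hc => he (hc ▸ mem_insert_self _ _))
  exact hj1 (Subtype.ext (e8d_semi hn h hZ hd hB he j.2 hje))

theorem e8d_one (hn : Fintype.card α = 8) {B : Finset (Finset α)} (h : SQ H B) {Z : Finset α}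
    (hZ : Z.card = 3) (h1 : Nat.card ↥(H ⊓ fx Z) = 1) : Nat.card ↥(H ⊓ st Z) ≠ 6 := by
  intro h6
  haveI : Fact (Nat.Prime 2) := ⟨Nat.prime_two⟩
  obtain ⟨d, hd, hB⟩ := e8d_blk h hZ
  obtain ⟨r, hr, hr3, e, he, hre⟩ := e8d_r hn h hZ hd hB
  obtain ⟨t, ht⟩ := exists_prime_orderOf_dvd_card' (G := ↥(H ⊓ st Z)) 2 (by rw [h6]; decide)
  have ht2 : orderOf (t : Perm α) = 2 := by rw [Subgroup.orderOf_coe, ht]
  set r' : ↥(H ⊓ st Z) := ⟨r, hr⟩ with hr'
  have hc : Nat.card (Subgroup.zpowers r') = 3 := by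
    rw [Nat.card_zpowers, ← Subgroup.orderOf_coe]; exact hr3
  have hi : (Subgroup.zpowers r').index = 2 := by
    have := (Subgroup.zpowers r').card_mul_index
    rw [hc, h6] at this
    omega
  have hN := Subgroup.normal_of_index_eq_two hi
  obtain ⟨k, hk⟩ := hN.conj_mem r' (Subgroup.mem_zpowers r') t⁻¹
  have hz : (t : Perm α)⁻¹ * r * t ∈ Subgroup.zpowers r := by
    refine ⟨k, ?_⟩
    have := congrArg Subtype.val hk
    simpa [hr'] using this
  have htd := e8d_fourth h hZ hd hB t.2.1 t.2.2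
  have hed : e ≠ d := fun hc => he (hc ▸ mem_insert_self _ _)
  have hte := e8d_fixe hre hz htd hed
  have hm := e8d_mod ht2 t.2.2
  obtain ⟨z, hz'⟩ : (Z ∩ (t : Perm α).supportᶜ).Nonempty := by
    rw [nonempty_iff_ne_empty]
    intro hc
    rw [hc, hZ, card_empty] at hm
    exact absurd hm (by decide)
  have hzZ := (mem_inter.1 hz').1
  have htz : (t : Perm α) z = z := Perm.notMem_support.1 (mem_compl.1 (mem_inter.1 hz').2)
  have hc3 : ({z, d, e} : Finset α).card = 3 :=
    card_eq_three.2 ⟨z, d, e, fun hc => hd (hc ▸ hzZ), fun hc => he (hc ▸ mem_insert_of_mem hzZ),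
      hed.symm, rfl⟩
  have hb : H ⊓ fx ({z, d, e} : Finset α) = ⊥ := by
    rw [← Subgroup.card_eq_one, e8d_Jeq h hc3 hZ, h1]
  have hmem : (t : Perm α) ∈ H ⊓ fx ({z, d, e} : Finset α) := by
    refine ⟨t.2.1, fun x hx => ?_⟩
    simp only [mem_insert, mem_singleton] at hx
    rcases hx with rfl | rfl | rfl
    · exact htz
    · exact htd
    · exact hte
  rw [hb, Subgroup.mem_bot] at hmem
  rw [hmem, orderOf_one] at ht2
  omega

theorem e8d_four (hn : Fintype.card α = 8) {B : Finset (Finset α)} (h : SQ H B) {Z : Finset α}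
    (hZ : Z.card = 3) (h4 : Nat.card ↥(H ⊓ fx Z) = 4) :
    ∃ Z' : Finset α, Z'.card = 3 ∧ 2 ∣ Nat.card (res Z' (H ⊓ st Z')) := by
  obtain ⟨d, hd, hB⟩ := e8d_blk h hZ
  obtain ⟨a, b, c, hab, hac, hbc, rfl⟩ := card_eq_three.1 hZ
  obtain ⟨x, hx⟩ : (insert d ({a, b, c} : Finset α))ᶜ.Nonempty := by
    rw [← card_pos, card_compl, hn, h.card _ hB]; omega
  have hx := mem_compl.1 hx
  have hx' := hx
  have hd' := hd
  simp only [mem_insert, mem_singleton, not_or] at hx' hd'
  have hc3 : ({a, b, x} : Finset α).card = 3 :=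
    card_eq_three.2 ⟨a, b, x, hab, Ne.symm hx'.2.1, Ne.symm hx'.2.2.1, rfl⟩
  obtain ⟨x', hx2, hD⟩ := e8d_blk h hc3
  have hcD : c ∉ insert x' ({a, b, x} : Finset α) := by
    intro hc
    have := e8d_uniq h hZ hD hB (by
      intro t ht
      simp only [mem_insert, mem_singleton] at ht
      rcases ht with rfl | rfl | rfl
      · simp
      · simp
      · exact hc) (subset_insert _ _)
    exact hx (this ▸ by simp)
  have habd : ({a, b, d} : Finset α).card = 3 :=
    card_eq_three.2 ⟨a, b, d, hab, Ne.symm hd'.1, Ne.symm hd'.2.1, rfl⟩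
  have hdD : d ∉ insert x' ({a, b, x} : Finset α) := by
    intro hc
    have := e8d_uniq h habd hD hB (by
      intro t ht
      simp only [mem_insert, mem_singleton] at ht
      rcases ht with rfl | rfl | rfl
      · simp
      · simp
      · exact hc) (by intro t; simp only [mem_insert, mem_singleton]; tauto)
    exact hx (this ▸ by simp)
  obtain ⟨j, hj, hjc⟩ := (e8d_J hn h hc3 hx2 hD hcD).2 ((e8d_Jeq h hc3 hZ).trans h4) d hdD
  have hja : j a = a := hj.2 a (by simp)
  have hjb : j b = b := hj.2 b (by simp)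
  have himg := e8d_uniq h habd (h.inv j hj.1 _ hB) hB (by
      intro t ht
      simp only [mem_insert, mem_singleton] at ht
      rcases ht with rfl | rfl | rfl
      · exact mem_image.2 ⟨t, by simp, hja⟩
      · exact mem_image.2 ⟨t, by simp, hjb⟩
      · exact mem_image.2 ⟨c, by simp, hjc⟩) (by intro t; simp only [mem_insert, mem_singleton]; tauto)
  have hjd : j d = c := by
    have : j d ∈ insert d ({a, b, c} : Finset α) := by
      rw [← himg]; exact mem_image_of_mem _ (mem_insert_self _ _)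
    simp only [mem_insert, mem_singleton] at this
    rcases this with h5 | h5 | h5 | h5
    · exact absurd (j.injective (h5.trans hjc.symm)) hd'.2.2
    · exact absurd (j.injective (h5.trans hja.symm)) hd'.1
    · exact absurd (j.injective (h5.trans hjb.symm)) hd'.2.1
    · exact h5
  have hst : j ∈ st ({a, c, d} : Finset α) := by
    apply mem_st_of
    intro t ht
    simp only [mem_insert, mem_singleton] at ht
    rcases ht with rfl | rfl | rfl
    · simp [hja]
    · simp [hjc]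
    · simp [hjd]
  refine ⟨{a, c, d}, card_eq_three.2 ⟨a, c, d, hac, Ne.symm hd'.1, Ne.symm hd'.2.2, rfl⟩, ?_⟩
  obtain ⟨σ, hσ, hσj⟩ := exists_res (L := H ⊓ st ({a, c, d} : Finset α)) ⟨hj.1, hst⟩ hst
  haveI : Fact (Nat.Prime 2) := ⟨Nat.prime_two⟩
  have ho : orderOf σ = 2 := by
    apply orderOf_eq_prime
    · ext ⟨t, ht⟩
      rw [pow_two, Perm.mul_apply, ← hσj, ← hσj]
      simp only [mem_insert, mem_singleton] at ht
      rcases ht with rfl | rfl | rfl
      · simp [hja]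
      · simp [hjc, hjd]
      · simp [hjc, hjd]
    · intro hc
      have := hσj ⟨c, by simp⟩
      rw [hc] at this
      exact hd'.2.2 (hjc.symm.trans this)
  rw [← ho]
  exact Subgroup.orderOf_dvd_natCard _ hσ

theorem sq_card (hn : Fintype.card α = 8) {B : Finset (Finset α)} (h : SQ H B) :
    Nat.card H = 1344 ∨ Nat.card H = 168 := by
  obtain ⟨Z, -, hZ⟩ := exists_subset_card_eq (s := (univ : Finset α)) (n := 3) (by rw [card_univ, hn]; omega)
  obtain ⟨d, hd, hB⟩ := e8d_blk h hZ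
  obtain ⟨x, hx⟩ : (insert d Z)ᶜ.Nonempty := by
    rw [← card_pos, card_compl, hn, h.card _ hB]; omega
  have hle := (e8d_J hn h hZ hd hB (mem_compl.1 hx)).1
  have hpos : 0 < Nat.card ↥(H ⊓ fx Z) := Nat.card_pos
  have h3 := e8d_n3 hn h hZ
  have h2 := e8d_two hn h hZ
  have key : ∀ Z' : Finset α, Z'.card = 3 →
      Nat.card (res Z' (H ⊓ st Z')) = 3 ∨ Nat.card (res Z' (H ⊓ st Z')) = 6 := by
    intro Z' hZ'
    have a1 := h.d3 Z' hZ'
    rw [e8d_h, Nat.prime_three.dvd_mul] at a1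
    have a2 := a1.resolve_left (e8d_n3 hn h hZ')
    have a3 := e8d_res hZ' (H ⊓ st Z')
    have a4 := Nat.le_of_dvd (by norm_num) a3
    generalize Nat.card (res Z' (H ⊓ st Z')) = m at a2 a3 a4
    interval_cases m <;> simp_all
  have hc : Nat.card ↥(H ⊓ fx Z) = 1 ∨ Nat.card ↥(H ⊓ fx Z) = 4 := by omega
  rcases hc with hc | hc
  · right
    have a1 := e8d_one hn h hZ hc
    have a2 := h.tr3 Z hZ
    have a3 := e8d_h (H := H) (Z := Z)
    rw [hc] at a3
    rcases key Z hZ with a4 | a4 <;> omega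
  · left
    obtain ⟨Z', hZ', a1⟩ := e8d_four hn h hZ hc
    have a2 := h.tr3 Z' hZ'
    have a3 := e8d_h (H := H) (Z := Z')
    rw [e8d_Jeq h hZ' hZ, hc] at a3
    rcases key Z' hZ' with a4 | a4 <;> omega

end H68.PC
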