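import Cfsg.Agent.Lib.PCon.R0

/-! Degree eight: order 168. -/

set_option autoImplicit false

namespace H68.PC

open Equiv H69 Finset MulAction

variable {α : Type*} [Fintype α] [DecidableEq α] {p : ℕ} [Fact p.Prime] {H : Subgroup (Perm α)}

theorem e8e_nofix {B : Finset (Finset α)} (hn : Fintype.card α = 8) (h : SQ H B) (hc : Nat.card H = 168)
    {t : Perm α} (ht : t ∈ H) (h2 : t * t = 1) {a : α} (ha : t a = a) : t = 1 := by
  by_contra h1
  obtain ⟨b, hb⟩ : ∃ b, t b ≠ b := by
    by_contra hcon; push Not at hcon; exact h1 (Equiv.ext hcon)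
  have tt : ∀ x, t (t x) = x := fun x => by rw [← Perm.mul_apply, h2]; rfl
  have hab : a ≠ b := by rintro rfl; exact hb ha
  have hatb : a ≠ t b := fun e => hab (t.injective (ha.trans e))
  have hZ : ({a, b, t b} : Finset α).card = 3 :=
    card_eq_three.2 ⟨a, b, t b, hab, hatb, hb.symm, rfl⟩
  have h3 := h.tr3 _ hZ
  have hm : t ∈ H ⊓ st {a, b, t b} := ⟨ht, mem_st_of (by
    intro x hx
    simp only [mem_insert, mem_singleton] at hx ⊢
    rcases hx with rfl | rfl | rfl <;> simp [ha, tt])⟩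
  have ho : orderOf t = 2 := orderOf_eq_prime (by rw [pow_two, h2]) h1
  have hd := Subgroup.orderOf_dvd_natCard _ hm
  rw [ho] at hd
  omega

theorem e8e_block {B : Finset (Finset α)} (hn : Fintype.card α = 8) (h : SQ H B) (hc : Nat.card H = 168)
    {t : Perm α} (ht : t ∈ H) (h2 : t * t = 1) (h1 : t ≠ 1) {a c : α} (hca : c ≠ a) (hct : c ≠ t a) :
    ({a, t a, c, t c} : Finset α) ∈ B ∧ t c ∉ ({a, t a, c} : Finset α) := by
  have tt : ∀ x, t (t x) = x := fun x => by rw [← Perm.mul_apply, h2]; rfl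
  have nf : ∀ x, t x ≠ x := fun x e => h1 (e8e_nofix hn h hc ht h2 e)
  have e1 : t c ≠ a := fun e => hct (by rw [← e, tt])
  have e2 : t c ≠ t a := fun e => hca (t.injective e)
  have hno : t c ∉ ({a, t a, c} : Finset α) := by simp [e1, e2, nf c]
  refine ⟨?_, hno⟩
  by_contra hB
  have hS : ({a, t a, c, t c} : Finset α).card = 4 := by
    rw [card_insert_of_notMem (by simp [(nf a).symm, hca.symm, e1.symm]),
      card_insert_of_notMem (by simp [hct.symm, hca.symm]), card_pair (nf c).symm]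
  have h3 := h.non _ hS hB
  have hm : t ∈ H ⊓ st {a, t a, c, t c} := ⟨ht, mem_st_of (by
    intro x hx
    simp only [mem_insert, mem_singleton] at hx ⊢
    rcases hx with rfl | rfl | rfl | rfl <;> simp [tt])⟩
  have ho : orderOf t = 2 := orderOf_eq_prime (by rw [pow_two, h2]) h1
  have hd := Subgroup.orderOf_dvd_natCard _ hm
  rw [ho] at hd
  omega

theorem e8e_four {B : Finset (Finset α)} (h : SQ H B) {Z : Finset α} (hZ : Z.card = 3) {x y : α}
    (hx : insert x Z ∈ B) (hy : insert y Z ∈ B) (hx' : x ∉ Z) : x = y := by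
  obtain ⟨S, -, hS⟩ := h.tri Z hZ
  have e : insert x Z = insert y Z :=
    (hS _ ⟨hx, subset_insert _ _⟩).trans (hS _ ⟨hy, subset_insert _ _⟩).symm
  have : x ∈ insert y Z := e ▸ mem_insert_self x Z
  exact (mem_insert.1 this).resolve_right hx'

theorem e8e_det {B : Finset (Finset α)} (hn : Fintype.card α = 8) (h : SQ H B) (hc : Nat.card H = 168)
    {s t : Perm α} (hs : s ∈ H) (s2 : s * s = 1) (ht : t ∈ H) (t2 : t * t = 1) {a : α}
    (e : s a = t a) : s = t := by
  by_cases s1 : s = 1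
  · subst s1; exact (e8e_nofix hn h hc ht t2 e.symm).symm
  by_cases t1 : t = 1
  · subst t1; exact e8e_nofix hn h hc hs s2 e
  have ss : ∀ x, s (s x) = x := fun x => by rw [← Perm.mul_apply, s2]; rfl
  have tt : ∀ x, t (t x) = x := fun x => by rw [← Perm.mul_apply, t2]; rfl
  have nf : t a ≠ a := fun e => t1 (e8e_nofix hn h hc ht t2 e)
  ext c
  by_cases hca : c = a
  · rw [hca, e]
  by_cases hct : c = t a
  · rw [hct, tt, ← e, ss]
  obtain ⟨b1, n1⟩ := e8e_block hn h hc hs s2 s1 hca (e ▸ hct)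
  obtain ⟨b2, -⟩ := e8e_block hn h hc ht t2 t1 hca hct
  rw [e] at b1 n1
  refine e8e_four h (Z := {a, t a, c})
    (card_eq_three.2 ⟨a, t a, c, nf.symm, Ne.symm hca, Ne.symm hct, rfl⟩) ?_ ?_ n1
  · convert b1 using 1; ext; simp; tauto
  · convert b2 using 1; ext; simp; tauto

theorem e8e_comm {B : Finset (Finset α)} (hn : Fintype.card α = 8) (h : SQ H B) (hc : Nat.card H = 168)
    {s t : Perm α} (hs : s ∈ H) (s2 : s * s = 1) (ht : t ∈ H) (t2 : t * t = 1) : s * t = t * s := by
  by_cases s1 : s = 1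
  · simp [s1]
  by_cases t1 : t = 1
  · simp [t1]
  by_cases st : s = t
  · rw [st]
  ext a
  have ns : s a ≠ a := fun e => s1 (e8e_nofix hn h hc hs s2 e)
  have nt : t a ≠ a := fun e => t1 (e8e_nofix hn h hc ht t2 e)
  have nst : s a ≠ t a := fun e => st (e8e_det hn h hc hs s2 ht t2 e)
  obtain ⟨b1, n1⟩ := e8e_block hn h hc hs s2 s1 nt nst.symm
  obtain ⟨b2, -⟩ := e8e_block hn h hc ht t2 t1 ns nst
  rw [Perm.mul_apply, Perm.mul_apply]
  refine e8e_four h (Z := {a, s a, t a})
    (card_eq_three.2 ⟨a, s a, t a, ns.symm, nt.symm, nst, rfl⟩) ?_ ?_ n1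
  · convert b1 using 1; ext; simp; tauto
  · convert b2 using 1; ext; simp; tauto

theorem sq_solv (hn : Fintype.card α = 8) {B : Finset (Finset α)} (h : SQ H B) (hc : Nat.card H = 168) :
    Group.IsSolvable H := by
  have hcomm : ∀ s t : H, s * s = 1 → t * t = 1 → s * t = t * s := fun s t s2 t2 =>
    Subtype.ext (e8e_comm hn h hc s.2 (congrArg Subtype.val s2) t.2 (congrArg Subtype.val t2))
  let E : Subgroup H :=
    { carrier := {g | g * g = 1}
      one_mem' := mul_one 1
      mul_mem' := fun {s t} s2 t2 => by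
        have s2 : s * s = 1 := s2
        have t2 : t * t = 1 := t2
        show s * t * (s * t) = 1
        rw [mul_assoc, ← mul_assoc t, ← hcomm s t s2 t2, mul_assoc, t2, mul_one, s2]
      inv_mem' := fun {s} s2 => by
        have s2 : s * s = 1 := s2
        show s⁻¹ * s⁻¹ = 1
        rw [← mul_inv_rev, s2, inv_one] }
  have hE : ∀ g : H, g ∈ E ↔ g * g = 1 := fun _ => Iff.rfl
  haveI : E.Normal := ⟨fun s hs g => by
    rw [hE] at hs ⊢
    calc g * s * g⁻¹ * (g * s * g⁻¹) = g * (s * s) * g⁻¹ := by group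
      _ = 1 := by rw [hs]; group⟩
  haveI : Group.IsSolvable E :=
    Group.isSolvable_of_comm fun a b => Subtype.ext (hcomm _ _ a.2 b.2)
  haveI : Fact (Nat.Prime 2) := ⟨Nat.prime_two⟩
  obtain ⟨t, ht⟩ := exists_prime_orderOf_dvd_card' (G := H) 2 (by rw [hc]; norm_num)
  have t2 : t * t = 1 := by rw [← pow_two, ← ht, pow_orderOf_eq_one]
  have t1 : (t : Perm α) ≠ 1 := fun e => by
    rw [show t = 1 from Subtype.ext e, orderOf_one] at ht; omega
  obtain ⟨a⟩ : Nonempty α := Fintype.card_pos_iff.1 (by omega)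
  have nt : (t : Perm α) a ≠ a := fun e => t1 (e8e_nofix hn h hc t.2 (congrArg Subtype.val t2) e)
  have hcE : Nat.card E = 8 := by
    rw [← hn, ← Nat.card_eq_fintype_card]
    refine Nat.card_eq_of_bijective (fun e : E => ((e : H) : Perm α) a) ⟨fun s t e => ?_, fun c => ?_⟩
    · exact Subtype.ext (Subtype.ext (e8e_det hn h hc s.1.2 (congrArg Subtype.val s.2) t.1.2
        (congrArg Subtype.val t.2) e))
    · by_cases hca : c = a
      · exact ⟨1, hca.symm⟩
      obtain ⟨g, hg, hgx⟩ := h.tr2 {a, (t : Perm α) a} (subset_univ _) (card_pair nt.symm).le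
        (swap ((t : Perm α) a) c) (fun _ _ => mem_univ _)
      have g1 : g a = a := by
        rw [hgx a (by simp), swap_apply_of_ne_of_ne nt.symm (Ne.symm hca)]
      have g2 : g ((t : Perm α) a) = c := by rw [hgx _ (by simp), swap_apply_left]
      refine ⟨⟨⟨g, hg⟩ * t * ⟨g, hg⟩⁻¹, Subgroup.Normal.conj_mem ‹_› t t2 _⟩, ?_⟩
      have g3 : g⁻¹ a = a := by rw [Perm.inv_eq_iff_eq, g1]
      show (g * (t : Perm α) * g⁻¹) a = c
      rw [Perm.mul_apply, Perm.mul_apply, g3, g2]
  have hq : Nat.card (H ⧸ E) = 21 := by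
    have := Subgroup.card_eq_card_quotient_mul_card_subgroup E
    rw [hc, hcE] at this; omega
  haveI : IsZGroup (H ⧸ E) := IsZGroup.of_squarefree (by
    rw [hq, show 21 = 3 * 7 from rfl, Nat.squarefree_mul (by norm_num)]
    exact ⟨Nat.prime_three.squarefree, (by norm_num : Nat.Prime 7).squarefree⟩)
  exact Group.isSolvable_of_ker_le_range E.subtype (QuotientGroup.mk' E) (by simp)

end H68.PC
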