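import Cfsg.Agent.Lib.PCon.Up
import Cfsg.Agent.Lib.PCon.Rel2

/-! The prime two: pairs. -/

set_option autoImplicit false

namespace H68.PC

open Equiv H69 Finset MulAction

variable {α : Type*} [Fintype α] [DecidableEq α] {p : ℕ} [Fact p.Prime] {H : Subgroup (Perm α)}

theorem f1_comb {Q : Type*} [Finite Q] (col : α → α → Q) (d : Q → Q) (sym : ∀ a b, col a b = col b a)
    (T : ∀ x y z, x ≠ y → x ≠ z → y ≠ z → (col x y = col x z ∧ d (col y z) = col x y) ∨
      (col y x = col y z ∧ d (col x z) = col y x) ∨ (col z x = col z y ∧ d (col x y) = col z x))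
    (V : ∀ x y, x ≠ y → ∃ z, z ≠ x ∧ z ≠ y ∧ col x z = col x y)
    (tr : ∀ x a b, a ≠ b → ∃ y, x ≠ y ∧ col x y = col a b)
    (hd : ∀ a b, a ≠ b → ∃ f g, f ≠ g ∧ d (col a b) = col f g)
    {a b a' b' : α} (ab : a ≠ b) (ab' : a' ≠ b') (ne : col a b ≠ col a' b') :
    4 ≤ Fintype.card α ∧ Fintype.card α ≤ 6 := by
  classical
  have K : ∀ x y z, x ≠ y → x ≠ z → y ≠ z → col x y = col x z → d (col y z) = col x y := by
    intro x y z xy xz yz e
    rcases T x y z xy xz yz with ⟨-, h⟩ | ⟨h1, h2⟩ | ⟨h1, h2⟩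
    · exact h
    · rw [← h1, sym y x, e, h2, sym y x, e]
    · rw [sym y z, ← h1, sym z x, ← e, h2, sym z x, e]
  let C : Set Q := {c | ∃ x y, x ≠ y ∧ c = col x y}
  have hm : Set.MapsTo d C C := by
    rintro _ ⟨x, y, xy, rfl⟩
    exact hd x y xy
  have hs : Set.SurjOn d C C := by
    rintro _ ⟨x, y, xy, rfl⟩
    obtain ⟨z, zx, zy, e⟩ := V x y xy
    exact ⟨col y z, ⟨y, z, zy.symm, rfl⟩, K x y z xy zx.symm zy.symm e.symm⟩
  have inj := (((Set.toFinite C).surjOn_iff_bijOn_of_mapsTo hm).1 hs).injOn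
  have R : ∀ c ∈ C, ∀ c' ∈ C, c ≠ c' → d c' = c ∨ d c = c' := by
    rintro _ ⟨x, y, xy, rfl⟩ _ ⟨u, w, uw, rfl⟩ h
    obtain ⟨z, xz, e⟩ := tr x u w uw
    rw [← e] at h ⊢
    rcases T x y z xy xz (fun k => h (k ▸ rfl)) with ⟨h1, -⟩ | ⟨-, h2⟩ | ⟨-, h2⟩
    · exact (h h1).elim
    · exact Or.inl (h2.trans (sym _ _))
    · exact Or.inr (h2.trans (sym _ _))
  have nf : ∀ c ∈ C, d c ≠ c := by
    intro c hc e
    obtain ⟨c', hc', h⟩ : ∃ c' ∈ C, c ≠ c' := by
      by_cases k : c = col a b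
      · exact ⟨_, ⟨a', b', ab', rfl⟩, k ▸ ne⟩
      · exact ⟨_, ⟨a, b, ab, rfl⟩, k⟩
    rcases R c hc c' hc' h with k | k
    · exact h (inj hc hc' (e.trans k.symm))
    · exact h (e.symm.trans k)
  have val : ∀ x c, (univ.filter fun z => x ≠ z ∧ col x z = c).card ≤ 2 := by
    intro x c
    by_contra k
    obtain ⟨y, z, u, hy, hz, hu, yz, yu, zu⟩ := two_lt_card_iff.1 (not_le.1 k)
    simp only [mem_filter, mem_univ, true_and] at hy hz hu
    have e1 := K x y z hy.1 hz.1 yz (hy.2.trans hz.2.symm)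
    have e2 := K x y u hy.1 hu.1 yu (hy.2.trans hu.2.symm)
    have e3 := K x z u hz.1 hu.1 zu (hz.2.trans hu.2.symm)
    have e4 : col y z = col y u := inj ⟨y, z, yz, rfl⟩ ⟨y, u, yu, rfl⟩ (e1.trans e2.symm)
    have e5 : col y z = col z u :=
      inj ⟨y, z, yz, rfl⟩ ⟨z, u, zu, rfl⟩ (e1.trans ((hy.2.trans hz.2.symm).trans e3.symm))
    exact nf _ ⟨z, u, zu, rfl⟩ ((K y z u yz yu zu e4).trans e5)
  constructor
  · obtain ⟨z, za, zb, e⟩ := V a b ab
    obtain ⟨u, au, e'⟩ := tr a a' b' ab'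
    have ub : b ≠ u := fun k => ne (k ▸ e')
    have uz : z ≠ u := fun k => ne (e.symm.trans (k ▸ e'))
    have : ({a, b, z, u} : Finset α).card = 4 := by
      rw [card_insert_of_notMem (by simp [ab, za.symm, au]), card_insert_of_notMem (by simp [zb.symm, ub]),
        card_pair uz]
    exact this ▸ card_le_univ _
  · have sub : (univ : Finset α) ⊆ ((univ.filter fun z => a ≠ z ∧ col a z = col a b) ∪
        univ.filter fun z => b ≠ z ∧ col b z = col b a) ∪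
        univ.filter fun z => a ≠ z ∧ col a z = d (col a b) := by
      intro z _
      simp only [mem_union, mem_filter, mem_univ, true_and]
      by_cases za : a = z
      · exact Or.inl (Or.inr ⟨za ▸ ab.symm, za ▸ rfl⟩)
      by_cases zb : b = z
      · exact Or.inl (Or.inl ⟨za, zb ▸ rfl⟩)
      rcases T a b z ab za zb with ⟨h1, -⟩ | ⟨h1, -⟩ | ⟨-, h2⟩
      · exact Or.inl (Or.inl ⟨za, h1.symm⟩)
      · exact Or.inl (Or.inr ⟨zb, h1.symm⟩)
      · exact Or.inr ⟨za, (sym _ _).trans h2.symm⟩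
    have h1 := (card_le_card sub).trans ((card_union_le _ _).trans
      (Nat.add_le_add ((card_union_le _ _).trans (Nat.add_le_add (val _ _) (val _ _))) (val _ _)))
    rwa [card_univ] at h1

/-- `f` is the apex over the pair `a`, `b` -/
def f1_Ap (H : Subgroup (Perm α)) (f a b : α) : Prop :=
  a ≠ b ∧ ∃ P, IsSylowIn 2 P H ∧ f ∈ Fix P ∧ P ≤ st {a, b}

theorem f1_sorb {S T : Finset α} : sorb H S = sorb H T ↔ Eqv H S T :=
  ⟨fun e => mem_sorb.1 (e ▸ mem_sorb.2 (Eqv.refl H T)), fun e => by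
    ext U
    rw [mem_sorb, mem_sorb]
    exact ⟨e.symm.trans, e.trans⟩⟩

theorem f1_img {g : Perm α} (hg : g ∈ H) (a b : α) : sorb H {a, b} = sorb H {g a, g b} :=
  f1_sorb.2 ⟨g, hg, by rw [image_insert, image_singleton]⟩

theorem f1_mv (h : C0 2 H) {P : Subgroup (Perm α)} (hP : IsSylowIn 2 P H) {a b : α} (ab : a ≠ b)
    (hS : P ≤ st {a, b}) : a ∉ Fix P := fun k => by
  have e := h.inter_Fix hP hS
  rw [card_pair ab, Nat.mod_self, card_eq_zero] at e
  exact notMem_empty a (e ▸ mem_inter.2 ⟨mem_insert_self _ _, k⟩)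

theorem f1_leg (h : C0 2 H) {f a b : α} (k : f1_Ap H f a b) : sorb H {f, a} = sorb H {f, b} := by
  obtain ⟨ab, P, hP, hf, hS⟩ := k
  have := f1_mv h hP ab hS
  rw [mem_Fix] at this
  push Not at this
  obtain ⟨g, hg, e⟩ := this
  have e1 : g a = b := by
    simpa [e] using (mem_st.1 (hS hg) a).2 (mem_insert_self _ _)
  rw [f1_img (hP.le hg), mem_Fix.1 hf g hg, e1]

theorem f1_fix (h : C0 2 H) {P : Subgroup (Perm α)} (hP : IsSylowIn 2 P H) {f : α} (hf : f ∈ Fix P) :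
    Fix P = {f} := by
  obtain ⟨u, e⟩ := card_eq_one.1 (h.hf P hP)
  rw [e] at hf ⊢
  rw [mem_singleton.1 hf]

theorem f1_wd (h : C0 2 H) {f a b f' a' b' : α} (k : f1_Ap H f a b) (k' : f1_Ap H f' a' b')
    (e : sorb H {a, b} = sorb H {a', b'}) : sorb H {f, a} = sorb H {f', a'} := by
  have leg := f1_leg h k'
  obtain ⟨-, P, hP, hf, hS⟩ := k
  obtain ⟨-, P', hP', hf', hS'⟩ := k'
  obtain ⟨g, hg, e1, e2⟩ := eqv_base hP hP' hS hS' (f1_sorb.1 e) 2
  rw [short_p hP.isP, short_p hP'.isP, f1_fix h hP hf, f1_fix h hP' hf', image_singleton,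
    singleton_inj] at e2
  have e3 : g a ∈ ({a', b'} : Finset α) := e1 ▸ mem_image_of_mem g (mem_insert_self _ _)
  rw [f1_img hg, e2]
  rcases mem_insert.1 e3 with e4 | e4
  · rw [e4]
  · rw [mem_singleton.1 e4, leg]

theorem f1_tri (h : C0 2 H) {x y z : α} (xy : x ≠ y) (xz : x ≠ z) (yz : y ≠ z) :
    f1_Ap H x y z ∨ f1_Ap H y x z ∨ f1_Ap H z x y := by
  obtain ⟨P, hP, f, hf, k1, k2, -⟩ := ex_apex h dvd_rfl h.one {x, y, z} (card_eq_three.2
    ⟨x, y, z, xy, xz, yz, rfl⟩)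
  simp only [mem_insert, mem_singleton] at hf
  rcases hf with rfl | rfl | rfl
  · refine Or.inl ⟨yz, P, hP, k1, ?_⟩
    rwa [erase_insert (by simp [xy, xz])] at k2
  · refine Or.inr (Or.inl ⟨xz, P, hP, k1, ?_⟩)
    rwa [insert_comm, erase_insert (by simp [xy.symm, yz])] at k2
  · refine Or.inr (Or.inr ⟨xy, P, hP, k1, ?_⟩)
    rwa [pair_comm y, insert_comm, erase_insert (by simp [xz.symm, yz.symm])] at k2

theorem f1 (h : C0 2 H) : Hom H univ 2 ∨ Fintype.card α = 5 := by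
  classical
  rw [or_iff_not_imp_left]
  intro hn
  obtain ⟨a, b, a', b', ab, ab', ne⟩ : ∃ a b a' b' : α, a ≠ b ∧ a' ≠ b' ∧
      sorb H {a, b} ≠ sorb H {a', b'} := by
    by_contra k
    push Not at k
    refine hn fun S _ S' _ c c' => ?_
    obtain ⟨a, b, ab, rfl⟩ := card_eq_two.1 c
    obtain ⟨a', b', ab', rfl⟩ := card_eq_two.1 c'
    exact f1_sorb.1 (k a b a' b' ab ab')
  have : ∀ c : Finset (Finset α), ∃ c', ∀ f x y, f1_Ap H f x y → sorb H {x, y} = c → c' = sorb H {f, x} := by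
    intro c
    by_cases k : ∃ f x y, f1_Ap H f x y ∧ sorb H {x, y} = c
    · obtain ⟨f, x, y, k1, k2⟩ := k
      exact ⟨_, fun f' x' y' k1' k2' => f1_wd h k1 k1' (k2.trans k2'.symm)⟩
    · exact ⟨c, fun f x y k1 k2 => (k ⟨f, x, y, k1, k2⟩).elim⟩
  choose d hd using this
  have h1 : Tr H univ 1 := gleason0 (p := 2) le_rfl (Fintype.one_lt_card_iff.2 ⟨a, b, ab⟩) fun S hS => by
    obtain ⟨P, hP, e⟩ := h.ex_Fix hS
    exact ⟨P, hP.le, hP.isP, e⟩
  have key := f1_comb (fun x y => sorb H {x, y}) d (fun x y => by rw [pair_comm])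
    (fun x y z xy xz yz => (f1_tri h xy xz yz).imp (fun k => ⟨f1_leg h k, hd _ _ _ _ k rfl⟩)
      (Or.imp (fun k => ⟨f1_leg h k, hd _ _ _ _ k rfl⟩) fun k => ⟨f1_leg h k, hd _ _ _ _ k rfl⟩))
    (fun x y xy => by
      obtain ⟨P, hP, e⟩ := h.ex_Fix (card_singleton x)
      have k1 : x ∈ Fix P := e ▸ mem_singleton_self x
      have k2 : y ∉ Fix P := e ▸ notMem_singleton.2 xy.symm
      rw [mem_Fix] at k1 k2
      push Not at k2
      obtain ⟨g, hg, k3⟩ := k2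
      refine ⟨g y, fun k => xy (g.injective ((k1 g hg).trans k.symm)), k3, ?_⟩
      show sorb H {x, g y} = sorb H {x, y}
      rw [f1_img (hP.le hg) x y, k1 g hg])
    (fun x u w uw => by
      obtain ⟨g, hg, e⟩ := h1 {u} (subset_univ _) (card_singleton u).le (swap u x) fun _ _ => mem_univ _
      have e1 := e u (mem_singleton_self u)
      rw [swap_apply_left] at e1
      refine ⟨g w, fun k => uw (g.injective (e1.trans k)), ?_⟩
      show sorb H {x, g w} = sorb H {u, w}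
      rw [f1_img hg u w, e1])
    (fun x y xy => by
      obtain ⟨P, hP, hS⟩ := h.conc {x, y}
      obtain ⟨f, e⟩ := card_eq_one.1 (h.hf P hP)
      have k1 : f ∈ Fix P := e ▸ mem_singleton_self f
      exact ⟨f, x, fun k => f1_mv h hP xy hS (k ▸ k1), hd _ _ _ _ ⟨xy, P, hP, k1, hS⟩ rfl⟩) ab ab' ne
  have := h.dvd
  omega

end H68.PC
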