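import Cfsg.Agent.Lib.PCon.R0
import Cfsg.Agent.Lib.PCon.Ar
import Cfsg.Agent.Lib.PCon.Rel2

/-! The prime two: degree five. -/

set_option autoImplicit false

namespace H68.PC

open Equiv H69 Finset MulAction

variable {α : Type*} [Fintype α] [DecidableEq α] {p : ℕ} [Fact p.Prime] {H : Subgroup (Perm α)}

theorem f2_supp {g : Perm α} (hg : orderOf g = p) : ∃ n, g.support.card = (n + 1) * p := by
  obtain ⟨n, hn⟩ := Perm.cycleType_prime_order (σ := g) (hg ▸ Fact.out)
  exact ⟨n, by rw [← Perm.sum_cycleType, hn, Multiset.sum_replicate, hg, smul_eq_mul]⟩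

theorem f2_pos (h : C0 p H) (hn : p - 1 < Fintype.card α) : 0 < v p H := by
  obtain ⟨P, hP⟩ := exists_isSylowIn p H
  refine Nat.pos_of_ne_zero fun e => ?_
  have h1 := card_pgroup hP.isP
  rw [v_syl hP, e, pow_zero, Subgroup.card_eq_one] at h1
  have h2 := h.hf P hP
  rw [eq_univ_of_forall fun x => (mem_Fix (P := P)).2 fun g hg => by
    rw [h1, Subgroup.mem_bot] at hg; rw [hg]; rfl, card_univ] at h2
  omega

theorem f2 (hn : Fintype.card α = 5) (hprim : IsPreprimitive H α) (h : C0 2 H)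
    (hng : ¬ alternatingGroup α ≤ H) : Nat.card H = 10 := by
  have : Fact (Nat.Prime 3) := ⟨Nat.prime_three⟩
  have h0 : Nat.card H ≠ 0 := Nat.card_pos.ne'
  have h120 : Nat.card H ∣ 120 := by
    have := Subgroup.card_subgroup_dvd_card H
    rwa [Nat.card_perm, Nat.card_eq_fintype_card (α := α), hn] at this
  have h3 : ¬ 3 ∣ Nat.card H := fun k => by
    obtain ⟨g, hg, ho⟩ := ex_ord_of_v (p := 3) (L := H) (Nat.prime_three.factorization_pos_of_dvd h0 k)
    obtain ⟨n, e⟩ := f2_supp ho
    have := card_le_univ g.support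
    exact hng (giant_of_pcyc (p := 3) hprim hg (ho ▸ pow_orderOf_eq_one g) (by omega) (.inl le_rfl))
  have h5 : 5 ∣ Nat.card H := by
    obtain ⟨x⟩ : Nonempty α := Fintype.card_pos_iff.1 (by omega)
    have := hprim.toIsPretransitive
    have e := index_stabilizer_of_transitive H x
    rw [Nat.card_eq_fintype_card, hn] at e
    exact e ▸ Subgroup.index_dvd_card _
  have h2 : 2 ∣ Nat.card H := Nat.dvd_of_factorization_pos (f2_pos h (by omega)).ne'
  have h4 : ¬ 2 ^ 2 ∣ Nat.card H := fun k => by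
    have k1 : 2 ≤ v 2 H := (Nat.prime_two.pow_dvd_iff_le_factorization h0).1 k
    obtain ⟨S, -, hS⟩ := exists_subset_card_eq (s := (univ : Finset α)) (n := 2) (by rw [card_univ]; omega)
    have k2 := ord1 (p := 2) (L := H ⊓ st S) (S := S) inf_le_right
    rw [v_st h.conc, hS, w_vals.1] at k2
    obtain ⟨g, hg, ho⟩ := ex_ord_of_v (p := 2) (L := H ⊓ st S ⊓ fx S) (by omega)
    obtain ⟨n, e⟩ := f2_supp ho
    have : g.support ⊆ Sᶜ := fun x hx => mem_compl.2 fun m => Perm.mem_support.1 hx (hg.2 x m)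
    have := card_le_card this
    rw [card_compl, hn, hS] at this
    exact hng (giant_of_pcyc (p := 2) hprim hg.1.1 (ho ▸ pow_orderOf_eq_one g) (by omega) (.inl (by omega)))
  have := Nat.le_of_dvd (by omega) h120
  generalize Nat.card H = N at *
  obtain ⟨k, rfl⟩ := h5
  have : k ≤ 24 := by omega
  interval_cases k <;> omega

end H68.PC
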