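import Cfsg.Agent.Lib.PCon.Rel1
import Cfsg.Agent.Lib.PCon.Up
import Cfsg.Agent.Lib.PCon.Ar
import Cfsg.Agent.Lib.PCon.Br

/-! The prime two: triples. -/

set_option autoImplicit false

namespace H68.PC

open Equiv H69 Finset MulAction

variable {α : Type*} [Fintype α] [DecidableEq α] {p : ℕ} [Fact p.Prime] {H : Subgroup (Perm α)}

theorem f3_nfx (h : C0 2 H) {X : Finset α} (hX : X.card = 2 ∨ X.card = 3) {P : Subgroup (Perm α)}
    (hP : IsSylowIn 2 P H) (hS : P ≤ st X) : ¬ P ≤ fx X := fun hf => by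
  have a := h.inter_Fix hP hS
  rw [inter_eq_left.2 (le_fx_iff.1 hf)] at a
  omega

theorem t3 (h : C0 2 H) {X : Finset α} (hX : X.card = 2 ∨ X.card = 3) : v 2 (H ⊓ fx X) + 1 = v 2 H := by
  obtain ⟨P, hP, hS⟩ := h.conc X
  have a := v_syl (syl_fx hP hS)
  have b := v_syl hP
  have c : v 2 (P ⊓ fx X) < v 2 P :=
    v_lt hP.isP (lt_of_le_of_ne inf_le_left fun e => f3_nfx h hX hP hS (inf_eq_left.1 e))
  have d := ord1 (p := 2) hS
  have e : w 2 X.card = 1 := by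
    rcases hX with e | e <;> rw [e]
    exacts [w_vals.1, w_vals.2.1]
  omega

theorem f3_odd {Γ : Type*} [Group Γ] [Finite Γ] (h2 : 2 ∣ Nat.card Γ) (h1 : (Nat.card Γ).factorization 2 ≤ 1) :
    ∃ O : Subgroup Γ, O.index = 2 ∧ ¬ 2 ∣ Nat.card O := by
  obtain ⟨P⟩ : Nonempty (Sylow 2 Γ) := inferInstance
  have h0 : Nat.card Γ ≠ 0 := Nat.card_pos.ne'
  have hf : (Nat.card Γ).factorization 2 = 1 :=
    le_antisymm h1 (Nat.Prime.factorization_pos_of_dvd Nat.prime_two h0 h2)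
  have hc : Nat.card P = 2 := by rw [P.card_eq_multiplicity, hf, pow_one]
  have hm : (Nat.card Γ).minFac = 2 := (Nat.minFac_eq_two_iff _).2 h2
  have hcy : IsCyclic P := isCyclic_of_prime_card hc
  have hcomp := IsCyclic.isComplement' hm hcy
  refine ⟨_, hcomp.symm.index_eq_card.trans hc, fun hd => ?_⟩
  have := hcomp.index_eq_card
  exact P.not_dvd_index (this ▸ hd)

theorem f3_core {β : Type*} [Fintype β] [DecidableEq β] {G : Subgroup (Perm β)} (hn : 5 ≤ Fintype.card β)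
    (h3 : Hom G univ 3) (h1 : v 2 G ≤ 1)
    (ht : ∀ Z : Finset β, Z.card = 3 → ∃ t ∈ G, t ∈ st Z ∧ t ≠ 1 ∧ ∃ k, t ^ 2 ^ k = 1) : False := by
  obtain ⟨Z0, -, hZ0⟩ := exists_subset_card_eq (s := (univ : Finset β)) (n := 3) (by rw [card_univ]; omega)
  have dv : ∀ {L : Subgroup (Perm β)} {t : Perm β}, t ∈ L → t ≠ 1 → (∃ k, t ^ 2 ^ k = 1) → 2 ∣ Nat.card L := by
    rintro L t hL h1 ⟨k, hk⟩
    obtain ⟨j, -, hj⟩ := (Nat.dvd_prime_pow Nat.prime_two).1 (orderOf_dvd_of_pow_eq_one hk)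
    refine Dvd.dvd.trans ?_ (L.orderOf_dvd_natCard hL)
    rcases j with _ | j
    · exact absurd (orderOf_eq_one_iff.1 hj) h1
    · rw [hj]; exact dvd_pow_self 2 (Nat.succ_ne_zero j)
  obtain ⟨t0, ht0, -, h0, k0⟩ := ht Z0 hZ0
  obtain ⟨O0, hi, ho⟩ := f3_odd (dv ht0 h0 k0) h1
  have hc : Nat.card (O0.map G.subtype) = Nat.card O0 := Subgroup.card_map_of_injective G.subtype_injective
  have hO : Hom (O0.map G.subtype) univ 3 := fun S hS S' hS' c c' => by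
    obtain ⟨g, hg, e⟩ := h3 S hS S' hS' c c'
    by_cases a : (⟨g, hg⟩ : G) ∈ O0
    · exact ⟨g, ⟨_, a, rfl⟩, e⟩
    obtain ⟨t, hG, hs, n1, k⟩ := ht S' c'
    have b : (⟨t, hG⟩ : G) ∉ O0 := fun b => ho (hc ▸ dv ⟨_, b, rfl⟩ n1 k)
    refine ⟨t * g, ⟨⟨t, hG⟩ * ⟨g, hg⟩, (Subgroup.mul_mem_iff_of_index_two hi).2 (iff_of_false b a), rfl⟩, ?_⟩
    rw [Perm.coe_mul, ← image_image, e, mem_st_iff_image.1 hs]
  rcases hn.eq_or_lt with e | e
  · have a := card_sorb (O0.map G.subtype) Z0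
    rw [card_sorb_hom (hZ0 ▸ hO), ← e, hZ0, hc] at a
    exact ho (a ▸ Dvd.dvd.mul_right (by decide) _)
  · exact ho (hc ▸ lw3 e hO)

theorem f3 (h : C0 2 H) (h3 : Hom H univ 3) : G1 H := by
  intro X hX T hT
  by_contra ne
  have hXT : X ⊆ Fix T := le_fx_iff.1 (hT.le.trans inf_le_right)
  have hTH : T ≤ H := hT.le.trans inf_le_left
  have c1 := card_lt_card (hXT.ssubset_of_ne (Ne.symm ne))
  have c2 := h.fix_mod hT.isP
  have vT : v 2 T + 1 = v 2 H := by rw [v_syl hT]; exact t3 h (Or.inr hX)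
  have sy : ∀ X' ⊆ Fix T, X'.card = 3 → IsSylowIn 2 T (H ⊓ fx X') := fun X' hs c =>
    syl_of_v hT.isP (le_inf hTH (le_fx_iff.2 hs)) (by have := t3 h (Or.inr c); omega)
  have hN : H ⊓ 𝐍(T) ≤ st (Fix T) := inf_le_right.trans (norm_le_st_Fix T)
  have hom : Hom (H ⊓ 𝐍(T)) (Fix T) 3 := fun S hS S' hS' c c' => by
    obtain ⟨g, hg, e⟩ := h3 S (subset_univ _) S' (subset_univ _) c c'
    obtain ⟨g', hg', a⟩ := witt hg hS (e ▸ sy S' hS' c')
    exact ⟨g', hg', (image_congr fun x hx => a x hx).trans e⟩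
  refine f3_core (G := res (Fix T) (H ⊓ 𝐍(T))) (by rw [Fintype.card_coe]; omega) ((hom_res hN).1 hom) ?_ ?_
  · have a := v_res (p := 2) hN
    have b := v_mono (p := 2) (inf_le_left : H ⊓ 𝐍(T) ≤ H)
    have c := v_mono (p := 2) (le_inf (le_inf hTH Subgroup.le_normalizer) (le_fx_Fix T) :
      T ≤ H ⊓ 𝐍(T) ⊓ fx (Fix T))
    omega
  · intro Z hZ
    have hs : Z.map (Function.Embedding.subtype _) ⊆ Fix T := fun x hx => by
      obtain ⟨y, -, rfl⟩ := mem_map.1 hx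
      exact y.2
    have c : (Z.map (Function.Embedding.subtype _)).card = 3 := by rw [card_map, hZ]
    obtain ⟨P, hP, hTP, hPS⟩ := ex_syl_st h.conc hT.isP hTH ((le_fx_iff.2 hs).trans (fx_le_st _))
    have hPN : P ≤ 𝐍(T) := norm_of_v hP.isP hTP (by rw [v_syl hP, vT])
    obtain ⟨u, hu, nu⟩ := SetLike.not_le_iff_exists.1 (f3_nfx h (Or.inr c) hP hPS)
    obtain ⟨σ, hσ, e⟩ := exists_res hu (norm_le_st_Fix T (hPN hu))
    refine ⟨σ, ⟨u, ⟨hP.le hu, hPN hu⟩, e⟩, mem_st_of fun x hx => ?_, fun e1 => nu fun x hx => ?_, ?_⟩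
    · have := (hPS hu x).2 (mem_map_of_mem _ hx)
      rw [e] at this
      obtain ⟨y, hy, e2⟩ := mem_map.1 this
      exact (Subtype.ext e2 : y = σ x) ▸ hy
    · rw [e ⟨x, hs hx⟩, e1]; rfl
    · exact (res_pgroup _ hP.isP ⟨σ, hσ⟩).imp fun k hk => congrArg Subtype.val hk

theorem max4 (h : C0 2 H) (g : G1 H) {Y : Finset α} (hY : Y.card = 4) : v 2 (H ⊓ fx Y) + 2 ≤ v 2 H := by
  obtain ⟨X, hs, hX⟩ := exists_subset_card_eq (s := Y) (n := 3) (by omega)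
  obtain ⟨T', hT'⟩ := exists_isSylowIn 2 (H ⊓ fx Y)
  obtain ⟨T, hT, le⟩ := exists_isSylowIn_le hT'.isP (hT'.le.trans (inf_le_inf_left H (fx_anti hs)))
  have ne : T' ≠ T := fun e => by
    have a := card_le_card (le_fx_iff.1 (hT'.le.trans inf_le_right))
    rw [e, g X hX T hT] at a
    omega
  have a := v_lt hT.isP (lt_of_le_of_ne le ne)
  have b := v_syl hT
  have c := v_syl hT'
  have d := t3 h (Or.inr hX)
  omega

end H68.PC
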