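import Cfsg.Agent.Lib.PCon.R0
import Cfsg.Agent.Lib.PCon.Ar

/-! The prime two: no two invariant halves. -/

set_option autoImplicit false

namespace H68.PC

open Equiv H69 Finset MulAction

variable {α : Type*} [Fintype α] [DecidableEq α] {p : ℕ} [Fact p.Prime] {H : Subgroup (Perm α)}

theorem f5_step (h : C0 2 H) {s : ℕ} (hs : 1 ≤ s) {P T : Subgroup (Perm α)} (hP : IsSylowIn 2 P H)
    {O1 O2 Y : Finset α} (hd : Disjoint O1 O2) (hY : Y = O1 ∪ O2) (h1 : O1.card = 2 ^ s)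
    (cY : Y.card = 2 ^ (s + 1)) (hPY : P ≤ st Y) (hT : T = P ⊓ fx Y)
    (hv : v 2 T + w 2 (2 ^ (s + 1)) = v 2 H + 1)
    (key : ∀ M : Subgroup (Perm α), IsPGroup 2 M → T ≤ M → M ≤ H → ∀ Y' : Finset α,
      Y'.card = 2 ^ (s + 1) → M ≤ fx Y' → M = T)
    (full : Full 2 (P ⊓ fx O2) O1) {f : α} (hf : f ∈ Fix P) (fY : f ∉ Y) {u : α} (hu : u ∈ O2) :
    ∃ x ∈ H, ∀ y ∈ insert f Y, x y = swap u f y := by
  have c2 : 2 ≤ O1.card := by
    rw [h1]; exact Nat.le_self_pow (by omega) 2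
  obtain ⟨a₁, ha₁, b₁, hb₁, hab, a, ha, ea⟩ := full.pcyc c2
  have uY : u ∈ Y := hY ▸ mem_union_right _ hu
  have aY : a₁ ∈ Y := hY ▸ mem_union_left _ ha₁
  have bY : b₁ ∈ Y := hY ▸ mem_union_left _ hb₁
  have TP : T ≤ P := hT ▸ inf_le_left
  have TY : T ≤ fx Y := hT ▸ inf_le_right
  set B := T ⊔ Subgroup.zpowers a with hB
  have BP : B ≤ P := sup_le TP (Subgroup.zpowers_le.2 ha.1)
  have B2 : IsPGroup 2 B := hP.isP.to_le BP
  have aB : a ∈ B := Subgroup.mem_sup_right (Subgroup.mem_zpowers a)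
  have aT : a ∉ T := fun e => hab (by
    have := TY e a₁ aY
    rw [ea a₁ ha₁, swap_apply_left] at this
    exact this.symm)
  have fxB : ∀ y ∈ Y, y ≠ a₁ → y ≠ b₁ → y ∈ Fix B := fun y hy n1 n2 => by
    rw [← singleton_subset_iff, ← le_fx_iff]
    refine sup_le (TY.trans (fx_anti (singleton_subset_iff.2 hy))) (Subgroup.zpowers_le.2 ?_)
    intro y' hy'
    rw [mem_singleton.1 hy']
    rcases mem_union.1 (hY ▸ hy) with e | e
    · rw [ea y e, swap_apply_of_ne_of_ne n1 n2]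
    · exact ha.2 y e
  have fixB : ∀ y ∈ Fix B, y ∉ Y → y = f := by
    intro y hy yY
    by_contra yf
    have cd : (insert y (insert f ((Y.erase a₁).erase b₁))).card = 2 ^ (s + 1) := by
      rw [card_insert_of_notMem (by simp [yf, yY]), card_insert_of_notMem (by simp [fY]),
        card_erase_of_mem (mem_erase.2 ⟨hab.symm, bY⟩), card_erase_of_mem aY, cY]
      have : 2 ≤ 2 ^ (s + 1) := Nat.le_self_pow (by omega) 2
      omega
    refine aT (key B B2 le_sup_left (BP.trans hP.le) _ cd (le_fx_iff.2 fun y' hy' => ?_) ▸ aB)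
    rcases mem_insert.1 hy' with rfl | hy'
    · exact hy
    rcases mem_insert.1 hy' with rfl | hy'
    · exact Fix_anti BP hf
    · exact fxB y' (mem_of_mem_erase (mem_of_mem_erase hy')) (ne_of_mem_erase (mem_of_mem_erase hy'))
        (ne_of_mem_erase hy')
  have uB : u ∈ Fix B := fxB u uY (fun e => disjoint_left.1 hd ha₁ (e ▸ hu))
    (fun e => disjoint_left.1 hd hb₁ (e ▸ hu))
  have BZ : B ≤ st (Y.erase u) := fun b hb => mem_st_of fun y hy => by
    refine mem_erase.2 ⟨fun e => ne_of_mem_erase hy (b.injective ?_), ?_⟩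
    · rw [e, mem_Fix.1 uB b hb]
    · exact (hPY (BP hb) y).2 (mem_of_mem_erase hy)
  obtain ⟨P', hP', BP', PZ⟩ := ex_syl_st h.conc B2 (BP.trans hP.le) BZ
  set R := P' ⊓ fx (Y.erase u) with hR
  have R2 : IsPGroup 2 R := hP'.isP.to_inf_left
  have TR : T ≤ R := le_inf (le_sup_left.trans BP') (TY.trans (fx_anti (erase_subset u Y)))
  have lt : T < R := by
    refine lt_of_le_of_ne TR fun e => ?_
    have o1 := ord1 (p := 2) PZ
    rw [← hR, ← e, v_syl hP', card_erase_of_mem uY, cY] at o1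
    have := w_two_pred (s + 1)
    omega
  have n1 : B ≤ 𝐍(T) := by
    rw [hT]
    exact (le_inf (BP.trans Subgroup.le_normalizer) ((BP.trans hPY).trans (st_le_norm_fx Y))).trans
      Subgroup.inf_normalizer_le_normalizer_inf
  have n2 : B ≤ 𝐍(R) :=
    (le_inf (BP'.trans Subgroup.le_normalizer) (BZ.trans (st_le_norm_fx _))).trans
      Subgroup.inf_normalizer_le_normalizer_inf
  obtain ⟨x, xR, xN, xT, x2, xc⟩ := ex_step R2 B2 lt n1 n2
  have xZ : ∀ y ∈ Y, y ≠ u → x y = y := fun y hy n => xR.2 y (mem_erase.2 ⟨n, hy⟩)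
  have MR : T ⊔ Subgroup.zpowers x ≤ R := sup_le TR (Subgroup.zpowers_le.2 xR)
  have xu : x u ≠ u := fun e => by
    refine xT (key _ (R2.to_le MR) le_sup_left (MR.trans (inf_le_left.trans hP'.le)) Y cY
      (sup_le TY (Subgroup.zpowers_le.2 fun y hy => ?_)) ▸
        Subgroup.mem_sup_right (Subgroup.mem_zpowers x))
    by_cases n : y = u
    · rw [n, e]
    · exact xZ y hy n
  have xB : x u ∈ Fix B := mem_Fix.2 fun b hb => by
    have f1 : x u ∈ Fix T := (norm_le_st_Fix T xN u).2 (Fix_anti le_sup_left uB)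
    have f2 := mem_Fix.1 f1 _ (xc b hb)
    have f3 : b⁻¹ u = u := mem_Fix.1 uB _ (B.inv_mem hb)
    simpa [Perm.mul_apply, f3] using f2
  have e1 : x u = f := fixB _ xB fun e => xu (x.injective (xZ _ e xu))
  have e2 : x f = u := by
    have := TY x2 u uY
    rwa [pow_two, Perm.mul_apply, e1] at this
  refine ⟨x, hP'.le xR.1, fun y hy => ?_⟩
  rcases mem_insert.1 hy with rfl | hy
  · rw [e2, swap_apply_right]
  by_cases n : y = u
  · rw [n, e1, swap_apply_left]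
  · rw [xZ y hy n, swap_apply_of_ne_of_ne n (ne_of_mem_of_not_mem hy fY)]

theorem f5 (h : C0 2 H) {s : ℕ} (hs : 1 ≤ s)
    (hmax : ∀ Y : Finset α, Y.card = 2 ^ (s + 1) → v 2 (H ⊓ fx Y) + w 2 (2 ^ (s + 1)) ≤ v 2 H + 1)
    {P : Subgroup (Perm α)} (hP : IsSylowIn 2 P H) {O1 O2 : Finset α} (hd : Disjoint O1 O2)
    (h1 : O1.card = 2 ^ s) (h2 : O2.card = 2 ^ s) (hP1 : P ≤ st O1) (hP2 : P ≤ st O2) : False := by
  set Y := O1 ∪ O2 with hY
  have cY : Y.card = 2 ^ (s + 1) := by rw [hY, card_union_of_disjoint hd, h1, h2]; ring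
  have hPY : P ≤ st Y := (le_inf hP1 hP2).trans (st_union O1 O2)
  set T := P ⊓ fx Y with hT
  have e1 : P ⊓ fx O2 ⊓ fx O1 = T := by rw [hT, hY, fx_union, inf_assoc, inf_comm (fx O2)]
  have e2 : P ⊓ fx O1 ⊓ fx O2 = T := by rw [hT, hY, fx_union, inf_assoc]
  have o1 := ord1 (p := 2) hP1
  have o2 := ord1 (p := 2) hP2
  have o3 := ord1 (p := 2) (inf_le_left.trans hP1 : P ⊓ fx O2 ≤ st O1)
  have o4 := ord1 (p := 2) (inf_le_left.trans hP2 : P ⊓ fx O1 ≤ st O2)
  rw [e1, h1] at o3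
  rw [e2, h2] at o4
  rw [h1, v_syl hP] at o1
  rw [h2, v_syl hP] at o2
  have o5 := hmax Y cY
  have o6 : v 2 T ≤ v 2 (H ⊓ fx Y) := v_mono (inf_le_inf_right _ hP.le)
  have o7 := w_two_pow s
  have hv : v 2 T + w 2 (2 ^ (s + 1)) = v 2 H + 1 := by omega
  have key : ∀ M : Subgroup (Perm α), IsPGroup 2 M → T ≤ M → M ≤ H → ∀ Y' : Finset α,
      Y'.card = 2 ^ (s + 1) → M ≤ fx Y' → M = T := fun M M2 TM MH Y' c MY => by
    have a1 := hmax Y' c
    have a2 : v 2 M ≤ v 2 (H ⊓ fx Y') := v_mono (le_inf MH MY)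
    exact (eq_of_v_le M2 TM (by omega)).symm
  have f1 : Full 2 (P ⊓ fx O2) O1 :=
    ⟨hP.isP.to_inf_left, inf_le_left.trans hP1, by rw [e1, h1]; omega⟩
  have f2 : Full 2 (P ⊓ fx O1) O2 :=
    ⟨hP.isP.to_inf_left, inf_le_left.trans hP2, by rw [e2, h2]; omega⟩
  obtain ⟨f, hf⟩ := card_eq_one.1 (h.hf P hP)
  have hf' : f ∈ Fix P := hf ▸ mem_singleton_self f
  have fY : f ∉ Y := fun e => by
    have := h.inter_Fix hP hPY
    rw [cY, pow_succ, Nat.mul_mod_left, card_eq_zero] at this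
    exact notMem_empty f (this ▸ mem_inter.2 ⟨e, hf'⟩)
  have star : ∀ u ∈ insert f Y, u ≠ f → ∃ g ∈ H ⊓ st (insert f Y), ∀ x ∈ insert f Y,
      g x = swap u f x := by
    intro u hu n
    have hu' : u ∈ Y := (mem_insert.1 hu).resolve_left n
    obtain ⟨x, xH, ex⟩ : ∃ x ∈ H, ∀ y ∈ insert f Y, x y = swap u f y := by
      rcases mem_union.1 hu' with e | e
      · exact f5_step h hs hP hd.symm (union_comm O1 O2) h2 cY hPY hT hv key f2 hf' fY e
      · exact f5_step h hs hP hd hY h1 cY hPY hT hv key f1 hf' fY e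
    refine ⟨x, ⟨xH, mem_st_of fun y hy => ?_⟩, ex⟩
    rw [ex y hy, swap_apply_def]
    split_ifs
    exacts [mem_insert_self _ _, hu, hy]
  have r := ord2 (p := 2) inf_le_right (res_top_of_star (mem_insert_self f Y) star)
  rw [card_insert_of_notMem fY, cY] at r
  have r1 : v 2 (H ⊓ st (insert f Y)) ≤ v 2 H := v_mono inf_le_left
  have TW : T ≤ fx (insert f Y) := le_fx_iff.2 (insert_subset (Fix_anti inf_le_left hf')
    (le_fx_iff.1 inf_le_right))
  have r2 : v 2 T ≤ v 2 (H ⊓ st (insert f Y) ⊓ fx (insert f Y)) :=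
    v_mono (le_inf (le_inf (inf_le_left.trans hP.le) (TW.trans (fx_le_st _))) TW)
  have r3 : w 2 (2 ^ (s + 1)) ≤ w 2 (2 ^ (s + 1) + 1) := w_mono (by omega)
  omega

end H68.PC
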