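import Cfsg.Agent.Lib.PCon.Col

/-! The majority class is constant for the prime two. -/

set_option autoImplicit false

namespace H68.PC

open Equiv H69 Finset MulAction

variable {α : Type*} [Fintype α] [DecidableEq α] {p : ℕ} [Fact p.Prime] {H : Subgroup (Perm α)}

theorem maj2 (h : C0 2 H) {k : ℕ} (hk : 4 ≤ k) (he : 2 ∣ k)
    (hex : ∀ V : Finset α, V.card = k + 1 → ∃ X, Maj H V X) (W : Finset α) (hW : W.card = k + 2) :
    ∀ u ∈ W, ∀ u' ∈ W, ∀ X, Maj H (W.erase u) X → Maj H (W.erase u') X := by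
  classical
  intro u hu u' hu' X hX
  by_contra hX'
  have hc : ∀ a ∈ W, (W.erase a).card = k + 1 := fun a ha => by rw [card_erase_of_mem ha, hW]; rfl
  have hch : ∀ a : α, ∃ (γ : α) (Y : Finset α), a ∈ W → Maj H (W.erase a) Y ∧
      ∀ x ∈ W.erase a, x ≠ γ → Eqv H ((W.erase a).erase x) Y := fun a => by
    by_cases ha : a ∈ W
    · obtain ⟨Y, γ, h1, h2⟩ := hex _ (hc a ha)
      exact ⟨γ, Y, fun _ => ⟨⟨γ, h1, h2⟩, h2⟩⟩
    · exact ⟨a, ∅, fun h => absurd h ha⟩
  choose γ Y hY using hch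
  set A := W.filter fun a => Maj H (W.erase a) X with hA
  set B := W.filter fun a => ¬ Maj H (W.erase a) X with hB
  have hAB : A.card + B.card = k + 2 := by rw [hA, hB, card_filter_add_card_filter_not, hW]
  obtain ⟨P, hP, hPW⟩ := h.conc W
  have hPA : P ≤ st A := fun g hg => mem_st_of fun x hx => by
    rw [hA, mem_filter] at hx ⊢
    exact ⟨(hPW hg x).2 hx.1, hx.2.eqv (eqv_erase (hP.le hg) (hPW hg) x)⟩
  have e1 := h.inter_Fix hP hPW
  have e2 := h.inter_Fix hP hPA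
  have e3 : (A ∩ Fix P).card ≤ (W ∩ Fix P).card :=
    card_le_card (inter_subset_inter_right (filter_subset _ _))
  have a1 : 0 < A.card := card_pos.2 ⟨u, mem_filter.2 ⟨hu, hX⟩⟩
  have b1 : 0 < B.card := card_pos.2 ⟨u', mem_filter.2 ⟨hu', hX'⟩⟩
  have hsub : A ×ˢ B ⊆ A.image (fun a => (a, γ a)) ∪ B.image fun b => (γ b, b) := by
    rintro ⟨a, b⟩ hab
    obtain ⟨ha, hb⟩ := mem_product.1 hab
    obtain ⟨ha1, ha2⟩ := mem_filter.1 ha
    obtain ⟨hb1, hb2⟩ := mem_filter.1 hb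
    have hne : a ≠ b := fun e => hb2 (e ▸ ha2)
    by_cases h1 : b = γ a
    · exact mem_union_left _ (mem_image.2 ⟨a, ha, by rw [h1]⟩)
    by_cases h2 : a = γ b
    · exact mem_union_right _ (mem_image.2 ⟨b, hb, by rw [← h2]⟩)
    exfalso
    have f1 := (hY a ha1).2 b (mem_erase.2 ⟨hne.symm, hb1⟩) h1
    have f2 := (hY b hb1).2 a (mem_erase.2 ⟨hne, ha1⟩) h2
    rw [erase_right_comm] at f2
    have f3 := Maj.uniq (by rw [hc a ha1]; omega) (hY a ha1).1 ha2
    exact hb2 ((hY b hb1).1.congr (f2.symm.trans (f1.trans f3)))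
  have hle : A.card * B.card ≤ A.card + B.card := by
    rw [← card_product]
    exact (card_le_card hsub).trans ((card_union_le _ _).trans (Nat.add_le_add card_image_le card_image_le))
  obtain ⟨a, ha⟩ : ∃ a, A.card = a + 2 := ⟨A.card - 2, by omega⟩
  obtain ⟨b, hb⟩ : ∃ b, B.card = b + 2 := ⟨B.card - 2, by omega⟩
  rw [ha, hb] at hle hAB
  nlinarith [Nat.zero_le (a * b)]

end H68.PC
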