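import Cfsg.Agent.Lib.PCon.Rel1
import Cfsg.Agent.Lib.PCon.Ar

/-! The normaliser of a Sylow subgroup of a pointwise stabiliser. -/

set_option autoImplicit false

namespace H68.PC

open Equiv H69 Finset MulAction

variable {α : Type*} [Fintype α] [DecidableEq α] {p : ℕ} [Fact p.Prime] {H : Subgroup (Perm α)}

theorem trK {k : ℕ} (hk : 2 ≤ k) (ht : Tr H univ (k - 1)) {Y : Finset α} (hY : Y.card = k)
    (hmax : ∀ Y' : Finset α, Y'.card = k → v p (H ⊓ fx Y') ≤ v p (H ⊓ fx Y)) {T : Subgroup (Perm α)}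
    (hT : IsSylowIn p T (H ⊓ fx Y)) : Tr (H ⊓ 𝐍(T)) (Fix T) (k - 1) := by
  have hTH : T ≤ H := hT.le.trans inf_le_left
  have hc : k ≤ (Fix T).card := hY ▸ card_le_card (le_fx_iff.1 (hT.le.trans inf_le_right))
  obtain ⟨Z, -, hZ⟩ := exists_subset_card_eq (s := Y) (n := k - 1) (by omega)
  have h0 : ∀ S : Finset α, S.card = k - 1 → v p (H ⊓ fx S) = v p (H ⊓ fx Z) := fun S hS =>
    v_fx_eqv (ht.hom le_rfl S (subset_univ _) Z (subset_univ _) hS hZ)
  by_cases h1 : v p (H ⊓ fx Z) ≤ v p T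
  · refine tr_exact (by omega) fun S hS hSc σ hσ => ?_
    obtain ⟨g, hg, e⟩ := ht S (subset_univ _) hSc.le σ fun _ _ => mem_univ _
    obtain ⟨g', hg', e'⟩ := witt (p := p) hg hS (syl_of_v hT.isP (le_inf hTH (le_fx_iff.2 fun y hy => by
      obtain ⟨x, hx, rfl⟩ := mem_image.1 hy
      exact e x hx ▸ hσ x hx)) (by rwa [h0 _ ((card_image_of_injective _ g.injective).trans hSc)]))
    exact ⟨g', hg', fun x hx => (e' x hx).trans (e x hx)⟩
  refine gleason (p := p) (inf_le_right.trans (norm_le_st_Fix T)) (by omega) (by omega) fun S hS hSc => ?_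
  obtain ⟨R, hR, hTR⟩ := exists_isSylowIn_le hT.isP (le_inf hTH (le_fx_iff.2 hS))
  obtain ⟨x, hx, hxN, hxT, -⟩ := ex_step hR.isP (IsPGroup.of_bot (p := p)) (lt_of_le_of_ne hTR fun e =>
    h1 (by rw [e, v_syl hR, h0 S hSc])) bot_le bot_le
  have hM : IsPGroup p ↥(R ⊓ 𝐍(T)) := hR.isP.to_inf_left
  have hlt : T < R ⊓ 𝐍(T) := lt_of_le_of_ne (le_inf hTR Subgroup.le_normalizer) fun e =>
    hxT (e ▸ Subgroup.mem_inf.2 ⟨hx, hxN⟩)
  have hMH : R ⊓ 𝐍(T) ≤ H := inf_le_left.trans (hR.le.trans inf_le_left)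
  have hMS : S ⊆ Fix (R ⊓ 𝐍(T)) := le_fx_iff.1 (inf_le_left.trans (hR.le.trans inf_le_right))
  refine ⟨_, le_inf hMH inf_le_right, hM, Subset.antisymm (fun y hy => ?_) (subset_inter hMS hS)⟩
  by_contra hyS
  have h2 := hmax (insert y S) (by rw [card_insert_of_notMem hyS]; omega)
  have h3 := v_mono (p := p) (le_inf hMH (le_fx_iff.2 (insert_subset (mem_inter.1 hy).1 hMS)))
  have h4 := v_lt hM hlt
  have h5 := v_syl hT
  omega

theorem stepA {k : ℕ} (hk : 5 ≤ k) (ht : Tr H univ (k - 1)) {Y : Finset α} (hY : Y.card = k) :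
    v p (H ⊓ fx Y) + w p k ≤ v p H + if p = 2 then 1 else 0 := by
  obtain ⟨Y0, h0, hm⟩ := exists_max_image (powersetCard k (univ : Finset α)) (fun S => v p (H ⊓ fx S))
    ⟨Y, mem_powersetCard_univ.2 hY⟩
  have h1 := mem_powersetCard_univ.1 h0
  obtain ⟨T, hT⟩ := exists_isSylowIn p (H ⊓ fx Y0)
  have hc : k ≤ (Fix T).card := h1 ▸ card_le_card (le_fx_iff.1 (hT.le.trans inf_le_right))
  obtain ⟨Δ, hΔ, hΔc, ha⟩ := alt (inf_le_right.trans (norm_le_st_Fix T)) (by omega) (by omega)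
    (trK (by omega) ht h1 (fun S hS => hm S (mem_powersetCard_univ.2 hS)) hT)
  have h2 := ord3 (p := p) inf_le_right ha
  have h3 := v_mono (p := p) (le_inf (le_inf (le_inf (hT.le.trans inf_le_left) Subgroup.le_normalizer)
    ((le_fx_iff.2 hΔ).trans (fx_le_st Δ))) (le_fx_iff.2 hΔ))
  have h4 := v_mono (p := p) (show H ⊓ 𝐍(T) ⊓ st Δ ≤ H from inf_le_left.trans inf_le_left)
  have h5 := v_syl hT
  have h6 : v p (H ⊓ fx Y) ≤ v p (H ⊓ fx Y0) := hm Y (mem_powersetCard_univ.2 hY)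
  rw [hΔc, show k - 1 + 1 = k by omega] at h2
  omega

theorem tS (hp : p ≠ 2) (hc : Conc p H) {k : ℕ} (hk : 5 ≤ k) (hpk : p ∣ k) (ht : Tr H univ (k - 1))
    {S : Finset α} (h1 : k ≤ S.card) (h2 : S.card < k + p) : v p (H ⊓ fx S) + w p k = v p H := by
  obtain ⟨Y, hY, hYc⟩ := exists_subset_card_eq h1
  have h3 := stepA (p := p) hk ht hYc
  have h4 := v_mono (p := p) (inf_le_inf_left H (fx_anti hY))
  have h5 := ord1 (p := p) (show H ⊓ st S ≤ st S from inf_le_right)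
  have h6 := v_mono (p := p) (inf_le_inf_right (fx S) (show H ⊓ st S ≤ H from inf_le_left))
  rw [v_st hc, show S.card = k + (S.card - k) by omega, w_add hpk (by omega)] at h5
  rw [if_neg hp] at h3
  omega

end H68.PC
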