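import Cfsg.Agent.Lib.PCon.F1
import Cfsg.Agent.Lib.PCon.F3
import Cfsg.Agent.Lib.PCon.F5
import Cfsg.Agent.Lib.PCon.F6
import Cfsg.Agent.Lib.PCon.MK
import Cfsg.Agent.Lib.PCon.Br

/-! The prime two: the induction. -/

set_option autoImplicit false

namespace H68.PC

open Equiv H69 Finset MulAction

variable {α : Type*} [Fintype α] [DecidableEq α] {p : ℕ} [Fact p.Prime] {H : Subgroup (Perm α)}

theorem short_step (h : C0 2 H) {s : ℕ} (hs : 1 ≤ s) (hn : 2 ^ s ≤ Fintype.card α)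
    (hmax : ∀ Y : Finset α, Y.card = 2 ^ (s + 1) → v 2 (H ⊓ fx Y) + w 2 (2 ^ (s + 1)) ≤ v 2 H + 1)
    (hsh : ∀ P, IsSylowIn 2 P H → (short P (2 ^ s)).card = 2 ^ s - 1) :
    ∀ P, IsSylowIn 2 P H → (short P (2 ^ (s + 1))).card = 2 ^ (s + 1) - 1 := by
  intro P hP
  have hpos : 0 < 2 ^ s := by positivity
  obtain ⟨Y, -, hY⟩ := exists_subset_card_eq (s := (univ : Finset α)) (n := 2 ^ s) (by simpa using hn)
  obtain ⟨P0, hP0, hP0Y⟩ := h.conc Y
  obtain ⟨y, hy⟩ : Y.Nonempty := card_pos.1 (by omega)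
  have h1 := one_of_short hsh P0 hP0 Y hY hP0Y y hy
  obtain ⟨g, -, hg⟩ := hP0.conj hP
  have hO : (orb P (g y)).card = 2 ^ s := by
    rw [← hg, orb_cj, card_image_of_injective _ g.injective, h1, hY]
  have hE : short P (2 ^ (s + 1)) = short P (2 ^ s) ∪ orb P (g y) := by
    ext x
    rw [mem_union, mem_short, mem_short]
    constructor
    · intro hx
      by_cases hx2 : (orb P x).card < 2 ^ s
      · exact Or.inl hx2
      · right
        obtain ⟨a, ha⟩ := orb_card hP.isP x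
        have ha1 : a < s + 1 := (Nat.pow_lt_pow_iff_right (by norm_num)).1 (ha ▸ hx)
        have ha2 : s ≤ a := (Nat.pow_le_pow_iff_right (by norm_num : 1 < 2)).1 (ha ▸ not_lt.1 hx2)
        have ha3 : (orb P x).card = 2 ^ s := by rw [ha, show a = s by omega]
        by_contra hx3
        refine f5 h hs hmax hP (O1 := orb P x) (O2 := orb P (g y)) ?_ ha3 hO (le_st_orb _ _) (le_st_orb _ _)
        rw [disjoint_left]
        intro z hz hz'
        apply hx3
        rw [← orb_eq hz', orb_eq hz]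
        exact self_mem_orb _ _
    · rintro (hx | hx)
      · rw [pow_succ]; omega
      · rw [orb_eq hx, hO, pow_succ]; omega
  rw [hE, card_union_of_disjoint, hsh P hP, hO, pow_succ]
  · omega
  · rw [disjoint_left]
    intro z hz hz'
    rw [mem_short, orb_eq hz', hO] at hz
    exact lt_irrefl _ hz

theorem f7_step (h : C0 2 H) (hg : G1 H) {s : ℕ} (hs : 1 ≤ s) (hn : 2 ^ (s + 1) ≤ Fintype.card α)
    (ht : Tr H univ (2 ^ (s + 1) - 1)) (hd : 2 ^ (s + 1) ∣ Fintype.card α + 1)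
    (hsh : ∀ P, IsSylowIn 2 P H → (short P (2 ^ s)).card = 2 ^ s - 1) :
    alternatingGroup α ≤ H ∨ (2 ^ (s + 1 + 1) ≤ Fintype.card α ∧ Tr H univ (2 ^ (s + 1 + 1) - 1) ∧
      2 ^ (s + 1 + 1) ∣ Fintype.card α + 1 ∧
      ∀ P, IsSylowIn 2 P H → (short P (2 ^ (s + 1))).card = 2 ^ (s + 1) - 1) := by
  have h4 : 4 ≤ 2 ^ (s + 1) := by
    calc 4 = 2 ^ 2 := by norm_num
      _ ≤ 2 ^ (s + 1) := Nat.pow_le_pow_right (by norm_num) (by omega)
  have h48 : 2 ^ (s + 1) = 4 ∨ 8 ≤ 2 ^ (s + 1) := by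
    rcases Nat.eq_or_lt_of_le hs with h1 | h1
    · left; rw [← h1]; norm_num
    · right
      calc 8 = 2 ^ 3 := by norm_num
        _ ≤ 2 ^ (s + 1) := Nat.pow_le_pow_right (by norm_num) (by omega)
  have hmax : ∀ Y : Finset α, Y.card = 2 ^ (s + 1) →
      v 2 (H ⊓ fx Y) + w 2 (2 ^ (s + 1)) ≤ v 2 H + 1 := by
    intro Y hY
    rcases h48 with h1 | h1
    · rw [h1] at hY ⊢
      have := max4 h hg hY
      rw [w_vals.2.2.1]
      omega
    · simpa using stepA (p := 2) (by omega) ht hY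
  have hsh' := short_step h hs (le_trans (by rw [pow_succ]; omega) hn) hmax hsh
  have he : 2 ∣ 2 ^ (s + 1) := dvd_pow_self 2 (by omega)
  have hex := ex_maj h he (one_of_short hsh')
  have hk : Hom H univ (2 ^ (s + 1)) :=
    hom_fin (by omega) hex (maj2 h h4 he hex) (hz_of_short h.conc (by omega) hsh') (ht.hom le_rfl)
  have hup := hom_up h.conc hsh' hk
  have hd' := two_pow_step hd (hom_not_dvd h.conc hn hk)
  obtain ⟨c, hc⟩ := hd'
  have hK : 2 ^ (s + 1 + 1) = 2 * 2 ^ (s + 1) := by rw [pow_succ]; ring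
  rcases c with _ | _ | c
  · omega
  · left
    rcases h48 with h1 | h1
    · exact giant7 (by omega) (ht.mono (by omega))
    · exact giant_of_tr ht (by omega) (by omega) (by omega)
  · right
    have : 2 * 2 ^ (s + 1 + 1) ≤ Fintype.card α + 1 := by rw [hc]; nlinarith
    refine ⟨by omega, ?_, ⟨_, hc⟩, hsh'⟩
    rw [hK]
    exact lw5 (by omega) (by omega) hup

theorem f7 (h : C0 2 H) (hn : 7 ≤ Fintype.card α) : alternatingGroup α ≤ H := by
  have h2 : Hom H univ 2 := (f1 h).resolve_right (by omega)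
  have h3 : Hom H univ 3 := by simpa using hom_up h.conc h.short1 (by simpa using h2)
  have hg := f3 h h3
  have ht : Tr H univ 3 := by
    refine gleason0 (p := 2) (by norm_num) (by omega) fun S hS => ?_
    obtain ⟨T, hT⟩ := exists_isSylowIn 2 (H ⊓ fx S)
    exact ⟨T, hT.le.trans inf_le_left, hT.isP, hg S hS T hT⟩
  have h4 : 2 ^ (1 + 1) ∣ Fintype.card α + 1 :=
    two_pow_step (by simpa using h.dvd) (by simpa using hom_not_dvd h.conc (by omega) h2)
  by_contra hng
  have key : ∀ s, 1 ≤ s → 2 ^ (s + 1) ≤ Fintype.card α ∧ Tr H univ (2 ^ (s + 1) - 1) ∧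
      2 ^ (s + 1) ∣ Fintype.card α + 1 ∧ ∀ P, IsSylowIn 2 P H → (short P (2 ^ s)).card = 2 ^ s - 1 := by
    intro s hs
    induction s, hs using Nat.le_induction with
    | base => exact ⟨by norm_num; omega, by simpa using ht, h4, h.short1⟩
    | succ s hs ih => exact (f7_step h hg hs ih.1 ih.2.1 ih.2.2.1 ih.2.2.2).resolve_left hng
  have := (key (Fintype.card α) (by omega)).1
  have h5 : Fintype.card α + 1 < 2 ^ (Fintype.card α + 1) := Nat.lt_two_pow_self
  omega

end H68.PC
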