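import Cfsg.Agent.Lib.PCon.R0
import Cfsg.Agent.Lib.PCon.Ar
import Cfsg.Agent.Lib.PCon.Br
import Cfsg.Agent.Lib.PCon.Rel2

/-! Degree eight, order 1344. -/

set_option autoImplicit false

namespace H68.PC

open Equiv H69 Finset MulAction

variable {α : Type*} [Fintype α] [DecidableEq α] {p : ℕ} [Fact p.Prime] {H : Subgroup (Perm α)}

theorem g3_dvd {L : Subgroup (Perm α)} {k : ℕ} : p ^ k ∣ Nat.card L ↔ k ≤ v p L :=
  (Fact.out : p.Prime).pow_dvd_iff_le_factorization Nat.card_pos.ne'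

theorem g3_bot (S : Finset α) : fx S ⊓ fx Sᶜ = ⊥ := by
  rw [← fx_union, union_compl, fx_univ]

theorem g3_fx (L : Subgroup (Perm α)) (S : Finset α) : v p (L ⊓ fx S) ≤ w p Sᶜ.card := by
  have h1 : L ⊓ fx S ≤ st Sᶜ := by
    rw [st_compl]
    exact inf_le_right.trans (fx_le_st S)
  have h2 := ord1 (p := p) h1
  rwa [inf_assoc, g3_bot, inf_bot_eq, v_bot, zero_add] at h2

theorem g3_st (L : Subgroup (Perm α)) (S : Finset α) : v p (L ⊓ st S) ≤ w p Sᶜ.card + w p S.card :=
  (ord1 inf_le_right).trans (Nat.add_le_add_right (g3_fx _ S) _)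

theorem g3_ng (hn : Fintype.card α = 8) (hc : Nat.card H = 1344) : ¬ alternatingGroup α ≤ H := by
  intro h
  have : Nontrivial α := Fintype.one_lt_card_iff_nontrivial.1 (by omega)
  have h1 := Subgroup.card_le_of_le h
  have h2 := two_mul_nat_card_alternatingGroup (α := α)
  rw [Nat.card_perm, Nat.card_eq_fintype_card (α := α), hn] at h2
  have h3 : Nat.factorial 8 = 40320 := by decide
  omega

theorem g3_two (hn : Fintype.card α = 8) (hprim : IsPreprimitive H α) (hc : Nat.card H = 1344)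
    {S : Finset α} (hS : 2 ≤ Sᶜ.card) : v 2 (H ⊓ fx S) < w 2 Sᶜ.card := by
  by_contra hv
  obtain ⟨P, hP⟩ := exists_isSylowIn 2 (H ⊓ fx S)
  have hf : Full 2 P Sᶜ := by
    refine ⟨hP.isP, ?_, ?_⟩
    · rw [st_compl]
      exact hP.le.trans (inf_le_right.trans (fx_le_st S))
    · have : P ⊓ fx Sᶜ = ⊥ := le_bot_iff.1 ((inf_le_inf_right _ (hP.le.trans inf_le_right)).trans (g3_bot S).le)
      rw [this, v_bot, v_syl hP]
      omega
  obtain ⟨a, ha, b, hb, ab, u, hu, e⟩ := hf.pcyc hS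
  have e' : u = swap a b := by
    ext x
    by_cases hx : x ∈ S
    · rw [(hP.le hu).2 x hx, swap_apply_of_ne_of_ne]
      · rintro rfl; exact mem_compl.1 ha hx
      · rintro rfl; exact mem_compl.1 hb hx
    · exact e x (mem_compl.2 hx)
  refine g3_ng hn hc (giant_of_pcyc (p := 2) hprim (hP.le hu).1 ?_ ?_ (Or.inl (by norm_num)))
  · rw [e', sq, swap_mul_self]
  · rw [e', Perm.card_support_swap ab]

theorem g3_three (hn : Fintype.card α = 8) (hprim : IsPreprimitive H α) (hc : Nat.card H = 1344)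
    {Z : Finset α} (hZ : Z.card = 3) : ¬ 3 ∣ Nat.card ↥(H ⊓ fx Z) := by
  intro h
  haveI : Fact (Nat.Prime 3) := ⟨Nat.prime_three⟩
  obtain ⟨g, hg, ho⟩ := ex_ord_of_v (p := 3) (L := H ⊓ fx Z) (g3_dvd.1 (by rwa [pow_one]))
  have hs : g.support ⊆ Zᶜ := fun x hx => mem_compl.2 fun k => Perm.mem_support.1 hx (hg.2 x k)
  have hl := card_le_card hs
  rw [card_compl, hn, hZ] at hl
  have hcy := Perm.isCycle_of_prime_order (σ := g) (by rw [ho]; exact Nat.prime_three) (by rw [ho]; omega)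
  exact g3_ng hn hc (giant_of_pcyc (p := 3) hprim hg.1 (by rw [← ho, pow_orderOf_eq_one])
    (by rw [← hcy.orderOf, ho]) (Or.inl le_rfl))

theorem g3_seven (hn : Fintype.card α = 8) {S : Finset α} (h2 : 2 ≤ S.card) (h6 : S.card ≤ 6) :
    ¬ 7 ∣ Nat.card ↥(H ⊓ st S) := by
  intro h
  haveI : Fact (Nat.Prime 7) := ⟨by norm_num⟩
  have h1 : 1 ≤ v 7 (H ⊓ st S) := g3_dvd.1 (by rwa [pow_one])
  have h3 := g3_st (p := 7) H S
  rw [w_lt (n := S.card) (by omega), w_lt (by rw [card_compl]; omega)] at h3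
  omega

theorem g3_tri (hn : Fintype.card α = 8) (hprim : IsPreprimitive H α) (hc : Nat.card H = 1344)
    {Z : Finset α} (hZ : Z.card = 3) : Nat.card ↥(H ⊓ st Z) = 24 := by
  have h7 := g3_seven (H := H) hn (S := Z) (by omega) (by omega)
  have hc' : Zᶜ.card = 5 := by rw [card_compl, hn, hZ]
  have h1 := g3_two hn hprim hc (S := Z) (by omega)
  have h2 := ord1 (p := 2) (inf_le_right : H ⊓ st Z ≤ st Z)
  have h3 : v 2 (H ⊓ st Z ⊓ fx Z) ≤ v 2 (H ⊓ fx Z) := v_mono (inf_le_inf_right _ inf_le_left)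
  rw [hc', w_vals.2.2.2.1] at h1
  rw [hZ, w_vals.2.1] at h2
  have h4 : ¬ 2 ^ 4 ∣ Nat.card ↥(H ⊓ st Z) := fun k => by have := g3_dvd.1 k; omega
  have h5 := card_sorb H Z
  have h6 := card_sorb_le H Z
  rw [hn, hZ, show Nat.choose 8 3 = 56 by decide] at h6
  rw [hc] at h5
  generalize (sorb H Z).card = m at h5 h6
  generalize Nat.card ↥(H ⊓ st Z) = h at h4 h5 h7 ⊢
  interval_cases m <;> omega

theorem g3_four (hn : Fintype.card α = 8) (hprim : IsPreprimitive H α) (hc : Nat.card H = 1344)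
    {S : Finset α} (hS : S.card = 4) : 3 ∣ Nat.card ↥(H ⊓ st S) := by
  by_contra h3
  have h7 := g3_seven (H := H) hn (S := S) (by omega) (by omega)
  have h5 := card_sorb H S
  have h6 := card_sorb_le H S
  rw [hn, hS, show Nat.choose 8 4 = 70 by decide] at h6
  rw [hc] at h5
  have h32 : 2 ^ 5 ∣ Nat.card ↥(H ⊓ st S) := by
    generalize (sorb H S).card = m at h5 h6
    generalize Nat.card ↥(H ⊓ st S) = h at h3 h5 h7 ⊢
    interval_cases m <;> omega
  have h1 := g3_dvd.1 h32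
  have h2 := ord1 (p := 2) (inf_le_right : H ⊓ st S ≤ st S)
  have h4 : v 2 (H ⊓ st S ⊓ fx S) ≤ v 2 (H ⊓ fx S) := v_mono (inf_le_inf_right _ inf_le_left)
  rw [hS, w_vals.2.2.1] at h2
  have hK : 2 ≤ v 2 (H ⊓ fx S) := by omega
  obtain ⟨a, ha⟩ : S.Nonempty := card_pos.1 (by omega)
  have hZ : (S.erase a).card = 3 := by rw [card_erase_of_mem ha, hS]
  have t1 := g3_tri hn hprim hc hZ
  have t2 := g3_three hn hprim hc hZ
  have t3 := g3_two hn hprim hc (S := S.erase a) (by rw [card_compl]; omega)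
  rw [card_compl, hn, hZ, show 8 - 3 = 5 by rfl, w_vals.2.2.2.1] at t3
  have t4 : ¬ 2 ^ 3 ∣ Nat.card ↥(H ⊓ fx (S.erase a)) := fun k => by have := g3_dvd.1 k; omega
  have t5 : Nat.card ↥(H ⊓ fx (S.erase a)) ∣ 24 :=
    t1 ▸ Subgroup.card_dvd_of_le (inf_le_inf_left _ (fx_le_st _))
  have t6 : Nat.card ↥(H ⊓ fx (S.erase a)) ≤ 4 := by
    have := Nat.le_of_dvd (by norm_num) t5
    generalize Nat.card ↥(H ⊓ fx (S.erase a)) = j at *
    interval_cases j <;> omega
  have t7 : 4 ≤ Nat.card ↥(H ⊓ fx S) := Nat.le_of_dvd Nat.card_pos (g3_dvd.2 hK)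
  have e : H ⊓ fx S = H ⊓ fx (S.erase a) :=
    Subgroup.eq_of_le_of_card_ge (inf_le_inf_left _ (fx_anti (erase_subset a S))) (t6.trans t7)
  have eF : Fix (H ⊓ fx S) = S := by
    refine Subset.antisymm (fun y hy => ?_) (le_fx_iff.1 inf_le_right)
    by_contra k
    have c5 : (insert y S)ᶜ.card = 3 := by rw [card_compl, card_insert_of_notMem k, hn, hS]
    have u1 := g3_two hn hprim hc (S := insert y S) (by omega)
    rw [c5, w_vals.2.1] at u1
    have u2 : v 2 (H ⊓ fx S) ≤ v 2 (H ⊓ fx (insert y S)) :=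
      v_mono (le_inf inf_le_left (le_fx_iff.2 (insert_subset hy (le_fx_iff.1 inf_le_right))))
    omega
  have le : H ⊓ st (S.erase a) ≤ H ⊓ st S := by
    refine le_inf inf_le_left ?_
    have := norm_le_st_Fix (H ⊓ fx S)
    rw [eF, e] at this
    exact (le_normalizer_inf (inf_le_left.trans Subgroup.le_normalizer)
      (inf_le_right.trans (st_le_norm_fx _))).trans this
  exact h3 ((t1 ▸ (by norm_num : 3 ∣ 24)).trans (Subgroup.card_dvd_of_le le))

theorem g3_le (hn : Fintype.card α = 8) (hprim : IsPreprimitive H α) (hc : Nat.card H = 1344) {S : Finset α}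
    (hS : S.card ≤ 4) : 3 ∣ Nat.card ↥(H ⊓ st S) := by
  have h5 := card_sorb H S
  have h6 := card_sorb_le H S
  have h2 := g3_st (p := 2) H S
  rw [hc] at h5
  rw [card_compl, hn] at h2
  rw [hn] at h6
  have hk : S.card = 0 ∨ S.card = 1 ∨ S.card = 2 ∨ S.card = 3 ∨ S.card = 4 := by omega
  rcases hk with k | k | k | k | k
  · rw [k, Nat.choose_zero_right] at h6
    generalize (sorb H S).card = m at h5 h6
    interval_cases m <;> omega
  · rw [k, Nat.choose_one_right] at h6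
    rw [k, show 8 - 1 = 6 + 1 by rfl, w_add (by norm_num) (by norm_num), w_vals.2.2.2.2.1,
      w_lt (by norm_num)] at h2
    have h4 : ¬ 2 ^ 5 ∣ Nat.card ↥(H ⊓ st S) := fun k => by have := g3_dvd.1 k; omega
    generalize (sorb H S).card = m at h5 h6
    interval_cases m <;> omega
  · have h7 := g3_seven (H := H) hn (S := S) (by omega) (by omega)
    rw [k, show Nat.choose 8 2 = 28 by decide] at h6
    rw [k, show 8 - 2 = 6 by rfl, w_vals.2.2.2.2.1, w_vals.1] at h2
    have h4 : ¬ 2 ^ 6 ∣ Nat.card ↥(H ⊓ st S) := fun k => by have := g3_dvd.1 k; omega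
    generalize (sorb H S).card = m at h5 h6
    interval_cases m <;> omega
  · rw [g3_tri hn hprim hc k]; norm_num
  · exact g3_four hn hprim hc k

theorem g3 (hn : Fintype.card α = 8) (hprim : IsPreprimitive H α) (hc : Nat.card H = 1344) (S : Finset α) :
    3 ∣ Nat.card ↥(H ⊓ st S) := by
  by_cases h : S.card ≤ 4
  · exact g3_le hn hprim hc h
  · rw [← st_compl]
    exact g3_le hn hprim hc (by rw [card_compl]; omega)

end H68.PC
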