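import Cfsg.Agent.Lib.PCon.B2
import Cfsg.Agent.Lib.PCon.Br

/-! Degree eight, order 168; degree five, order 10. -/

set_option autoImplicit false

namespace H68.PC

open Equiv H69 Finset MulAction

variable {α : Type*} [Fintype α] [DecidableEq α] {p : ℕ} [Fact p.Prime] {H : Subgroup (Perm α)}

theorem g4_sorb_eq {S T : Finset α} (h : T ∈ sorb H S) : sorb H T = sorb H S := by
  ext U
  rw [mem_sorb, mem_sorb]
  exact ⟨fun h' => (mem_sorb.1 h).trans h', fun h' => (mem_sorb.1 h).symm.trans h'⟩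

/-- an element of prime order `q` fixing a set with both sides smaller than `q` is trivial -/
theorem g4_small (q : ℕ) [Fact q.Prime] {S : Finset α} (h1 : S.card < q) (h2 : Sᶜ.card < q) :
    ¬ q ∣ Nat.card ↥(H ⊓ st S) := by
  intro hd
  obtain ⟨g, hg⟩ := exists_prime_orderOf_dvd_card' (G := ↥(H ⊓ st S)) q hd
  have ho : orderOf (g : Perm α) = q := by rw [Subgroup.orderOf_coe, hg]
  have hP : IsPGroup q (Subgroup.zpowers (g : Perm α)) :=
    IsPGroup.of_card (n := 1) (by rw [Nat.card_zpowers, ho, pow_one])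
  have key : ∀ T : Finset α, T.card < q → (g : Perm α) ∈ st T → ∀ x ∈ T, (g : Perm α) x = x := by
    intro T hT hgT x hx
    by_contra hne
    have h3 : x ∉ Fix (Subgroup.zpowers (g : Perm α)) := fun hm =>
      hne (mem_Fix.1 hm _ (Subgroup.mem_zpowers _))
    have h4 := le_orb_card hP h3
    have h5 := card_le_card (orb_sub (Subgroup.zpowers_le.2 hgT) hx)
    omega
  have : (g : Perm α) = 1 := Equiv.ext fun x => by
    by_cases hx : x ∈ S
    · exact key S h1 g.2.2 x hx
    · exact key Sᶜ h2 (by rw [st_compl]; exact g.2.2) x (mem_compl.2 hx)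
  rw [this, orderOf_one] at ho
  exact (Fact.out : q.Prime).one_lt.ne ho

theorem g4_reg (hn : Fintype.card α = 8) (hprim : IsPreprimitive H α) (hc : Nat.card H = 168)
    (hs : Group.IsSolvable H) :
    (∀ a b : α, ∃ g ∈ H, g a = b) ∧ ∀ g ∈ H, ∀ g' ∈ H, g ^ 8 = 1 → g' ^ 8 = 1 → ∀ a, g a = g' a → g = g' := by
  classical
  refine ⟨fun a b => ?_, ?_⟩
  · obtain ⟨g, hg⟩ := hprim.toIsPretransitive.exists_smul_eq a b
    exact ⟨g, g.2, hg⟩
  have hex := hs.solvable
  have h0 : Nat.find hex ≠ 0 := fun e => by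
    have := Nat.find_spec hex
    rw [e, derivedSeries_zero] at this
    have h1 := Subgroup.card_top (G := H)
    rw [this, Subgroup.card_bot, hc] at h1; omega
  obtain ⟨n, hnn⟩ := Nat.exists_eq_succ_of_ne_zero h0
  have hb : ⁅derivedSeries H n, derivedSeries H n⁆ = ⊥ := by
    rw [← derivedSeries_succ, ← Nat.succ_eq_add_one, ← hnn]; exact Nat.find_spec hex
  have hne : derivedSeries H n ≠ ⊥ := Nat.find_min hex (by omega)
  set E := derivedSeries H n
  haveI : E.Normal := derivedSeries_normal H n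
  have hcomm : ∀ a ∈ E, ∀ b ∈ E, a * b = b * a := fun a ha b hb' => by
    have := Subgroup.commutator_mem_commutator ha hb'
    rw [hb, Subgroup.mem_bot] at this
    exact commutatorElement_eq_one_iff_mul_comm.1 this
  have htr : IsPretransitive E α := by
    refine IsQuasiPreprimitive.isPretransitive_of_normal fun hfix => hne ?_
    refine (Subgroup.eq_bot_iff_forall _).2 fun e he => Subtype.ext (Equiv.ext fun x => ?_)
    have : x ∈ fixedPoints E α := hfix ▸ Set.mem_univ x
    exact this ⟨e, he⟩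
  have hsr : ∀ e ∈ E, ∀ a, (e : Perm α) a = a → e = 1 := fun e he a ha =>
    Subtype.ext (Equiv.ext fun x => by
      obtain ⟨k, hk⟩ := htr.exists_smul_eq a x
      have hk' : ((k : H) : Perm α) a = x := hk
      have := congrArg (fun u : H => (u : Perm α) a) (hcomm e he k k.2)
      simp only [Subgroup.coe_mul, Perm.mul_apply, hk', ha] at this
      exact this)
  have hinj : ∀ e ∈ E, ∀ e' ∈ E, ∀ a, (e : Perm α) a = (e' : Perm α) a → e = e' := by
    intro e he e' he' a ha
    have := hsr (e'⁻¹ * e) (E.mul_mem (E.inv_mem he') he) a (by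
      rw [Subgroup.coe_mul, Perm.mul_apply, ha, Subgroup.coe_inv]; simp)
    exact (inv_mul_eq_one.1 this).symm
  obtain ⟨a⟩ : Nonempty α := Fintype.card_pos_iff.1 (by omega)
  have hcE : Nat.card E = 8 := by
    rw [← hn, ← Nat.card_eq_fintype_card]
    refine Nat.card_eq_of_bijective (fun e : E => ((e : H) : Perm α) a) ⟨fun s t e => ?_, fun c => ?_⟩
    · exact Subtype.ext (hinj _ s.2 _ t.2 a e)
    · exact htr.exists_smul_eq a c
  have hq : Nat.card (H ⧸ E) = 21 := by
    have := Subgroup.card_eq_card_quotient_mul_card_subgroup E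
    rw [hc, hcE] at this; omega
  have hmem : ∀ g : H, g ^ 8 = 1 → g ∈ E := fun g h8 => by
    have h1 : (g : H ⧸ E) ^ 21 = 1 := by rw [← hq]; exact pow_card_eq_one'
    have h2 : (g : H ⧸ E) ^ 8 = 1 := by rw [← QuotientGroup.mk_pow, h8]; rfl
    have h3 := pow_gcd_eq_one.2 ⟨h1, h2⟩
    rw [show Nat.gcd 21 8 = 1 from rfl, pow_one] at h3
    exact (QuotientGroup.eq_one_iff g).1 h3
  intro g hg g' hg' h8 h8' x hx
  exact congrArg Subtype.val (hinj ⟨g, hg⟩ (hmem _ (Subtype.ext h8)) ⟨g', hg'⟩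
    (hmem _ (Subtype.ext h8')) x hx)

theorem g4_le (hn : Fintype.card α = 8) (hprim : IsPreprimitive H α) (hc : Nat.card H = 168)
    (hs : Group.IsSolvable H) (S : Finset α) (h4 : S.card ≤ 4) : 3 ∣ Nat.card ↥(H ⊓ st S) := by
  obtain ⟨htr, hreg⟩ := g4_reg hn hprim hc hs
  have hm := card_sorb H S
  have hle := card_sorb_le H S
  rw [hc] at hm
  rw [hn] at hle
  by_contra h3
  rcases Nat.lt_or_ge S.card 2 with h2 | h2
  · obtain h0 | h1 : S.card = 0 ∨ S.card = 1 := by omega
    · rw [h0, Nat.choose_zero_right] at hle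
      obtain e | e : (sorb H S).card = 0 ∨ (sorb H S).card = 1 := by omega
      all_goals rw [e] at hm; omega
    · have hh : Hom H univ S.card := by
        rw [h1]
        intro A _ A' _ hA hA'
        obtain ⟨a, rfl⟩ := card_eq_one.1 hA
        obtain ⟨b, rfl⟩ := card_eq_one.1 hA'
        obtain ⟨g, hg, e⟩ := htr a b
        exact ⟨g, hg, by rw [image_singleton, e]⟩
      rw [card_sorb_hom hh, hn, h1, Nat.choose_one_right] at hm
      omega
  haveI : Fact (Nat.Prime 7) := ⟨by norm_num⟩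
  have h7 : ¬ 7 ∣ Nat.card ↥(H ⊓ st S) :=
    g4_small 7 (by omega) (by rw [card_compl, hn]; omega)
  have h8 : Nat.card ↥(H ⊓ st S) ∣ 8 := by
    have hd : Nat.card ↥(H ⊓ st S) ∣ 8 * 21 := Dvd.intro_left _ hm
    refine Nat.Coprime.dvd_of_dvd_mul_right ?_ hd
    rw [show 21 = 3 * 7 from rfl]
    exact Nat.Coprime.mul_right ((Nat.prime_three.coprime_iff_not_dvd).2 h3).symm
      (((by norm_num : Nat.Prime 7).coprime_iff_not_dvd).2 h7).symm
  have hK : ∀ T ∈ sorb H S, Nat.card ↥(H ⊓ st T) = Nat.card ↥(H ⊓ st S) := fun T hT => by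
    have := card_sorb H T
    rw [g4_sorb_eq hT, hc, ← hm] at this
    refine Nat.eq_of_mul_eq_mul_left (Nat.pos_of_ne_zero fun e => ?_) this
    rw [e] at hm; omega
  have hp8 : ∀ T ∈ sorb H S, ∀ g ∈ H ⊓ st T, g ^ 8 = 1 := fun T hT g hg =>
    orderOf_dvd_iff_pow_eq_one.1 ((Subgroup.orderOf_dvd_natCard _ hg).trans (hK T hT ▸ h8))
  have hinj : ∀ T ∈ sorb H S, ∀ a (ha : a ∈ T), Function.Injective
      (fun k : ↥(H ⊓ st T) => (⟨(k : Perm α) a, (k.2.2 a).2 ha⟩ : ↥T)) := fun T hT a ha k k' e =>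
    Subtype.ext (hreg _ k.2.1 _ k'.2.1 (hp8 T hT _ k.2) (hp8 T hT _ k'.2) a (congrArg Subtype.val e))
  have hSS : S ∈ sorb H S := mem_sorb.2 (Eqv.refl H S)
  obtain ⟨a₀, ha₀⟩ : S.Nonempty := card_pos.1 (by omega)
  have hKS : Nat.card ↥(H ⊓ st S) ≤ S.card := by
    have := Nat.card_le_card_of_injective _ (hinj S hSS a₀ ha₀)
    rwa [Nat.card_eq_fintype_card (α := ↥S), Fintype.card_coe] at this
  have hcases : S.card = 4 ∧ Nat.card ↥(H ⊓ st S) = 4 := by
    generalize Nat.card ↥(H ⊓ st S) = k at *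
    generalize (sorb H S).card = m at *
    generalize S.card = s at *
    have c2 : Nat.choose 8 2 = 28 := by decide
    have c3 : Nat.choose 8 3 = 56 := by decide
    have c4 : Nat.choose 8 4 = 70 := by decide
    have hk4 : k ≤ 4 := by omega
    interval_cases s <;> interval_cases k <;> omega
  obtain ⟨hS4, hK4⟩ := hcases
  have hsur : ∀ T ∈ sorb H S, ∀ a ∈ T, ∀ b ∈ T, ∃ k ∈ H ⊓ st T, k a = b := by
    intro T hT a ha b hb
    have hb' := (Nat.bijective_iff_injective_and_card _).2 ⟨hinj T hT a ha, by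
      rw [hK T hT, hK4, Nat.card_eq_fintype_card, Fintype.card_coe, ← (mem_sorb.1 hT).card_eq, hS4]⟩
    obtain ⟨k, hk⟩ := hb'.2 ⟨b, hb⟩
    exact ⟨k, k.2, congrArg Subtype.val hk⟩
  have hdis : ∀ T ∈ sorb H S, ∀ T' ∈ sorb H S, T ≠ T' →
      Disjoint (powersetCard 3 T) (powersetCard 3 T') := by
    intro T hT T' hT' hne
    refine disjoint_left.2 fun Z hZ hZ' => hne ?_
    obtain ⟨z1, z3⟩ := mem_powersetCard.1 hZ
    have z2 := (mem_powersetCard.1 hZ').1
    obtain ⟨a, b, c, hab, hac, hbc, rfl⟩ := card_eq_three.1 z3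
    have both : ∀ x ∈ ({a, b, c} : Finset α), ∃ k ∈ (H ⊓ st T) ⊓ (H ⊓ st T'), k a = x := by
      intro x hx
      obtain ⟨k, hk, e⟩ := hsur T hT a (z1 (by simp)) x (z1 hx)
      obtain ⟨k', hk', e'⟩ := hsur T' hT' a (z2 (by simp)) x (z2 hx)
      have := hreg _ hk.1 _ hk'.1 (hp8 T hT _ hk) (hp8 T' hT' _ hk') a (e.trans e'.symm)
      exact ⟨k, ⟨hk, this ▸ hk'⟩, e⟩
    have h3le : 3 ≤ Nat.card ↥((H ⊓ st T) ⊓ (H ⊓ st T')) := by
      choose f hf he using both
      have := Nat.card_le_card_of_injective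
        (fun x : ↥({a, b, c} : Finset α) => (⟨f x x.2, hf x x.2⟩ : ↥((H ⊓ st T) ⊓ (H ⊓ st T'))))
        (fun x y e => Subtype.ext (by
          have e' : f x x.2 = f y y.2 := congrArg Subtype.val e
          rw [← he x x.2, e', he y y.2]))
      rwa [Nat.card_eq_fintype_card, Fintype.card_coe, z3] at this
    have hd : Nat.card ↥((H ⊓ st T) ⊓ (H ⊓ st T')) ∣ 4 :=
      hK4 ▸ hK T hT ▸ Subgroup.card_dvd_of_le inf_le_left
    have h4' : Nat.card ↥((H ⊓ st T) ⊓ (H ⊓ st T')) = 4 := by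
      have := Nat.le_of_dvd (by norm_num) hd
      generalize Nat.card ↥((H ⊓ st T) ⊓ (H ⊓ st T')) = k at *
      interval_cases k <;> omega
    have e1 : (H ⊓ st T) ⊓ (H ⊓ st T') = H ⊓ st T :=
      Subgroup.eq_of_le_of_card_ge inf_le_left (by rw [hK T hT, hK4, h4'])
    refine eq_of_subset_of_card_le (fun x hx => ?_)
      (by rw [← (mem_sorb.1 hT).card_eq, ← (mem_sorb.1 hT').card_eq])
    obtain ⟨k, hk, e⟩ := hsur T hT a (z1 (by simp)) x hx
    rw [← e1] at hk
    rw [← e]; exact (hk.2.2 a).2 (z2 (by simp))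
  have hcount := card_le_card (s := (sorb H S).biUnion (powersetCard 3)) (t := powersetCard 3 univ)
    (biUnion_subset.2 fun T _ => powersetCard_mono (subset_univ T))
  rw [card_biUnion (fun T hT T' hT' hne => hdis T hT T' hT' hne), card_powersetCard, card_univ, hn,
    sum_congr rfl (g := fun _ => 4) (fun T hT => by
      rw [card_powersetCard, ← (mem_sorb.1 hT).card_eq, hS4]; rfl), sum_const, smul_eq_mul] at hcount
  have c3 : Nat.choose 8 3 = 56 := by decide
  rw [hK4] at hm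
  omega

theorem g4 (hn : Fintype.card α = 8) (hprim : IsPreprimitive H α) (hc : Nat.card H = 168)
    (hs : Group.IsSolvable H) (S : Finset α) : 3 ∣ Nat.card ↥(H ⊓ st S) := by
  rcases le_or_gt S.card 4 with h | h
  · exact g4_le hn hprim hc hs S h
  · rw [← st_compl]; exact g4_le hn hprim hc hs Sᶜ (by rw [card_compl, hn]; omega)

theorem g5_le (hn : Fintype.card α = 5) (hc : Nat.card H = 10) (S : Finset α) (h2 : S.card ≤ 2) :
    2 ∣ Nat.card ↥(H ⊓ st S) := by
  have hm := card_sorb H S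
  have hle := card_sorb_le H S
  rw [hc] at hm
  rw [hn] at hle
  by_contra hodd
  rcases Nat.eq_zero_or_pos S.card with h0 | h0
  · rw [h0, Nat.choose_zero_right] at hle
    obtain e | e : (sorb H S).card = 0 ∨ (sorb H S).card = 1 := by omega
    all_goals rw [e] at hm; omega
  haveI : Fact (Nat.Prime 5) := ⟨by norm_num⟩
  have h5 : ¬ 5 ∣ Nat.card ↥(H ⊓ st S) := g4_small 5 (by omega) (by rw [card_compl, hn]; omega)
  have hk : Nat.card ↥(H ⊓ st S) = 1 := by
    have hd : Nat.card ↥(H ⊓ st S) ∣ 10 := Dvd.intro_left _ hm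
    have := Nat.le_of_dvd (by norm_num) hd
    generalize Nat.card ↥(H ⊓ st S) = k at *
    interval_cases k <;> omega
  rw [hk, mul_one] at hm
  have hS : S.card = 2 := by
    by_contra hne
    rw [show S.card = 1 by omega, Nat.choose_one_right] at hle; omega
  have hh : Hom H univ S.card := hom_of_card (by rw [hn, hS, hm]; decide)
  haveI : Fact (Nat.Prime 2) := ⟨Nat.prime_two⟩
  obtain ⟨t, ht⟩ := exists_prime_orderOf_dvd_card' (G := H) 2 (by rw [hc]; norm_num)
  have ho : orderOf (t : Perm α) = 2 := by rw [Subgroup.orderOf_coe, ht]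
  obtain ⟨a, ha⟩ : ∃ a, (t : Perm α) a ≠ a := by
    by_contra hcon; push Not at hcon
    rw [show (t : Perm α) = 1 from Equiv.ext hcon, orderOf_one] at ho; omega
  have tt : (t : Perm α) ((t : Perm α) a) = a := by
    rw [← Perm.mul_apply, ← pow_two, ← ho, pow_orderOf_eq_one]; rfl
  have hT : ({a, (t : Perm α) a} : Finset α).card = 2 := card_pair ha.symm
  have hmem : (t : Perm α) ∈ H ⊓ st {a, (t : Perm α) a} := ⟨t.2, mem_st_of (by
    intro x hx
    simp only [mem_insert, mem_singleton] at hx ⊢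
    rcases hx with rfl | rfl <;> simp [tt])⟩
  have hd := Subgroup.orderOf_dvd_natCard _ hmem
  have hm' := card_sorb H {a, (t : Perm α) a}
  rw [card_sorb_hom (by rw [hT, ← hS]; exact hh), hn, hT, hc] at hm'
  have c2 : Nat.choose 5 2 = 10 := by decide
  rw [ho] at hd
  rw [c2] at hm'
  omega

theorem g5 (hn : Fintype.card α = 5) (hc : Nat.card H = 10) (S : Finset α) : 2 ∣ Nat.card ↥(H ⊓ st S) := by
  rcases le_or_gt S.card 2 with h | h
  · exact g5_le hn hc S h
  · rw [← st_compl]; exact g5_le hn hc Sᶜ (by rw [card_compl, hn]; omega)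

end H68.PC
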