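import Cfsg.Agent.Lib.PCon.B2

/-! Least sets that no Sylow subgroup fixes. -/

set_option autoImplicit false

namespace H68.PC

open Equiv H69 Finset MulAction

variable {α : Type*} [Fintype α] [DecidableEq α] {p : ℕ} [Fact p.Prime] {H : Subgroup (Perm α)}

theorem lset_orb {P : Subgroup (Perm α)} (hP : IsSylowIn p P H) {O : Finset α} (hO : P ≤ st O)
    (hn : ¬ P ≤ fx O) : Lset p H O := by
  rintro ⟨Q, hQ, h⟩
  refine hn (inf_eq_left.1 (eq_of_v_le hP.isP inf_le_left ?_))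
  rw [v_syl (syl_fx hP hO), v_syl hP, ← v_syl hQ]
  exact v_mono (le_inf hQ.le h)

theorem Lset.eqv {U U' : Finset α} (h : Lset p H U) (he : Eqv H U U') : Lset p H U' := by
  rintro ⟨P, hP, k⟩
  obtain ⟨g, hg, rfl⟩ := he.symm
  exact h ⟨_, hP.cj_of_mem hg, fx_cj U' g ▸ cj_mono g k⟩

theorem Lset.mono {U U' : Finset α} (h : Lset p H U) (hs : U ⊆ U') : Lset p H U' :=
  fun ⟨P, hP, k⟩ => h ⟨P, hP, k.trans (fx_anti hs)⟩

theorem exq (hc : Conc p H) (hd : p ∣ Nat.card H) : ∃ q, Q0 p H q := by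
  classical
  have h : ∃ q, ∃ U : Finset α, U.card = q ∧ Lset p H U :=
    ⟨_, univ, rfl, fun ⟨P, hP, k⟩ => hP.dvd_card_iff.1 hd (le_bot_iff.1 (fx_univ (α := α) ▸ k))⟩
  exact ⟨Nat.find h, hc, fun U hU k => Nat.find_min h hU ⟨U, rfl, k⟩, Nat.find_spec h⟩

theorem l1_orb {P : Subgroup (Perm α)} (hP : IsSylowIn p P H) {x : α} (hx : x ∉ Fix P) :
    Lset p H (orb P x) :=
  lset_orb hP (le_st_orb P x) fun k => hx (le_fx_iff.1 k (self_mem_orb P x))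

theorem Q0.le_orb {q : ℕ} (h : Q0 p H q) {P : Subgroup (Perm α)} (hP : IsSylowIn p P H) {x : α}
    (hx : x ∉ Fix P) : q ≤ (orb P x).card :=
  not_lt.1 fun k => h.lt _ k (l1_orb hP hx)

theorem l1_ex (h : Conc p H) {U : Finset α} (hU : Lset p H U) :
    ∃ P, IsSylowIn p P H ∧ P ≤ st U ∧ ∃ x ∈ U, x ∉ Fix P := by
  obtain ⟨P, hP, k⟩ := h U
  exact ⟨P, hP, k, not_subset.1 fun e => hU ⟨P, hP, le_fx_iff.2 e⟩⟩

theorem l1_pow {P : Subgroup (Perm α)} (hP : IsPGroup p P) {x : α} (hx : x ∉ Fix P) :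
    ∃ a, 1 ≤ a ∧ (orb P x).card = p ^ a := by
  obtain ⟨a, ha⟩ := orb_card hP x
  exact ⟨a, Nat.pos_of_ne_zero fun e => hx (orb_card_one.1 (by rw [ha, e, pow_zero])), ha⟩

theorem Q0.pow {q : ℕ} (h : Q0 p H q) : ∃ a, 1 ≤ a ∧ q = p ^ a := by
  obtain ⟨U, hU, k⟩ := h.ex
  obtain ⟨P, hP, hs, x, hx, hn⟩ := l1_ex h.conc k
  obtain ⟨a, h1, h2⟩ := l1_pow hP.isP hn
  exact ⟨a, h1, h2 ▸ (h.le_orb hP hn).antisymm (hU ▸ card_le_card (orb_sub hs hx))⟩

theorem Q0.all {q : ℕ} (h : Q0 p H q) {W : Finset α} (hW : W.card = q + 1) {u u' : α} (hu : u ∈ W)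
    (hu' : u' ∈ W) (hne : u ≠ u') (h1 : Lset p H (W.erase u)) (h2 : Lset p H (W.erase u')) :
    ∀ x ∈ W, Lset p H (W.erase x) := by
  obtain ⟨P, hP, hs, y, hy, hn⟩ := l1_ex h.conc (h1.mono (erase_subset u W))
  have hO := orb_sub hs hy
  have hq : (W \ orb P y).card ≤ 1 → ∀ x ∈ W, (W \ orb P y).card = 1 → Lset p H (W.erase x) := fun hq x hx _ => by
    by_cases hx' : x ∈ orb P y
    · have key : ∀ z ∈ orb P y, Lset p H (W.erase z) → Lset p H (W.erase x) := fun z hz k => by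
        obtain ⟨g, hg, rfl⟩ := mem_orb.1 (orb_eq hz ▸ hx')
        exact k.eqv (eqv_erase (hP.le hg) (hs hg) z)
      by_cases k : u ∈ orb P y
      · exact key u k h1
      · exact key u' (by_contra fun k' => hne (card_le_one.1 hq _ (mem_sdiff.2 ⟨hu, k⟩) _
          (mem_sdiff.2 ⟨hu', k'⟩))) h2
    · exact (l1_orb hP hn).mono (subset_erase.2 ⟨hO, hx'⟩)
  have h3 : (W \ orb P y).card = 1 := by
    obtain ⟨a, ha, e⟩ := h.pow
    obtain ⟨b, hb, e'⟩ := l1_pow hP.isP hn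
    have h4 := h.le_orb hP hn
    have h5 := card_le_card hO
    have h6 : (orb P y).card ≠ q + 1 := fun k => (Fact.out : p.Prime).not_dvd_one
      ((Nat.dvd_add_right (e ▸ dvd_pow_self p (by omega))).1 (k ▸ e' ▸ dvd_pow_self p (by omega)))
    rw [card_sdiff_of_subset hO]
    omega
  exact fun x hx => hq h3.le x hx h3

end H68.PC
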