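import Cfsg.Agent.Lib.PCon.L1

/-! Cliques. -/

set_option autoImplicit false

namespace H68.PC

open Equiv H69 Finset MulAction

variable {α : Type*} [Fintype α] [DecidableEq α] {p : ℕ} [Fact p.Prime] {H : Subgroup (Perm α)}

theorem l2_sub (U : Finset α) : U ⊆ cl p H U := fun _ h => mem_cl.2 (Or.inl h)

theorem l2_img {U : Finset α} {g : Perm α} (hg : g ∈ H) {b : α} (h : b ∈ cl p H U) :
    g b ∈ cl p H (U.image g) := by
  rcases mem_cl.1 h with h | ⟨u, hu, h⟩
  · exact l2_sub _ (mem_image_of_mem g h)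
  · refine mem_cl.2 (Or.inr ⟨g u, mem_image_of_mem g hu, h.eqv ⟨g, hg, ?_⟩⟩)
    rw [image_insert, image_erase g.injective]

theorem cl_image {U : Finset α} {g : Perm α} (hg : g ∈ H) : cl p H (U.image g) = (cl p H U).image g := by
  refine Subset.antisymm (fun b hb => mem_image.2 ⟨g⁻¹ b, ?_, by simp⟩) fun b hb => ?_
  · have := l2_img (inv_mem hg) hb
    rwa [image_image, show (⇑g⁻¹ ∘ ⇑g) = id by ext; simp, image_id] at this
  · obtain ⟨c, hc, rfl⟩ := mem_image.1 hb
    exact l2_img hg hc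

theorem l2_ins {q : ℕ} (h : Q0 p H q) {U : Finset α} (hU : U.card = q) (hL : Lset p H U) {b : α}
    (hb : b ∈ cl p H U) (hn : b ∉ U) {u : α} (hu : u ∈ U) : Lset p H (insert b (U.erase u)) := by
  obtain ⟨u', hu', h'⟩ := (mem_cl.1 hb).resolve_left hn
  have e : ∀ u ∈ U, (insert b U).erase u = insert b (U.erase u) := fun u hu =>
    erase_insert_of_ne (ne_of_mem_of_not_mem hu hn).symm
  rw [← e u hu]
  exact h.all (by rw [card_insert_of_notMem hn, hU]) (mem_insert_self b U) (mem_insert_of_mem hu')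
    (ne_of_mem_of_not_mem hu' hn).symm (by rwa [erase_insert hn]) (by rwa [e u' hu']) u (mem_insert_of_mem hu)

theorem l2_step {q : ℕ} (h : Q0 p H q) {U : Finset α} (hU : U.card = q) (hL : Lset p H U) {b : α}
    (hn : b ∉ U) {u : α} (hu : u ∈ U) : cl p H U ⊆ cl p H (insert b (U.erase u)) := fun c hc => by
  have e : (insert b (U.erase u)).erase b = U.erase u := erase_insert fun h => hn (mem_of_mem_erase h)
  by_cases h1 : c ∈ U
  · by_cases h2 : c = u
    · exact mem_cl.2 (Or.inr ⟨b, mem_insert_self _ _, by rwa [e, h2, insert_erase hu]⟩)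
    · exact l2_sub _ (mem_insert_of_mem (mem_erase.2 ⟨h2, h1⟩))
  · exact mem_cl.2 (Or.inr ⟨b, mem_insert_self _ _, by rw [e]; exact l2_ins h hU hL hc h1 hu⟩)

theorem l2_card {q : ℕ} {U : Finset α} (hU : U.card = q) {b u : α} (hn : b ∉ U) (hu : u ∈ U) :
    (insert b (U.erase u)).card = q := by
  rw [card_insert_of_notMem fun h => hn (mem_of_mem_erase h), card_erase_add_one hu, hU]

theorem l2_eq {q : ℕ} (h : Q0 p H q) {U : Finset α} (hU : U.card = q) (hL : Lset p H U) {b : α}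
    (hb : b ∈ cl p H U) (hn : b ∉ U) {u : α} (hu : u ∈ U) : cl p H (insert b (U.erase u)) = cl p H U := by
  refine Subset.antisymm ?_ (l2_step h hU hL hn hu)
  have := l2_step h (l2_card hU hn hu) (l2_ins h hU hL hb hn hu) (b := u)
    (by simp [ne_of_mem_of_not_mem hu hn]) (mem_insert_self b _)
  rwa [erase_insert fun h => hn (mem_of_mem_erase h), insert_erase hu] at this

theorem Q0.c1 {q : ℕ} (h : Q0 p H q) {U : Finset α} (hU : U.card = q) (hL : Lset p H U) {U' : Finset α}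
    (hs : U' ⊆ cl p H U) (hU' : U'.card = q) : Lset p H U' ∧ cl p H U' = cl p H U := by
  induction hn : (U' \ U).card generalizing U with
  | zero =>
    obtain rfl : U' = U := eq_of_subset_of_card_le (sdiff_eq_empty_iff_subset.1 (card_eq_zero.1 hn)) (by omega)
    exact ⟨hL, rfl⟩
  | succ n ih =>
    obtain ⟨b, hb⟩ := card_pos.1 (show 0 < (U' \ U).card by omega)
    obtain ⟨u, hu⟩ := card_pos.1 (show 0 < (U \ U').card by
      rw [card_sdiff_comm (hU.trans hU'.symm)]; omega)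
    rw [mem_sdiff] at hb hu
    have e := l2_eq h hU hL (hs hb.1) hb.2 hu.1
    rw [← e] at hs ⊢
    refine ih (l2_card hU hb.2 hu.1) (l2_ins h hU hL (e ▸ hs hb.1) hb.2 hu.1) hs ?_
    have : U' \ insert b (U.erase u) = (U' \ U).erase b := by
      ext x
      simp only [mem_sdiff, mem_insert, mem_erase]
      exact ⟨fun ⟨h1, h2⟩ => ⟨fun e => h2 (Or.inl e), h1, fun h3 => h2 (Or.inr ⟨fun e => hu.2 (e ▸ h1), h3⟩)⟩,
        fun ⟨h1, h2, h3⟩ => ⟨h2, fun h4 => h4.elim h1 fun h5 => h3 h5.2⟩⟩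
    rw [this, card_erase_of_mem (mem_sdiff.2 hb), hn]; rfl

theorem l2_pos {q : ℕ} (h : Q0 p H q) : 1 ≤ q := by
  obtain ⟨a, -, rfl⟩ := h.pow
  exact Nat.one_le_pow _ _ (Fact.out : p.Prime).pos

theorem l2_ex {q : ℕ} (h : Q0 p H q) {U A : Finset α} (hU : U.card = q) (hA : A.card = q - 1) :
    ∃ b ∈ cl p H U, b ∉ A := by
  have := l2_pos h
  have := card_le_card (l2_sub (p := p) (H := H) U)
  exact exists_mem_notMem_of_card_lt_card (by omega)

theorem l2_add {q : ℕ} (h : Q0 p H q) {U A : Finset α} (hU : U.card = q) (hL : Lset p H U)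
    (hs : A ⊆ cl p H U) (hA : A.card = q - 1) {b : α} (hb : b ∈ cl p H U) (hn : b ∉ A) :
    (insert b A).card = q ∧ Lset p H (insert b A) ∧ cl p H (insert b A) = cl p H U := by
  have := l2_pos h
  have hc : (insert b A).card = q := by rw [card_insert_of_notMem hn]; omega
  exact ⟨hc, h.c1 hU hL (insert_subset hb hs) hc⟩

theorem Q0.c2 {q : ℕ} (h : Q0 p H q) {U U' : Finset α} (hU : U.card = q) (hL : Lset p H U)
    (hU' : U'.card = q) (hL' : Lset p H U') (hi : q - 1 ≤ (cl p H U ∩ cl p H U').card) :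
    cl p H U = cl p H U' := by
  obtain ⟨A, hs, hA⟩ := exists_subset_card_eq hi
  obtain ⟨b, hb, hn⟩ := l2_ex h hU hA
  obtain ⟨b', hb', hn'⟩ := l2_ex h hU' hA
  obtain ⟨-, -, e⟩ := l2_add h hU hL (hs.trans inter_subset_left) hA hb hn
  obtain ⟨-, l', e'⟩ := l2_add h hU' hL' (hs.trans inter_subset_right) hA hb' hn'
  have : b' ∈ cl p H U := e ▸ mem_cl.2 (Or.inr ⟨b, mem_insert_self _ _, by rwa [erase_insert hn]⟩)
  rw [← e', (l2_add h hU hL (hs.trans inter_subset_left) hA this hn').2.2]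

theorem Q0.c3 {q : ℕ} (h : Q0 p H q) {U : Finset α} (hU : U.card = q) (hL : Lset p H U) {A : Finset α}
    (hs : A ⊆ cl p H U) (hA : A.card = q - 1) :
    ∃ P, IsSylowIn p P H ∧ P ≤ st (cl p H U) ∧ Fix P ∩ cl p H U = A := by
  have := l2_pos h
  obtain ⟨P, hP, hf⟩ := not_not.1 (h.lt A (by omega))
  refine ⟨P, hP, fun g hg => ?_, Subset.antisymm (fun b hb => by_contra fun hn => ?_)
    (subset_inter (le_fx_iff.1 hf) hs)⟩
  · have hH := hP.le hg
    rw [mem_st_iff_image, ← cl_image hH]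
    refine h.c2 (by rw [card_image_of_injective _ g.injective, hU]) (hL.eqv ⟨g, hH, rfl⟩) hU hL
      (hA ▸ card_le_card (subset_inter (fun a ha => ?_) hs))
    exact hf hg a ha ▸ l2_img hH (hs ha)
  · exact (l2_add h hU hL hs hA (mem_inter.1 hb).2 hn).2.1
      ⟨P, hP, le_fx_iff.2 (insert_subset (mem_inter.1 hb).1 (le_fx_iff.1 hf))⟩

end H68.PC
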