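import Cfsg.Agent.Lib.PCon.R0
import Cfsg.Agent.Lib.PCon.Rel2
import Cfsg.Agent.S0746
import Cfsg.Agent.S0747

/-! Multiple transitivity on an invariant set. -/

set_option autoImplicit false

namespace H68.PC

open Equiv H69 Finset MulAction

variable {α : Type*} [Fintype α] [DecidableEq α] {p : ℕ} [Fact p.Prime] {H : Subgroup (Perm α)}

omit [Fintype α] [DecidableEq α] in
theorem rel1_sub {Φ : Finset α} (S : Finset ↥Φ) : S.map (Function.Embedding.subtype _) ⊆ Φ := by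
  intro x hx
  obtain ⟨y, _, rfl⟩ := mem_map.1 hx
  exact y.2

omit [Fintype α] [DecidableEq α] in
theorem rel1_mem {Φ : Finset α} (S : Finset ↥Φ) (x : ↥Φ) :
    (x : α) ∈ S.map (Function.Embedding.subtype _) ↔ x ∈ S := by
  constructor
  · intro hx
    obtain ⟨y, hy, h⟩ := mem_map.1 hx
    have : y = x := Subtype.ext h
    exact this ▸ hy
  · intro hx
    exact mem_map.2 ⟨x, hx, rfl⟩

omit [Fintype α] in
theorem rel1_ex {Φ S : Finset α} (h : S ⊆ Φ) : ∃ S' : Finset ↥Φ, S'.map (Function.Embedding.subtype _) = S :=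
  ⟨S.subtype (· ∈ Φ), by
    rw [subtype_map]
    exact filter_true_of_mem h⟩

omit [Fintype α] in
theorem rel1_image {Φ : Finset α} (S : Finset ↥Φ) {g : Perm α} {σ : Perm ↥Φ}
    (h : ∀ x : ↥Φ, g (x : α) = (σ x : α)) :
    (S.map (Function.Embedding.subtype _)).image g = (S.image σ).map (Function.Embedding.subtype _) := by
  ext y
  constructor
  · intro hy
    obtain ⟨z, hz, rfl⟩ := mem_image.1 hy
    obtain ⟨x, hx, rfl⟩ := mem_map.1 hz
    exact mem_map.2 ⟨σ x, mem_image_of_mem _ hx, (h x).symm⟩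
  · intro hy
    obtain ⟨z, hz, rfl⟩ := mem_map.1 hy
    obtain ⟨x, hx, rfl⟩ := mem_image.1 hz
    exact mem_image.2 ⟨x, mem_map.2 ⟨x, hx, rfl⟩, h x⟩

theorem tr_exact {N : Subgroup (Perm α)} {Φ : Finset α} {k : ℕ} (hk : k ≤ Φ.card)
    (h : ∀ S ⊆ Φ, S.card = k → ∀ σ : Perm α, (∀ x ∈ S, σ x ∈ Φ) → ∃ g ∈ N, ∀ x ∈ S, g x = σ x) : Tr N Φ k := by
  have key : ∀ d : ℕ, ∀ S ⊆ Φ, S.card + d = k → ∀ σ : Perm α, (∀ x ∈ S, σ x ∈ Φ) →
      ∃ g ∈ N, ∀ x ∈ S, g x = σ x := by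
    intro d
    induction d with
    | zero => intro S hS hc; exact h S hS hc
    | succ d ih =>
      intro S hS hc σ hσ
      obtain ⟨a, haΦ, haS⟩ : ∃ a ∈ Φ, a ∉ S := exists_mem_notMem_of_card_lt_card (by omega)
      obtain ⟨b, hbΦ, hbS⟩ : ∃ b ∈ Φ, b ∉ S.image σ := exists_mem_notMem_of_card_lt_card (by
        rw [card_image_of_injective _ σ.injective]; omega)
      have hτ : ∀ x ∈ S, (swap (σ a) b * σ) x = σ x := by
        intro x hx
        rw [Perm.mul_apply, swap_apply_of_ne_of_ne]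
        · intro e
          exact haS (σ.injective e ▸ hx)
        · intro e
          exact hbS (e ▸ mem_image_of_mem _ hx)
      obtain ⟨g, hg, hgx⟩ := ih (insert a S) (insert_subset haΦ hS)
        (by rw [card_insert_of_notMem haS]; omega) (swap (σ a) b * σ) (by
          intro x hx
          rcases mem_insert.1 hx with rfl | hx
          · rw [Perm.mul_apply, swap_apply_left]; exact hbΦ
          · rw [hτ x hx]; exact hσ x hx)
      exact ⟨g, hg, fun x hx => by rw [hgx x (mem_insert_of_mem hx), hτ x hx]⟩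
  intro S hS hc
  exact key (k - S.card) S hS (by omega)

theorem tr_res {N : Subgroup (Perm α)} {Φ : Finset α} (hN : N ≤ st Φ) {k : ℕ} :
    Tr N Φ k ↔ Tr (res Φ N) univ k := by
  constructor
  · intro h S _ hc σ _
    obtain ⟨g, hg, hgx⟩ := h (S.map (Function.Embedding.subtype _)) (rel1_sub S) (by rwa [card_map])
      (Perm.ofSubtype σ) (by
        intro x hx
        obtain ⟨y, _, rfl⟩ := mem_map.1 hx
        show Perm.ofSubtype σ (y : α) ∈ Φ
        rw [Perm.ofSubtype_apply_coe]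
        exact (σ y).2)
    obtain ⟨τ, hτ, hτx⟩ := exists_res hg (hN hg)
    refine ⟨τ, hτ, fun x hx => Subtype.ext ?_⟩
    rw [← hτx, hgx _ ((rel1_mem S x).2 hx), Perm.ofSubtype_apply_coe]
  · intro h S hS hc σ hσ
    obtain ⟨σ', hσ'⟩ := Perm.exists_extending_pair (f := fun x : ↥S => (⟨x, hS x.2⟩ : ↥Φ))
      (g := fun x : ↥S => (⟨σ x, hσ x x.2⟩ : ↥Φ))
      (fun x y e => Subtype.ext (congrArg (fun z : ↥Φ => (z : α)) e))
      (fun x y e => Subtype.ext (σ.injective (congrArg (fun z : ↥Φ => (z : α)) e)))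
    obtain ⟨S', hS'⟩ := rel1_ex hS
    obtain ⟨τ, ⟨g, hg, hgx⟩, hτ⟩ := h S' (subset_univ _) (by rw [← hS', card_map] at hc; exact hc) σ'
      (fun _ _ => mem_univ _)
    refine ⟨g, hg, fun x hx => ?_⟩
    have h1 := hgx ⟨x, hS hx⟩
    have h2 := hτ ⟨x, hS hx⟩ ((rel1_mem S' ⟨x, hS hx⟩).1 (hS' ▸ hx))
    have h3 := hσ' ⟨x, hx⟩
    rw [h2, h3] at h1
    exact h1

theorem hom_res {N : Subgroup (Perm α)} {Φ : Finset α} (hN : N ≤ st Φ) {k : ℕ} :
    Hom N Φ k ↔ Hom (res Φ N) univ k := by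
  constructor
  · intro h S _ S' _ hc hc'
    obtain ⟨g, hg, hgx⟩ := h _ (rel1_sub S) _ (rel1_sub S') (by rwa [card_map]) (by rwa [card_map])
    obtain ⟨τ, hτ, hτx⟩ := exists_res hg (hN hg)
    refine ⟨τ, hτ, ?_⟩
    rw [rel1_image S hτx] at hgx
    exact map_injective _ hgx
  · intro h S hS S' hS' hc hc'
    obtain ⟨T, rfl⟩ := rel1_ex hS
    obtain ⟨T', rfl⟩ := rel1_ex hS'
    rw [card_map] at hc hc'
    obtain ⟨τ, ⟨g, hg, hgx⟩, hτ⟩ := h T (subset_univ _) T' (subset_univ _) hc hc'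
    exact ⟨g, hg, by rw [rel1_image T hgx, hτ]⟩

theorem gleason {N : Subgroup (Perm α)} {Φ : Finset α} (hN : N ≤ st Φ) {k : ℕ} (hk : 1 ≤ k)
    (hkn : k < Φ.card) (h : ∀ S ⊆ Φ, S.card = k → ∃ P, P ≤ N ∧ IsPGroup p P ∧ Fix P ∩ Φ = S) : Tr N Φ k := by
  refine (tr_res hN).2 (gleason0 (p := p) hk (by rwa [Fintype.card_coe]) fun S hS => ?_)
  obtain ⟨P, hPN, hP, hF⟩ := h _ (rel1_sub S) (by rwa [card_map])
  refine ⟨res Φ P, ?_, res_pgroup Φ hP, ?_⟩
  · rintro σ ⟨g, hg, hgx⟩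
    exact ⟨g, hPN hg, hgx⟩
  · ext x
    rw [← rel1_mem S x, ← hF, mem_inter, mem_Fix, mem_Fix]
    constructor
    · intro hx
      refine ⟨fun g hg => ?_, x.2⟩
      obtain ⟨τ, hτ, hτx⟩ := exists_res hg (hN (hPN hg))
      rw [hτx, hx τ hτ]
    · rintro ⟨hx, -⟩ σ ⟨g, hg, hgx⟩
      exact Subtype.ext (by rw [← hgx, hx g hg])

theorem alt {N : Subgroup (Perm α)} {Φ : Finset α} (hN : N ≤ st Φ) {k : ℕ} (hk : 4 ≤ k)
    (hkn : k < Φ.card) (h : Tr N Φ k) :
    ∃ Δ ⊆ Φ, Δ.card = k + 1 ∧ alternatingGroup ↥Δ ≤ res Δ (N ⊓ st Δ) := by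
  have h1 := (tr_iff (by rw [Fintype.card_coe]; omega)).1 ((tr_res hN).1 h)
  obtain ⟨D, hD, hσ⟩ := Cfsg.Agent.S0747.result (res Φ N) hk (by rwa [Fintype.card_coe]) h1
  refine ⟨D.map (Function.Embedding.subtype _), rel1_sub D, by rwa [card_map], fun σ hs => ?_⟩
  let e : ↥(D.map (Function.Embedding.subtype _)) ≃ ↥D :=
    { toFun := fun y => ⟨⟨y.1, rel1_sub D y.2⟩, (rel1_mem D ⟨y.1, rel1_sub D y.2⟩).1 y.2⟩
      invFun := fun x => ⟨x.1.1, (rel1_mem D x.1).2 x.2⟩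
      left_inv := fun _ => rfl
      right_inv := fun _ => rfl }
  obtain ⟨τ, ⟨g, hg, hgx⟩, hτ⟩ := hσ (e.permCongr σ) (by
    rw [Perm.mem_alternatingGroup] at hs ⊢
    rw [Perm.sign_permCongr, hs])
  have key : ∀ y : ↥(D.map (Function.Embedding.subtype _)), g (y : α) = (σ y : α) := by
    intro y
    have h2 := hgx (e y).1
    rw [hτ (e y), permCongr_apply, symm_apply_apply] at h2
    exact h2
  refine ⟨g, ⟨hg, mem_st_of fun x hx => ?_⟩, key⟩
  rw [key ⟨x, hx⟩]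
  exact (σ ⟨x, hx⟩).2

theorem lw3 {N : Subgroup (Perm α)} (hn : 6 ≤ Fintype.card α) (h : Hom N univ 3) : 2 ∣ Nat.card N := by
  have h1 := Cfsg.Agent.S0746.result N (k := 3) (by norm_num) (by omega) (hom_iff.1 h)
  have h2 : Tr N univ 2 := (tr_iff (by omega)).2 h1
  obtain ⟨a, b, hab⟩ := Fintype.exists_pair_of_one_lt_card (α := α) (by omega)
  obtain ⟨g, hg, hgx⟩ := h2 {a, b} (subset_univ _) (card_le_two) (swap a b) (fun _ _ => mem_univ _)
  have ha : g a = b := by rw [hgx a (by simp), swap_apply_left]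
  have hb : g b = a := by rw [hgx b (by simp), swap_apply_right]
  have h3 : ∀ m : ℕ, (g ^ (2 * m)) a = a := by
    intro m
    induction m with
    | zero => rfl
    | succ m ih => rw [mul_add, mul_one, pow_add, Perm.mul_apply, pow_two, Perm.mul_apply, ha, hb, ih]
  refine dvd_trans ?_ (Subgroup.orderOf_dvd_natCard N hg)
  by_contra h4
  obtain ⟨m, hm⟩ : ∃ m, orderOf g = 2 * m + 1 := ⟨orderOf g / 2, by omega⟩
  have h5 := pow_orderOf_eq_one g
  rw [hm, pow_succ'] at h5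
  have h6 := congrArg (fun f : Perm α => f a) h5
  simp only [Perm.mul_apply, h3, ha, Perm.one_apply] at h6
  exact hab h6.symm

end H68.PC
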