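import Cfsg.Agent.Lib.PCon.L2
import Cfsg.Agent.Lib.PCon.Rel1
import Cfsg.Agent.Lib.PCon.Ar

/-! The least size is `p`. -/

set_option autoImplicit false

namespace H68.PC

open Equiv H69 Finset MulAction

variable {α : Type*} [Fintype α] [DecidableEq α] {p : ℕ} [Fact p.Prime] {H : Subgroup (Perm α)}

theorem Q0.eq_p {q : ℕ} (h : Q0 p H q) : q = p := by
  obtain ⟨a, ha, rfl⟩ := h.pow
  by_contra hne
  have hp : 1 < p := (Fact.out : p.Prime).one_lt
  have hlt : p < p ^ a := lt_of_le_of_ne (Nat.le_self_pow (by omega) p) (Ne.symm hne)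
  obtain ⟨U, hU, hL⟩ := h.ex
  have hK : p ^ a ≤ (cl p H U).card := hU ▸ card_le_card fun b hb => mem_cl.2 (Or.inl hb)
  have htr : Tr (H ⊓ st (cl p H U)) (cl p H U) (p ^ a - 1) :=
    gleason (p := p) inf_le_right (by omega) (by omega) fun S hS hc => by
      obtain ⟨P, h1, h2, h3⟩ := h.c3 hU hL hS hc
      exact ⟨P, le_inf h1.le h2, h1.isP, h3⟩
  obtain ⟨A, hA, hAc⟩ := exists_subset_card_eq (s := cl p H U) (n := p ^ a - 1) (by omega)
  obtain ⟨S, hS, hSc⟩ := exists_subset_card_eq (s := A) (n := p) (by omega)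
  obtain ⟨P, h1, h2, h3⟩ := h.c3 hU hL hA hAc
  have h4 : P ≤ fx S := le_fx_iff.2 (hS.trans (h3 ▸ inter_subset_left))
  have h5 := ord2 (p := p) inf_le_right (res_top_of_tr htr (hS.trans hA) (by omega))
  rw [hSc, w_self] at h5
  have h6 : v p P ≤ v p (H ⊓ st (cl p H U) ⊓ st S ⊓ fx S) :=
    v_mono (le_inf (le_inf (le_inf h1.le h2) (h4.trans (fx_le_st S))) h4)
  have h7 : v p (H ⊓ st (cl p H U) ⊓ st S) ≤ v p H := v_mono (inf_le_left.trans inf_le_left)
  have h8 := v_syl h1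
  omega

end H68.PC
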