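import Cfsg.Agent.Lib.PCon.L3
import Cfsg.Agent.Lib.PCon.Sy1

/-! In a primitive group the clique is everything. -/

set_option autoImplicit false

namespace H68.PC

open Equiv H69 Finset MulAction

variable {α : Type*} [Fintype α] [DecidableEq α] {p : ℕ} [Fact p.Prime] {H : Subgroup (Perm α)}

omit [Fact p.Prime] in
theorem l4_sub_cl (U : Finset α) : U ⊆ cl p H U := fun _ hx => mem_cl.2 (Or.inl hx)

theorem l4_orb {P : Subgroup (Perm α)} (hP : IsPGroup p P) {W : Finset α} (hW : W.card < 2 * p)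
    (hS : P ≤ st W) {x : α} (hx : x ∈ W) (hf : x ∉ Fix P) : (orb P x).card = p := by
  have hp : 2 ≤ p := (Fact.out : p.Prime).two_le
  obtain ⟨a, ha⟩ := orb_card hP x
  have h1 := le_orb_card hP hf
  have h2 := card_le_card (orb_sub hS hx)
  rcases a with _ | _ | a
  · rw [pow_zero] at ha; omega
  · rw [ha]; simp
  · exfalso
    have h3 : p ^ 2 ≤ p ^ (a + 1 + 1) := Nat.pow_le_pow_right (by omega) (by omega)
    have h4 : 2 * p ≤ p ^ 2 := by rw [sq]; exact Nat.mul_le_mul_right p hp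
    omega

theorem l4_fix {P : Subgroup (Perm α)} (hP : IsPGroup p P) {W : Finset α} (hW : W.card < 2 * p)
    (hS : P ≤ st W) {x : α} (hx : x ∈ W) (hf : x ∉ Fix P) {y : α} (hy : y ∈ W) (hn : y ∉ orb P x) :
    y ∈ Fix P := by
  by_contra h
  have h1 := le_orb_card hP h
  have h2 : P ≤ st (W \ orb P x) := (le_inf hS (le_st_orb P x)).trans (st_sdiff _ _)
  have h3 := card_le_card (orb_sub h2 (mem_sdiff.2 ⟨hy, hn⟩))
  have h4 := card_sdiff_add_card_eq_card (orb_sub hS hx)
  have h5 := l4_orb hP hW hS hx hf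
  omega

theorem l4_move {P : Subgroup (Perm α)} (hP : IsPGroup p P) {O U : Finset α} (hO : O.card = p)
    (hS : P ≤ st O) (hU : U.card = p) (hne : U ≠ O) {a : α} (ha : a ∈ U) (ha' : a ∈ O) {g : Perm α}
    (hg : g ∈ P) {b : α} (hb : b ∈ O) (hgb : g b ≠ b) : g ∉ st U := by
  intro hgU
  have hz : Subgroup.zpowers g ≤ P := Subgroup.zpowers_le.2 hg
  have hzp : IsPGroup p (Subgroup.zpowers g) := hP.to_le hz
  have hbf : b ∉ Fix (Subgroup.zpowers g) := fun h => hgb (mem_Fix.1 h g (Subgroup.mem_zpowers g))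
  have h1 : orb (Subgroup.zpowers g) b = O :=
    eq_of_subset_of_card_le (orb_sub (hz.trans hS) hb) (hO ▸ le_orb_card hzp hbf)
  have h2 : orb (Subgroup.zpowers g) a = O := by rw [orb_eq (h1 ▸ ha'), h1]
  have h3 : O ⊆ U := h2 ▸ orb_sub (Subgroup.zpowers_le.2 hgU) ha
  exact hne (eq_of_subset_of_card_le h3 (by omega)).symm

theorem l4_aux {U W : Finset α} {j : ℕ} (hU : U.card = p) (hL : Lset p H U) (hUW : U ⊆ W)
    (hW : W.card + j = 2 * p) (h1 : 1 ≤ j) (h2 : j + 2 ≤ p) (hK : cl p H U ∩ W = U)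
    {P : Subgroup (Perm α)} (hP : IsSylowIn p P H) (hS : P ≤ st W) {x : α} (hx : x ∈ W)
    (hf : x ∉ Fix P) (hne : U ≠ orb P x) :
    ∃ V V' : Finset α, V.card = p ∧ Lset p H V ∧ V'.card = p ∧ Lset p H V' ∧ cl p H V ≠ cl p H V' ∧
      j < (cl p H V ∩ cl p H V').card := by
  have hPp : IsPGroup p P := hP.isP
  have hO := l4_orb hPp (by omega) hS hx hf
  have hOW := orb_sub hS hx
  obtain ⟨a, ha⟩ : (U ∩ orb P x).Nonempty := by
    rw [← card_pos]
    have h3 := card_union_add_card_inter U (orb P x)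
    have h4 := card_le_card (union_subset hUW hOW)
    omega
  obtain ⟨ha, ha'⟩ := mem_inter.1 ha
  obtain ⟨g, hg, ⟨b, hb, hgb⟩, y, hy, hyU, hgy⟩ : ∃ g ∈ P, (∃ b ∈ orb P x, g b ≠ b) ∧
      ∃ y ∈ W, y ∉ U ∧ g y ∉ U := by
    by_cases hc : ∃ y ∈ W, y ∉ U ∧ y ∉ orb P x
    · obtain ⟨y, hy, hyU, hyO⟩ := hc
      have hyf := l4_fix hPp (by omega) hS hx hf hy hyO
      obtain ⟨g, hg, hgx⟩ : ∃ g ∈ P, g x ≠ x := by
        by_contra hcon
        refine hf (mem_Fix.2 fun g hg => ?_)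
        by_contra h3
        exact hcon ⟨g, hg, h3⟩
      exact ⟨g, hg, ⟨x, self_mem_orb P x, hgx⟩, y, hy, hyU, by rw [mem_Fix.1 hyf g hg]; exact hyU⟩
    · have h3 : 1 < (W \ U).card := by
        have := card_sdiff_add_card_eq_card hUW
        omega
      obtain ⟨b, hb, b', hb', hbb⟩ := one_lt_card.1 h3
      obtain ⟨hbW, hbU⟩ := mem_sdiff.1 hb
      obtain ⟨hbW', hbU'⟩ := mem_sdiff.1 hb'
      have hbO : b ∈ orb P x := by
        by_contra h4
        exact hc ⟨b, hbW, hbU, h4⟩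
      have hbO' : b' ∈ orb P x := by
        by_contra h4
        exact hc ⟨b', hbW', hbU', h4⟩
      rw [← orb_eq hbO] at hbO'
      obtain ⟨g, hg, hgb⟩ := mem_orb.1 hbO'
      exact ⟨g, hg, ⟨b, hbO, by rw [hgb]; exact hbb.symm⟩, b, hbW, hbU, by rw [hgb]; exact hbU'⟩
  have hgH : g ∈ H := hP.le hg
  have hgU : g ∉ st U := l4_move hPp hO (le_st_orb P x) hU hne ha ha' hg hb hgb
  have hc : (U.image g).card = p := by rw [card_image_of_injective _ g.injective, hU]
  refine ⟨U.image g, U, hc, hL.eqv ⟨g, hgH, rfl⟩, hU, hL, fun he => hgU ?_, ?_⟩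
  · rw [cl_image hgH] at he
    have h3 := st_inter (cl p H U) W ⟨mem_st_iff_image.2 he, hS hg⟩
    rwa [hK] at h3
  · have h3 : U.image g ∪ U ⊆ W.erase (g y) := by
      intro t ht
      rcases mem_union.1 ht with ht | ht
      · obtain ⟨u, hu, rfl⟩ := mem_image.1 ht
        refine mem_erase.2 ⟨fun h => hyU ?_, (hS hg u).2 (hUW hu)⟩
        rw [← g.injective h]; exact hu
      · exact mem_erase.2 ⟨fun h => hgy (h ▸ ht), hUW ht⟩
    have h4 := card_le_card h3
    have h5 := card_erase_add_one ((hS hg y).2 hy)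
    have h6 := card_union_add_card_inter (U.image g) U
    have h7 := card_le_card (inter_subset_inter (l4_sub_cl (p := p) (H := H) (U.image g))
      (l4_sub_cl (p := p) (H := H) U))
    omega

theorem cl_meet (h : Q0 p H p) {U U' : Finset α} (hU : U.card = p) (hL : Lset p H U) (hU' : U'.card = p)
    (hL' : Lset p H U') (hne : cl p H U ≠ cl p H U') (h1 : 1 ≤ (cl p H U ∩ cl p H U').card) :
    ∃ V V' : Finset α, V.card = p ∧ Lset p H V ∧ V'.card = p ∧ Lset p H V' ∧ cl p H V ≠ cl p H V' ∧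
      (cl p H U ∩ cl p H U').card < (cl p H V ∩ cl p H V').card := by
  have h2 : (cl p H U ∩ cl p H U').card + 2 ≤ p := by
    by_contra h3
    exact hne (h.c2 hU hL hU' hL' (by omega))
  obtain ⟨V, hJV, hVK, hV⟩ := exists_subsuperset_card_eq (s := cl p H U ∩ cl p H U') (t := cl p H U)
    (n := p) inter_subset_left (by omega) (hU ▸ card_le_card (l4_sub_cl U))
  obtain ⟨V', hJV', hVK', hV'⟩ := exists_subsuperset_card_eq (s := cl p H U ∩ cl p H U') (t := cl p H U')
    (n := p) inter_subset_right (by omega) (hU' ▸ card_le_card (l4_sub_cl U'))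
  obtain ⟨hLV, hcV⟩ := h.c1 hU hL hVK hV
  obtain ⟨hLV', hcV'⟩ := h.c1 hU' hL' hVK' hV'
  have hI : V ∩ V' = cl p H U ∩ cl p H U' :=
    Subset.antisymm (inter_subset_inter hVK hVK') (subset_inter hJV hJV')
  have hW : (V ∪ V').card + (cl p H U ∩ cl p H U').card = 2 * p := by
    have := card_union_add_card_inter V V'
    rw [hI] at this
    omega
  obtain ⟨P, hP, hS⟩ := h.conc (V ∪ V')
  obtain ⟨x, hx, hf⟩ : ∃ x ∈ V, x ∉ Fix P := by
    by_contra hcon
    refine hLV ⟨P, hP, le_fx_iff.2 fun x hx => ?_⟩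
    by_contra h3
    exact hcon ⟨x, hx, h3⟩
  by_cases hO : V = orb P x
  · refine l4_aux hV' hLV' subset_union_right hW h1 h2 ?_ hP hS (mem_union_left _ hx) hf ?_
    · rw [hcV']
      refine Subset.antisymm (fun t ht => ?_) (subset_inter hVK' subset_union_right)
      obtain ⟨ht, ht'⟩ := mem_inter.1 ht
      rcases mem_union.1 ht' with h3 | h3
      · exact hJV' (mem_inter.2 ⟨hVK h3, ht⟩)
      · exact h3
    · intro h3
      exact hne (by rw [← hcV, ← hcV', hO, h3])
  · refine l4_aux hV hLV subset_union_left hW h1 h2 ?_ hP hS (mem_union_left _ hx) hf hO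
    rw [hcV]
    refine Subset.antisymm (fun t ht => ?_) (subset_inter hVK subset_union_left)
    obtain ⟨ht, ht'⟩ := mem_inter.1 ht
    rcases mem_union.1 ht' with h3 | h3
    · exact h3
    · exact hJV (mem_inter.2 ⟨ht, hVK' h3⟩)

theorem l4_disj (h : Q0 p H p) {U U' : Finset α} (hU : U.card = p) (hL : Lset p H U) (hU' : U'.card = p)
    (hL' : Lset p H U') (hne : cl p H U ≠ cl p H U') : Disjoint (cl p H U) (cl p H U') := by
  by_contra hd
  have h1 : 1 ≤ (cl p H U ∩ cl p H U').card :=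
    card_pos.2 (not_disjoint_iff_nonempty_inter.1 hd)
  have key : ∀ m : ℕ, ∃ V V' : Finset α, V.card = p ∧ Lset p H V ∧ V'.card = p ∧ Lset p H V' ∧
      cl p H V ≠ cl p H V' ∧ m + 1 ≤ (cl p H V ∩ cl p H V').card := by
    intro m
    induction m with
    | zero => exact ⟨U, U', hU, hL, hU', hL', hne, h1⟩
    | succ m ih =>
      obtain ⟨V, V', a1, a2, a3, a4, a5, a6⟩ := ih
      obtain ⟨X, X', b1, b2, b3, b4, b5, b6⟩ := cl_meet h a1 a2 a3 a4 a5 (by omega)
      exact ⟨X, X', b1, b2, b3, b4, b5, by omega⟩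
  obtain ⟨V, V', -, -, -, -, -, h2⟩ := key (Fintype.card α)
  have := card_le_univ (cl p H V ∩ cl p H V')
  omega

theorem c0_of_prim (hprim : IsPreprimitive H α) (hd : p ∣ Nat.card H) (hc : Conc p H) : C0 p H := by
  have hp : 2 ≤ p := (Fact.out : p.Prime).two_le
  obtain ⟨q, h⟩ := exq hc hd
  obtain rfl := h.eq_p.symm
  obtain ⟨U, hU, hL⟩ := h.ex
  have hB : IsBlock H ((cl p H U : Finset α) : Set α) := by
    rw [isBlock_iff_smul_eq_or_disjoint]
    intro g
    have e : (g.1 : α → α) '' ((cl p H U : Finset α) : Set α) =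
        ((cl p H (U.image g.1) : Finset α) : Set α) := by
      rw [cl_image g.2, coe_image]
    change (g.1 : α → α) '' ((cl p H U : Finset α) : Set α) = _ ∨
      Disjoint ((g.1 : α → α) '' ((cl p H U : Finset α) : Set α)) _
    rw [e]
    by_cases he : cl p H (U.image g.1) = cl p H U
    · exact Or.inl (by rw [he])
    · refine Or.inr (disjoint_coe.2 (l4_disj h ?_ (hL.eqv ⟨g.1, g.2, rfl⟩) hU hL he))
      rw [card_image_of_injective _ g.1.injective, hU]
  have hK : cl p H U = univ := by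
    rcases hprim.isTrivialBlock_of_isBlock hB with h1 | h1
    · exfalso
      have h2 := card_le_one_iff_subsingleton.2 h1
      have h3 := card_le_card (l4_sub_cl (p := p) (H := H) U)
      omega
    · exact coe_eq_univ.1 h1
  refine ⟨hc, fun P hP => le_antisymm ?_ ?_⟩
  · by_contra h1
    obtain ⟨V, hV, hVc⟩ := exists_subset_card_eq (s := Fix P) (n := p) (by omega)
    exact (h.c1 hU hL (hK ▸ subset_univ V) hVc).1 ⟨P, hP, le_fx_iff.2 hV⟩
  · obtain ⟨S, -, hS⟩ := exists_subset_card_eq (s := U) (n := p - 1) (by omega)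
    obtain ⟨P0, hP0, h0⟩ := not_not.1 (h.lt S (by omega))
    obtain ⟨g, -, rfl⟩ := hP0.conj hP
    rw [Fix_cj, card_image_of_injective _ g.injective, ← hS]
    exact card_le_card (le_fx_iff.1 h0)

end H68.PC
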