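import Cfsg.Agent.Lib.PCon.SC
import Cfsg.Agent.Lib.PCon.D3
import Cfsg.Agent.Lib.PCon.E1
import Cfsg.Agent.Lib.PCon.E8c
import Cfsg.Agent.Lib.PCon.E8d
import Cfsg.Agent.Lib.PCon.E8e
import Cfsg.Agent.Lib.PCon.G3
import Cfsg.Agent.Lib.PCon.G4
import Cfsg.Agent.Lib.PCon.F2
import Cfsg.Agent.Lib.PCon.F7
import Cfsg.Agent.Lib.PCon.L4

/-! Primitive groups in which every subset is fixed by a Sylow subgroup. -/

set_option autoImplicit false

namespace H68.PC

open Equiv H69 Finset MulAction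

variable {α : Type*} [Fintype α] [DecidableEq α] {p : ℕ} [Fact p.Prime] {H : Subgroup (Perm α)}

theorem le_card_of_dvd (hd : p ∣ Nat.card H) : p ≤ Fintype.card α := by
  have h1 : Nat.card H ∣ (Fintype.card α).factorial := by
    rw [← Fintype.card_perm, ← Nat.card_eq_fintype_card]
    exact H.card_subgroup_dvd_card
  exact (Fact.out : p.Prime).dvd_factorial.1 (hd.trans h1)

theorem giant3 (hn : Fintype.card α = 3) (hprim : IsPreprimitive H α) (h : C0 2 H) :
    alternatingGroup α ≤ H := by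
  obtain ⟨P, hP⟩ := exists_isSylowIn 2 H
  have hf := h.hf P hP
  have hne : P ≠ ⊥ := by
    rintro rfl
    have : Fix (⊥ : Subgroup (Perm α)) = univ := by
      ext x
      simp [mem_Fix]
    rw [this, card_univ] at hf
    omega
  obtain ⟨g, hg, ho⟩ := exists_orderOf_eq_prime hP.isP hne
  have h1 : g ≠ 1 := by
    rintro rfl
    simp at ho
  have h2 : g.support ⊆ (Fix P)ᶜ := fun x hx =>
    mem_compl.2 fun hx' => Perm.mem_support.1 hx (mem_Fix.1 hx' g hg)
  have h3 := card_le_card h2
  rw [card_compl] at h3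
  have h4 := Perm.two_le_card_support_of_ne_one h1
  exact giant_of_pcyc (p := 2) hprim (hP.le hg) (ho ▸ pow_orderOf_eq_one g) (by omega) (by norm_num)

theorem classify (hprim : IsPreprimitive H α) (hd : p ∣ Nat.card H) (hc : Conc p H) :
    alternatingGroup α ≤ H ∨
      (Fintype.card α = 8 ∧ p = 3 ∧ (Nat.card H = 1344 ∨ (Nat.card H = 168 ∧ Group.IsSolvable H))) ∨
      (Fintype.card α = 5 ∧ p = 2 ∧ Nat.card H = 10) := by
  have h := c0_of_prim hprim hd hc
  have hle := le_card_of_dvd hd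
  have hpp : p.Prime := Fact.out
  obtain ⟨b, hb⟩ := h.dvd
  by_cases hng : alternatingGroup α ≤ H
  · exact Or.inl hng
  right
  by_cases hp : p = 2
  · subst hp
    have h3 : Fintype.card α ≠ 3 := fun h3 => hng (giant3 h3 hprim h)
    have h7 : ¬ 7 ≤ Fintype.card α := fun h7 => hng (f7 h h7)
    have h5 : Fintype.card α = 5 := by omega
    exact Or.inr ⟨h5, rfl, f2 h5 hprim h hng⟩
  · left
    have hp3 : 3 ≤ p := by have := hpp.two_le; omega
    rcases b with _ | _ | _ | _ | b
    · omega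
    · omega
    · exact absurd (e1a hp hprim h (by omega)) hng
    · by_cases h3 : p = 3
      · subst h3
        have h8 : Fintype.card α = 8 := by omega
        obtain ⟨B, hB⟩ := e8_sq h8 hprim h hng
        exact ⟨h8, rfl, (sq_card h8 hB).imp id fun h1 => ⟨h1, sq_solv h8 hB h1⟩⟩
      · have h4 : p ≠ 4 := by
          rintro rfl
          norm_num at hpp
        exact absurd (e1b (by omega) hprim h (by omega)) hng
    · have h4 : 4 * p ≤ Fintype.card α + 1 := by rw [hb]; nlinarith
      exact absurd (sc hp h (by omega) (d3 hp h h4)) hng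

theorem main (hprim : IsPreprimitive H α) (hd : p ∣ Nat.card H) :
    Conc p H ↔
    ((alternatingGroup α ≤ H ∧ ∃ a s : ℕ, 1 ≤ s ∧ 1 ≤ a ∧ a ≤ p - 1 ∧ Fintype.card α + 1 = a * p ^ s ∧
        ¬ (a = 1 ∧ s = 1) ∧ ¬ (Fintype.card α = 3 ∧ p = 2 ∧ H = alternatingGroup α)) ∨
      (Fintype.card α = 8 ∧ p = 3 ∧ (Nat.card H = 1344 ∨ (Nat.card H = 168 ∧ Group.IsSolvable H))) ∨
      (Fintype.card α = 5 ∧ p = 2 ∧ Nat.card H = 10)) := by
  have hle := le_card_of_dvd hd
  have hpp : p.Prime := Fact.out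
  have h2 := hpp.two_le
  constructor
  · intro hc
    refine (classify hprim hd hc).imp (fun hg => ⟨hg, ?_⟩) id
    have hn : 3 ≤ Fintype.card α := by
      obtain ⟨b, hb⟩ := (c0_of_prim hprim hd hc).dvd
      by_contra hlt
      have h3 : p = 2 := by omega
      subst h3
      omega
    obtain ⟨a, s, ha1, ha2, he⟩ := (choose_iff _).1 ((conc_giant hn hg).1 hc)
    refine ⟨a, s, ?_, ha1, ha2, he, ?_, ?_⟩
    · rcases s with _ | s
      · simp at he; omega
      · omega
    · rintro ⟨rfl, rfl⟩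
      simp at he; omega
    · rintro ⟨h3, rfl, rfl⟩
      have : Nontrivial α := Fintype.one_lt_card_iff_nontrivial.1 (by omega)
      have h4 := two_mul_nat_card_alternatingGroup (α := α)
      rw [Nat.card_eq_fintype_card (α := Perm α), Fintype.card_perm, h3] at h4
      simp only [Nat.factorial] at h4
      omega
  · rintro (⟨hg, a, s, hs, ha1, ha2, he, -, -⟩ | ⟨h8, rfl, h | ⟨h, hs⟩⟩ | ⟨h5, rfl, h⟩)
    · have hn : 3 ≤ Fintype.card α := by
        by_contra hlt
        have h3 : p = 2 := by omega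
        subst h3
        obtain ⟨t, rfl⟩ : ∃ t, s = t + 1 := ⟨s - 1, by omega⟩
        rw [pow_succ, ← mul_assoc] at he
        omega
      exact (conc_giant hn hg).2 ((choose_iff _).2 ⟨a, s, ha1, ha2, he⟩)
    · exact conc_of_dvd (by rw [h]; norm_num) (g3 h8 hprim h)
    · exact conc_of_dvd (by rw [h]; norm_num) (g4 h8 hprim h hs)
    · exact conc_of_dvd (by rw [h]; norm_num) (g5 h5 h)

end H68.PC
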