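import Cfsg.Agent.Lib.PCon.B2

/-! Orders of induced groups. -/

set_option autoImplicit false

namespace H68.PC

open Equiv H69 Finset MulAction

variable {α : Type*} [Fintype α] [DecidableEq α] {p : ℕ} [Fact p.Prime] {H : Subgroup (Perm α)}

theorem exists_res {S : Finset α} {L : Subgroup (Perm α)} {g : Perm α} (hg : g ∈ L) (hS : g ∈ st S) :
    ∃ σ ∈ res S L, ∀ x : ↥S, g (x : α) = (σ x : α) :=
  ⟨g.subtypePerm (p := fun x => x ∈ S) hS, ⟨g, hg, fun _ => rfl⟩, fun _ => rfl⟩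

/-- restriction to `S` -/
def r0_hom {S : Finset α} {L : Subgroup (Perm α)} (h : L ≤ st S) : L →* Perm ↥S where
  toFun g := (g : Perm α).subtypePerm (p := fun x => x ∈ S) (h g.2)
  map_one' := by ext x; rfl
  map_mul' _ _ := by ext x; rfl

theorem card_res {S : Finset α} {L : Subgroup (Perm α)} (h : L ≤ st S) :
    Nat.card L = Nat.card ↥(L ⊓ fx S) * Nat.card (res S L) := by
  have hr : (r0_hom h).range = res S L := by
    ext σ
    constructor
    · rintro ⟨g, rfl⟩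
      exact ⟨g, g.2, fun _ => rfl⟩
    · rintro ⟨g, hg, hσ⟩
      exact ⟨⟨g, hg⟩, Equiv.ext fun x => Subtype.ext (hσ x)⟩
  have hk : (r0_hom h).ker = (L ⊓ fx S).subgroupOf L := by
    ext g
    rw [MonoidHom.mem_ker, Subgroup.mem_subgroupOf, Subgroup.mem_inf]
    constructor
    · intro hg
      refine ⟨g.2, fun x hx => ?_⟩
      exact congrArg Subtype.val (Equiv.congr_fun hg ⟨x, hx⟩)
    · rintro ⟨-, hg⟩
      exact Equiv.ext fun x => Subtype.ext (hg x x.2)
  have h1 := (r0_hom h).ker.card_mul_index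
  rw [Subgroup.index_ker, hr, hk,
    Nat.card_congr (Subgroup.subgroupOfEquivOfLe (inf_le_left : L ⊓ fx S ≤ L)).toEquiv] at h1
  exact h1.symm

theorem res_pgroup (S : Finset α) {L : Subgroup (Perm α)} (h : IsPGroup p L) : IsPGroup p (res S L) := by
  rintro ⟨σ, g, hg, hσ⟩
  obtain ⟨k, hk⟩ := h ⟨g, hg⟩
  have hk' : g ^ p ^ k = 1 := by simpa using congrArg Subtype.val hk
  have key : ∀ n : ℕ, ∀ x : ↥S, (g ^ n) (x : α) = ((σ ^ n) x : α) := by
    intro n
    induction n with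
    | zero => intro x; rfl
    | succ n ih => intro x; rw [pow_succ', pow_succ', Perm.mul_apply, Perm.mul_apply, ih, hσ]
  refine ⟨k, Subtype.ext ?_⟩
  change σ ^ p ^ k = 1
  ext x
  rw [← key, hk']
  rfl

theorem v_res {S : Finset α} {L : Subgroup (Perm α)} (h : L ≤ st S) :
    v p L = v p (L ⊓ fx S) + v p (res S L) := by
  unfold v
  rw [card_res h, Nat.factorization_mul Nat.card_pos.ne' Nat.card_pos.ne']
  rfl

theorem v_top : v p (⊤ : Subgroup (Perm α)) = w p (Fintype.card α) := by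
  unfold v w
  rw [Subgroup.card_top, Nat.card_perm, Nat.card_eq_fintype_card]

theorem ord1 {S : Finset α} {L : Subgroup (Perm α)} (h : L ≤ st S) : v p L ≤ v p (L ⊓ fx S) + w p S.card := by
  have h1 : v p (res S L) ≤ v p (⊤ : Subgroup (Perm ↥S)) := v_mono le_top
  rw [v_top, Fintype.card_coe] at h1
  rw [v_res h]
  omega

theorem ord2 {S : Finset α} {L : Subgroup (Perm α)} (h : L ≤ st S) (ht : res S L = ⊤) :
    v p L = v p (L ⊓ fx S) + w p S.card := by
  rw [v_res h, ht, v_top, Fintype.card_coe]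

theorem ord3 {S : Finset α} {L : Subgroup (Perm α)} (h : L ≤ st S) (ht : alternatingGroup ↥S ≤ res S L) :
    v p (L ⊓ fx S) + w p S.card ≤ v p L + if p = 2 then 1 else 0 := by
  have h1 : v p (alternatingGroup ↥S) ≤ v p (res S L) := v_mono ht
  have h2 : w p S.card ≤ v p (alternatingGroup ↥S) + if p = 2 then 1 else 0 := by
    rw [← Fintype.card_coe, ← v_top]
    rcases subsingleton_or_nontrivial ↥S with hs | hs
    · have : alternatingGroup ↥S = ⊤ := by
        rw [eq_top_iff]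
        intro σ _
        have : σ = 1 := Subsingleton.elim _ _
        rw [this]; exact one_mem _
      rw [this]; omega
    · unfold v
      rw [Subgroup.card_top, ← two_mul_nat_card_alternatingGroup,
        Nat.factorization_mul two_ne_zero Nat.card_pos.ne', Nat.prime_two.factorization]
      simp only [Finsupp.coe_add, Pi.add_apply, Finsupp.single_apply]
      by_cases hp : p = 2
      · subst hp; simp; omega
      · rw [if_neg (Ne.symm hp), if_neg hp]; omega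
  rw [v_res h]
  omega

theorem res_top_of_tr {N : Subgroup (Perm α)} {Φ S : Finset α} {k : ℕ} (h : Tr N Φ k) (hS : S ⊆ Φ)
    (hk : S.card ≤ k) : res S (N ⊓ st S) = ⊤ := by
  rw [eq_top_iff]
  intro σ _
  have h0 : ∀ x (hx : x ∈ S), Perm.ofSubtype (p := fun x => x ∈ S) σ x = (σ ⟨x, hx⟩ : α) :=
    fun x hx => Perm.ofSubtype_apply_of_mem (p := fun x => x ∈ S) σ hx
  obtain ⟨g, hg, hgσ⟩ := h S hS hk (Perm.ofSubtype (p := fun x => x ∈ S) σ) fun x hx => by
    rw [h0 x hx]; exact hS (σ ⟨x, hx⟩).2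
  refine ⟨g, ⟨hg, mem_st_of fun x hx => ?_⟩, fun x => ?_⟩
  · rw [hgσ x hx, h0 x hx]; exact (σ ⟨x, hx⟩).2
  · rw [hgσ x x.2, h0 x x.2]

theorem r0_swap_coe {W : Finset α} (a b x : ↥W) : ((swap a b x : ↥W) : α) = swap (a : α) (b : α) (x : α) :=
  (Subtype.val_injective.map_swap a b x)

theorem res_top_of_star {L : Subgroup (Perm α)} {W : Finset α} {f : α} (hf : f ∈ W)
    (h : ∀ u ∈ W, u ≠ f → ∃ g ∈ L, ∀ x ∈ W, g x = swap u f x) : res W L = ⊤ := by
  have h1 : ∀ a : ↥W, swap a ⟨f, hf⟩ ∈ res W L := by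
    intro a
    by_cases ha : a = ⟨f, hf⟩
    · rw [ha, swap_self]; exact one_mem _
    · obtain ⟨g, hg, hx⟩ := h a a.2 fun e => ha (Subtype.ext e)
      exact ⟨g, hg, fun x => by rw [hx x x.2, r0_swap_coe]⟩
  rw [eq_top_iff, ← Perm.closure_isSwap, Subgroup.closure_le]
  rintro σ ⟨a, b, hab, rfl⟩
  by_cases hb : b = ⟨f, hf⟩
  · rw [hb]; exact h1 a
  by_cases ha : a = ⟨f, hf⟩
  · rw [ha, swap_comm]; exact h1 b
  have h2 : swap a b = swap a ⟨f, hf⟩ * swap b ⟨f, hf⟩ * swap a ⟨f, hf⟩ := by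
    rw [swap_comm a ⟨f, hf⟩, swap_mul_swap_mul_swap hb (Ne.symm hab)]
  rw [h2]
  exact mul_mem (mul_mem (h1 a) (h1 b)) (h1 a)

theorem Full.syl {P : Subgroup (Perm α)} {S : Finset α} (h : Full p P S) : IsSylowIn p (res S P) ⊤ := by
  obtain ⟨h1, h2, h3⟩ := h
  refine syl_of_v (res_pgroup S h1) le_top ?_
  rw [v_top, Fintype.card_coe]
  rw [v_res h2] at h3
  omega

theorem Full.pcyc {P : Subgroup (Perm α)} {S : Finset α} (h : Full 2 P S) (hS : 2 ≤ S.card) :
    ∃ a ∈ S, ∃ b ∈ S, a ≠ b ∧ ∃ u ∈ P, ∀ x ∈ S, u x = swap a b x := by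
  obtain ⟨a, ha, b, hb, hab⟩ := Finset.one_lt_card.1 hS
  have hp : IsPGroup 2 (Subgroup.zpowers (swap (⟨a, ha⟩ : ↥S) ⟨b, hb⟩)) := by
    rintro ⟨x, n, rfl⟩
    refine ⟨1, Subtype.ext ?_⟩
    change (swap (⟨a, ha⟩ : ↥S) ⟨b, hb⟩ ^ n) ^ 2 ^ 1 = 1
    rw [pow_one, ← zpow_natCast, ← zpow_mul, mul_comm, zpow_mul, zpow_natCast, sq, swap_mul_self, one_zpow]
  obtain ⟨g, -, hg⟩ := h.syl.exists_cj_le hp le_top
  have h1 := hg (cj_mem g (Subgroup.mem_zpowers _))
  rw [← swap_apply_apply] at h1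
  obtain ⟨u, hu, hx⟩ := h1
  refine ⟨g ⟨a, ha⟩, (g _).2, g ⟨b, hb⟩, (g _).2, fun e => hab ?_, u, hu, fun x hxS => ?_⟩
  · exact congrArg Subtype.val (g.injective (Subtype.ext e))
  · rw [hx ⟨x, hxS⟩, r0_swap_coe]

end H68.PC
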