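import Cfsg.Agent.Lib.PCon.MK
import Cfsg.Agent.Lib.PCon.Sy1

/-! Cycles on the fixed points of a Sylow subgroup. -/

set_option autoImplicit false

namespace H68.PC

open Equiv H69 Finset MulAction

variable {α : Type*} [Fintype α] [DecidableEq α] {p : ℕ} [Fact p.Prime] {H : Subgroup (Perm α)}

theorem sb1_key (hp : p ≠ 2) (hc : Conc p H) {k : ℕ} (hk : 5 ≤ k) (hpk : p ∣ k) (ht : Tr H univ (k - 1))
    {T : Subgroup (Perm α)} (hv : v p T + w p k = v p H) {M : Subgroup (Perm α)} {S : Finset α}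
    (hM : IsPGroup p M) (h1 : T ≤ M) (h2 : M ≤ H) (h3 : M ≤ fx S) (h4 : k ≤ S.card) (h5 : S.card < k + p) :
    M = T := by
  have e := tS hp hc hk hpk ht h4 h5
  have := v_mono (p := p) (le_inf h2 h3)
  exact (eq_of_v_le hM h1 (by omega)).symm

theorem sb1_pow {u x : Perm α} {B : Finset α} (hx : ∀ y ∈ B, x y ∈ B) (hu : ∀ y ∈ B, u y = x y) (n : ℕ) :
    ∀ y ∈ B, (u ^ n) y = (x ^ n) y := by
  induction n with
  | zero => intro y _; rfl
  | succ n ih =>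
    intro y hy
    rw [pow_succ, pow_succ, Perm.mul_apply, Perm.mul_apply, hu y hy, ih _ (hx y hy)]

theorem sb1_same {x : Perm α} {a y : α} : x.SameCycle a y ↔ y ∈ orb (Subgroup.zpowers x) a := by
  rw [mem_orb]
  exact ⟨fun ⟨i, hi⟩ => ⟨_, ⟨i, rfl⟩, hi⟩, fun ⟨_, ⟨i, rfl⟩, hi⟩ => ⟨i, hi⟩⟩

theorem exU (hp : p ≠ 2) (h : C0 p H) {k : ℕ} (hpk : p ∣ k) (hk : 2 * p ≤ k) (ht : Tr H univ (k - 1))
    {X : Finset α} (hX : X.card = k + p - 1) {T : Subgroup (Perm α)} (hT : IsSylowIn p T (H ⊓ fx X))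
    (hne : Fix T ≠ X) :
    ∃ (Z β : Finset α) (c : Perm α), Z ⊆ Fix T ∧ β ⊆ Fix T ∧ Disjoint Z β ∧ Z.card = k - 1 ∧
      β.card = 2 * p ∧ c ∈ st β ∧ ∀ γ ⊆ Z, γ.card = p → ∃ u ∈ H ⊓ 𝐍(T) ⊓ st Z,
        (∀ x ∈ β, u x = c x) ∧ (∀ x ∈ Z, u x = x ↔ x ∉ γ) ∧ u ^ p ∈ fx Z := by
  have hpp : p.Prime := Fact.out
  have hp3 : 3 ≤ p := by have := hpp.two_le; omega
  have hk5 : 5 ≤ k := by omega
  have hTH : T ≤ H := hT.le.trans inf_le_left
  have hXΦ : X ⊆ Fix T := le_fx_iff.1 (hT.le.trans inf_le_right)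
  have hv : v p T + w p k = v p H := by
    rw [v_syl hT]
    exact tS hp h.conc hk5 hpk ht (by omega) (by omega)
  have key := fun {M : Subgroup (Perm α)} {S : Finset α} => sb1_key (M := M) (S := S) hp h.conc hk5 hpk ht hv
  have hΦ : k + 2 * p - 1 ≤ (Fix T).card := by
    have h1 : X.card < (Fix T).card := card_lt_card ⟨hXΦ, fun e => hne (Subset.antisymm e hXΦ)⟩
    obtain ⟨m, hm⟩ := h.fix_mod hT.isP
    obtain ⟨j, rfl⟩ := hpk
    have h2 : p * (j + 1) < p * m := by rw [← hm, mul_add]; omega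
    have h3 : p * (j + 2) ≤ p * m := Nat.mul_le_mul_left p (Nat.lt_of_mul_lt_mul_left h2)
    rw [mul_add] at h3
    omega
  obtain ⟨Z, hZX, hZ⟩ := exists_subset_card_eq (s := X) (n := k - 1) (by omega)
  have hZΦ := hZX.trans hXΦ
  obtain ⟨R, hR, hTR⟩ := exists_isSylowIn_le hT.isP (le_inf hTH (le_fx_iff.2 hZΦ))
  have hlt : T < R := by
    refine lt_of_le_of_ne hTR fun e => ?_
    have h1 := ord1 (p := p) (S := Z) (L := H ⊓ st Z) inf_le_right
    have h2 := v_mono (p := p) (inf_le_inf_right (fx Z) (inf_le_left : H ⊓ st Z ≤ H))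
    have h3 := v_syl hR
    have h4 := w_pred_lt hpk (by omega : 0 < k)
    rw [v_st h.conc, hZ] at h1
    rw [← e] at h3
    omega
  obtain ⟨x, hxR, hxN, hxT, hxp, -⟩ := ex_step hR.isP IsPGroup.of_bot hlt bot_le bot_le
  have hxH : x ∈ H := (hR.le hxR).1
  have hxZ : x ∈ fx Z := (hR.le hxR).2
  have hMR : T ⊔ Subgroup.zpowers x ≤ R := sup_le hTR (Subgroup.zpowers_le.2 hxR)
  have hM : IsPGroup p ↥(T ⊔ Subgroup.zpowers x) := hR.isP.to_le hMR
  have more : ∀ {P : Subgroup (Perm α)} {u : Perm α} {S : Finset α} {y : α}, IsPGroup p P → P ≤ H → T ≤ P →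
      u ∈ P → u ∉ T → S ⊆ Fix T → S.card = k - 1 → u ∈ fx S → y ∈ Fix T → y ∉ S → u y ≠ y := by
    intro P u S y hP hPH hTP hu huT hS hc hf hy hyS e
    have hle : T ⊔ Subgroup.zpowers u ≤ P := sup_le hTP (Subgroup.zpowers_le.2 hu)
    have := key (S := insert y S) (hP.to_le hle) le_sup_left (hle.trans hPH)
      (sup_le (le_fx_iff.2 (insert_subset hy hS)) (Subgroup.zpowers_le.2 fun z hz => by
        rcases mem_insert.1 hz with rfl | hz
        · exact e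
        · exact hf z hz))
      (by rw [card_insert_of_notMem hyS]; omega) (by rw [card_insert_of_notMem hyS]; omega)
    exact huT (this ▸ Subgroup.mem_sup_right (Subgroup.mem_zpowers u))
  have mv : ∀ y ∈ Fix T \ Z, x y ≠ y := fun y hy =>
    more hR.isP (hR.le.trans inf_le_left) hTR hxR hxT hZΦ hZ hxZ (mem_sdiff.1 hy).1 (mem_sdiff.1 hy).2
  have hst : Subgroup.zpowers x ≤ st (Fix T \ Z) :=
    Subgroup.zpowers_le.2 (st_sdiff _ _ ⟨norm_le_st_Fix T hxN, fx_le_st Z hxZ⟩)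
  have hD : 2 * p ≤ (Fix T \ Z).card := by rw [card_sdiff_of_subset hZΦ]; omega
  have oc : ∀ y ∈ Fix T \ Z, (orb (Subgroup.zpowers x) y).card = p := fun y hy =>
    orb_zp_card (mv y hy) (mem_Fix.1 (mem_sdiff.1 hy).1 _ hxp)
  obtain ⟨a, ha⟩ : (Fix T \ Z).Nonempty := card_pos.1 (by omega)
  obtain ⟨b, hb, hba⟩ := exists_mem_notMem_of_card_lt_card
    (s := orb (Subgroup.zpowers x) a) (t := Fix T \ Z) (by rw [oc a ha]; omega)
  have ox : ∀ y z, x z ∈ orb (Subgroup.zpowers x) y ↔ z ∈ orb (Subgroup.zpowers x) y := fun y =>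
    le_st_orb _ y (Subgroup.mem_zpowers x)
  have hca := oc a ha
  have hcb := oc b hb
  have sa := orb_sub hst ha
  have sb := orb_sub hst hb
  have hdis : Disjoint (orb (Subgroup.zpowers x) a) (orb (Subgroup.zpowers x) b) :=
    disjoint_left.2 fun z h1 h2 => hba (by rw [← orb_eq h1, orb_eq h2]; exact self_mem_orb _ b)
  have aa := self_mem_orb (Subgroup.zpowers x) a
  have cy : ∀ y, x.cycleOf a y = if y ∈ orb (Subgroup.zpowers x) a then x y else y := fun y => by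
    rw [Perm.cycleOf_apply]
    exact if_congr sb1_same rfl rfl
  have cyc := fun {P : Subgroup (Perm α)} {S : Finset α} (h1 : Full p P S) (h2 : x ∈ P) h3 h4 (h5 : a ∈ S) =>
    Full.cyc hp h1 h2 h3 h4 h5 (mv a ha)
  have oa := ox a
  have ob := ox b
  generalize orb (Subgroup.zpowers x) a = A at *
  generalize orb (Subgroup.zpowers x) b = B at *
  have sβ : A ∪ B ⊆ Fix T \ Z := union_subset sa sb
  have xβ : ∀ y ∈ A ∪ B, x y ∈ A ∪ B := fun y hy => by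
    rw [mem_union, oa, ob]
    exact mem_union.1 hy
  have dZ : Disjoint Z (A ∪ B) := disjoint_left.2 fun z h1 h2 => (mem_sdiff.1 (sβ h2)).2 h1
  have cβ : (A ∪ B).card = 2 * p := by rw [card_union_of_disjoint hdis]; omega
  refine ⟨Z, A ∪ B, x.cycleOf a, hZΦ, sβ.trans sdiff_subset, dZ, hZ, cβ, mem_st_of fun y hy => ?_,
    fun γ hγ hγc => ?_⟩
  · rw [cy]
    split_ifs
    · exact xβ y hy
    · exact hy
  have cZγ : (Z \ γ).card = k - 1 - p := by rw [card_sdiff_of_subset hγ, hZ, hγc]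
  have hSΦ : Z \ γ ∪ (A ∪ B) ⊆ Fix T := union_subset (sdiff_subset.trans hZΦ) (sβ.trans sdiff_subset)
  have cS : (Z \ γ ∪ (A ∪ B)).card = k + (p - 1) := by
    rw [card_union_of_disjoint (disjoint_of_subset_left sdiff_subset dZ), cZγ, cβ]; omega
  have xS : ∀ y ∈ Z \ γ ∪ (A ∪ B), x y ∈ Z \ γ ∪ (A ∪ B) := fun y hy => by
    rcases mem_union.1 hy with h1 | h1
    · rwa [hxZ y (mem_sdiff.1 h1).1]
    · exact mem_union_right _ (xβ y h1)
  have fS : ((Z \ γ ∪ (A ∪ B)).filter fun y => x y ≠ y) = A ∪ B := by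
    ext y
    rw [mem_filter]
    refine ⟨fun h1 => ?_, fun h1 => ⟨mem_union_right _ h1, mv y (sβ h1)⟩⟩
    exact (mem_union.1 h1.1).resolve_left fun h2 => h1.2 (hxZ y (mem_sdiff.1 h2).1)
  have s1 : Z \ γ ⊆ Z \ γ ∪ (A ∪ B) := subset_union_left
  have s2 : A ∪ B ⊆ Z \ γ ∪ (A ∪ B) := subset_union_right
  generalize Z \ γ ∪ (A ∪ B) = S at hSΦ cS xS fS s1 s2
  have hTS : T ≤ fx S := le_fx_iff.2 hSΦ
  obtain ⟨P, hP, hMP, hPS⟩ := ex_syl_st h.conc hM (hMR.trans (hR.le.trans inf_le_left))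
    (sup_le (hTS.trans (fx_le_st S)) (Subgroup.zpowers_le.2 (mem_st_of xS)))
  have hTP : T ≤ P := le_sup_left.trans hMP
  have hxP : x ∈ P := hMP (Subgroup.mem_sup_right (Subgroup.mem_zpowers x))
  have eT : P ⊓ fx S = T := key hP.isP.to_inf_left (le_inf hTP hTS) (inf_le_left.trans hP.le) inf_le_right
    (by omega) (by omega)
  have hPN : P ≤ 𝐍(T) := by
    rw [← eT]
    exact le_normalizer_inf Subgroup.le_normalizer (hPS.trans (st_le_norm_fx S))
  have hF : Full p P S := ⟨hP.isP, hPS, by rw [eT, cS, w_add hpk (by omega), v_syl hP, hv]⟩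
  obtain ⟨u, hu, eu⟩ := cyc hF hxP (hTS hxp) (by rw [fS, cβ]) (s2 (mem_union_left _ aa))
  have uA : ∀ y ∈ A, u y = x y := fun y hy => by rw [eu y (s2 (mem_union_left _ hy)), if_pos hy]
  have uN : ∀ y ∈ S, y ∉ A → u y = y := fun y hy hn => by rw [eu y hy, if_neg hn]
  have uT : u ∉ T := fun e => mv a ha (by rw [← uA a aa]; exact mem_Fix.1 (mem_sdiff.1 ha).1 u e)
  have cm : ∀ y ∈ S, u (x y) = x (u y) := fun y hy => by
    by_cases h1 : y ∈ A
    · rw [uA y h1, uA _ ((oa y).2 h1)]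
    · rw [uN y hy h1, uN _ (xS y hy) fun h2 => h1 ((oa y).1 h2)]
  have cT : u * x * u⁻¹ * x⁻¹ ∈ T := by
    rw [← eT]
    refine ⟨P.mul_mem (P.mul_mem (P.mul_mem hu hxP) (P.inv_mem hu)) (P.inv_mem hxP), fun y hy => ?_⟩
    have h1 : (u⁻¹ * x⁻¹) y ∈ S := (hPS (mul_mem (inv_mem hu) (inv_mem hxP)) y).2 hy
    have h2 := cm _ h1
    simp only [Perm.mul_apply] at h2 ⊢
    rw [h2]
    simp
  have pT : u ^ p ∈ T := by
    rw [← eT]
    refine ⟨pow_mem hu p, fun y hy => ?_⟩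
    by_cases h1 : y ∈ A
    · rw [sb1_pow (fun z hz => (oa z).2 hz) uA p y h1]
      exact hTS hxp y hy
    · exact Perm.pow_apply_eq_self_of_apply_eq_self (uN y hy h1) p
  have ZA : ∀ y ∈ Z, y ∉ A := fun y hy h1 => (mem_sdiff.1 (sa h1)).2 hy
  refine ⟨u, ⟨⟨hP.le hu, hPN hu⟩, mem_st_of fun y hy => ?_⟩, fun y hy => by rw [cy, eu y (s2 hy)],
    fun y hy => ⟨fun e hyγ => ?_, fun hn => uN y (s1 (mem_sdiff.2 ⟨hy, hn⟩)) (ZA y hy)⟩,
    le_fx_iff.2 hZΦ pT⟩
  · have h1 : u y ∈ Fix T := (norm_le_st_Fix T (hPN hu) y).2 (hZΦ hy)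
    have h2 := mem_Fix.1 ((norm_le_st_Fix T hxN _).2 h1) _ cT
    simp only [Perm.mul_apply, Perm.inv_def, Equiv.symm_apply_apply] at h2
    rw [hxZ y hy] at h2
    by_contra hn
    exact mv _ (mem_sdiff.2 ⟨h1, hn⟩) h2.symm
  · have dB : Disjoint (Z \ γ) B :=
      disjoint_of_subset_left sdiff_subset (disjoint_of_subset_right subset_union_right dZ)
    refine more (S := Z \ γ ∪ B) hP.isP hP.le hTP hu uT
      (union_subset (s1.trans hSΦ) (sb.trans sdiff_subset))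
      (by rw [card_union_of_disjoint dB, cZγ, hcb]; omega) (fun z hz => ?_) (hZΦ hy) (fun hz => ?_) e
    · rcases mem_union.1 hz with h1 | h1
      · exact uN z (s1 h1) (ZA z (mem_sdiff.1 h1).1)
      · exact uN z (s2 (mem_union_right _ h1)) fun h2 => disjoint_left.1 hdis h2 h1
    · rcases mem_union.1 hz with h1 | h1
      · exact (mem_sdiff.1 h1).2 hyγ
      · exact (mem_sdiff.1 (sb h1)).2 hy

end H68.PC
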