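import Cfsg.Agent.Lib.PCon.R0

/-! Three-cycles from cycles. -/

set_option autoImplicit false

namespace H68.PC

open Equiv H69 Finset MulAction

variable {α : Type*} [Fintype α] [DecidableEq α] {p : ℕ} [Fact p.Prime] {H : Subgroup (Perm α)}

omit [Fintype α] in
theorem sb2_comm {σ τ : Perm α} {a : α} (h1 : σ a ≠ a) (h2 : τ a ≠ a) (h : ∀ x, x ≠ a → σ x = x ∨ τ x = x) :
    σ * τ * σ⁻¹ * τ⁻¹ = swap a (σ a) * swap (σ a) (τ a) := by
  have e1 : τ (σ a) = σ a := (h _ h1).resolve_left fun e => h1 (σ.injective e)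
  have e2 : σ (τ a) = τ a := (h _ h2).resolve_right fun e => h2 (τ.injective e)
  have h3 : σ a ≠ τ a := fun e => h2 (τ.injective (by rw [← e, e1]))
  rw [mul_inv_eq_iff_eq_mul, mul_inv_eq_iff_eq_mul]
  ext x
  simp only [Perm.mul_apply]
  by_cases hx : x = a
  · rw [hx, e1, e2, swap_apply_left, swap_apply_of_ne_of_ne h2 h3.symm]
  have k1 : σ x ≠ σ a := σ.injective.ne hx
  have k2 : τ x ≠ τ a := τ.injective.ne hx
  rcases h x hx with e | e
  · rw [e]
    by_cases k : τ x = a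
    · rw [k, swap_apply_of_ne_of_ne h1.symm h2.symm, swap_apply_left]
    · have k3 : τ x ≠ σ a := fun k3 => k1 (by rw [e]; exact τ.injective (k3.trans e1.symm))
      rw [swap_apply_of_ne_of_ne k3 k2, swap_apply_of_ne_of_ne k k3]
      exact (h _ k).elim id fun k4 => by rw [τ.injective k4, e]
  · rw [e]
    by_cases k : σ x = a
    · rw [k, swap_apply_right, swap_apply_right]
    · have k4 : τ (σ x) = σ x := (h _ k).elim (fun k4 => by rw [σ.injective k4, e]) id
      have k3 : σ x ≠ τ a := fun k3 => k2 (by rw [e]; exact σ.injective (k3.trans e2.symm))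
      rw [k4, swap_apply_of_ne_of_ne k1 k3, swap_apply_of_ne_of_ne k k1]

theorem sb2_cyc {σ : Perm α} (hc : σ.support.card = p) (hp : σ ^ p = 1) {a b : α} (ha : a ∈ σ.support)
    (hb : b ∈ σ.support) : ∃ i : ℕ, (σ ^ i) a = b := by
  have pp : p.Prime := Fact.out
  have ho : orderOf σ = p := orderOf_eq_prime hp fun e => by simp [e] at ha
  exact (Perm.isCycle_of_prime_order (ho ▸ pp) (by rw [ho, hc]; have := pp.pos; omega)).exists_pow_eq
    (Perm.mem_support.1 ha) (Perm.mem_support.1 hb)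

omit [Fintype α] [DecidableEq α] in
theorem sb2_pow {u c : Perm α} {β : Finset α} (hc : c ∈ st β) (h : ∀ x ∈ β, u x = c x) (i : ℕ) :
    ∀ x ∈ β, (u ^ i) x = (c ^ i) x := fun x hx => by
  induction i with
  | zero => rfl
  | succ i ih => rw [pow_succ', pow_succ', Perm.mul_apply, Perm.mul_apply, ih, h _ ((pow_mem hc i x).2 hx)]

theorem sb2 (hp : p ≠ 2) {N : Subgroup (Perm α)} {Z β : Finset α} {c : Perm α} (hN : N ≤ st Z)
    (hc : c ∈ st β) (hZ : 2 * p - 1 ≤ Z.card)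
    (h : ∀ γ ⊆ Z, γ.card = p → ∃ u ∈ N, (∀ x ∈ β, u x = c x) ∧ (∀ x ∈ Z, u x = x ↔ x ∉ γ) ∧ u ^ p ∈ fx Z) :
    ∃ g ∈ N, g ∈ fx β ∧ (Z.filter fun x => g x ≠ x).card = p ∧ g ^ p ∈ fx Z := by
  have pp : p.Prime := Fact.out
  have p2 := pp.two_le
  let ρ : N →* Perm Z :=
    { toFun := fun g => Perm.subtypePerm g.1 (hN g.2)
      map_one' := rfl
      map_mul' := fun _ _ => rfl }
  have hρ : ∀ (g : N) (x : Z), (ρ g x : α) = g.1 x := fun _ _ => rfl
  have h' : ∀ γ : Finset Z, γ.card = p → ∃ u : N, (∀ x ∈ β, u.1 x = c x) ∧ (ρ u).support = γ ∧ ρ u ^ p = 1 :=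
    fun γ hγ => by
      obtain ⟨u, hu, h1, h2, h3⟩ := h (γ.map (Function.Embedding.subtype _))
        (fun x hx => by obtain ⟨y, -, rfl⟩ := mem_map.1 hx; exact y.2) (by rw [card_map, hγ])
      refine ⟨⟨u, hu⟩, h1, Finset.ext fun x => ?_, ?_⟩
      · rw [Perm.mem_support, ne_eq, Subtype.ext_iff, hρ, h2 x x.2, not_not]
        exact mem_map' _
      · rw [← map_pow]
        exact Equiv.ext fun x => Subtype.ext (h3 x x.2)
  have hA : alternatingGroup Z ≤ ((fx β).subgroupOf N).map ρ := by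
    rw [← Perm.closure_three_cycles_eq_alternating, Subgroup.closure_le]
    intro σ (hσ : σ.IsThreeCycle)
    obtain ⟨a, ha⟩ := card_pos.1 (by rw [hσ.card_support]; norm_num)
    have hn := hσ.nodup_iff_mem_support.2 ha
    simp only [List.nodup_cons, List.mem_cons, List.not_mem_nil, or_false, not_or] at hn
    obtain ⟨⟨n1, n2⟩, n3, -⟩ := hn
    obtain ⟨γ, g1, g2, g3⟩ := exists_subsuperset_card_eq (s := {a, σ a}) (t := univ.erase (σ (σ a))) (n := p)
      (by simp [insert_subset_iff, n2, n3]) (card_le_two.trans p2) (by simp; omega)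
    obtain ⟨δ, d1, d2, d3⟩ := exists_subsuperset_card_eq (s := {a, σ (σ a)}) (t := (γ.erase a)ᶜ) (n := p)
      (by
        have : σ (σ a) ∉ γ := fun k => by simpa using g2 k
        simp [insert_subset_iff, this]) (card_le_two.trans p2)
      (by rw [card_compl, card_erase_of_mem (g1 (by simp)), g3]; simp; omega)
    obtain ⟨u, u1, u2, u3⟩ := h' γ g3
    obtain ⟨v, v1, v2, v3⟩ := h' δ d3
    obtain ⟨i, hi⟩ := sb2_cyc (u2 ▸ g3) u3 (a := a) (b := σ a) (u2 ▸ g1 (by simp)) (u2 ▸ g1 (by simp))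
    obtain ⟨j, hj⟩ := sb2_cyc (v2 ▸ d3) v3 (a := a) (b := σ (σ a)) (v2 ▸ d1 (by simp)) (v2 ▸ d1 (by simp))
    refine ⟨u ^ i * v ^ j * (u ^ i)⁻¹ * (v ^ j)⁻¹, fun x hx => ?_, ?_⟩
    · obtain ⟨y, rfl⟩ := (c ^ j * c ^ i).surjective x
      have hy : y ∈ β := (mul_mem (pow_mem hc j) (pow_mem hc i) y).1 hx
      have e1 : (c ^ j * c ^ i) y = (v.1 ^ j * u.1 ^ i) y := by
        rw [Perm.mul_apply, Perm.mul_apply, sb2_pow hc u1 i y hy, sb2_pow hc v1 j _ ((pow_mem hc i y).2 hy)]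
      have e2 : (u.1 ^ i * v.1 ^ j) y = (c ^ j * c ^ i) y := by
        rw [pow_mul_comm, Perm.mul_apply, Perm.mul_apply, sb2_pow hc v1 j y hy,
          sb2_pow hc u1 i _ ((pow_mem hc j y).2 hy)]
      conv_lhs => rw [e1]
      rw [← e2, ← Perm.mul_apply]
      congr 1
      simp [mul_assoc]
    · rw [map_mul, map_mul, map_mul, map_inv, map_inv, map_pow, map_pow,
        sb2_comm (a := a) (by rw [hi]; exact Ne.symm n1) (by rw [hj]; exact Ne.symm n2), hi, hj,
        ← hσ.eq_swap_mul_swap_iff_mem_support.2 ha]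
      intro x hx
      by_cases k : x ∈ γ
      · have : x ∉ (ρ v).support := v2 ▸ fun k' => by simpa [hx, k] using d2 k'
        exact .inr (Perm.pow_apply_eq_self_of_apply_eq_self (Perm.notMem_support.1 this) j)
      · exact .inl (Perm.pow_apply_eq_self_of_apply_eq_self (Perm.notMem_support.1 (u2 ▸ k)) i)
  obtain ⟨γ, -, hγ⟩ := exists_subset_card_eq (s := (univ : Finset Z)) (n := p) (by simp; omega)
  obtain ⟨u, -, u2, u3⟩ := h' γ hγ
  obtain ⟨g, hg, e⟩ := hA (x := ρ u) (by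
    have := congrArg Perm.sign u3
    rw [map_pow, map_one] at this
    refine Perm.mem_alternatingGroup.2 ((Int.units_eq_one_or _).resolve_right fun k => ?_)
    rw [k, (pp.odd_of_ne_two hp).neg_one_pow] at this
    exact absurd this (by decide))
  refine ⟨g, g.2, hg, ?_, fun x hx => ?_⟩
  · rw [← hγ, ← u2, ← e, ← card_map (Function.Embedding.subtype _)]
    congr 1
    ext x
    simp only [mem_filter, mem_map, Perm.mem_support, Function.Embedding.coe_subtype, ne_eq, Subtype.ext_iff, hρ]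
    exact ⟨fun k => ⟨⟨x, k.1⟩, k.2, rfl⟩, fun ⟨y, k, e⟩ => e ▸ ⟨y.2, k⟩⟩
  · have := hρ (g ^ p) ⟨x, hx⟩
    rw [map_pow, e, u3] at this
    exact this.symm

end H68.PC
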