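import Cfsg.Agent.Lib.PCon.SB1
import Cfsg.Agent.Lib.PCon.SB2

/-! The induction for odd primes. -/

set_option autoImplicit false

namespace H68.PC

open Equiv H69 Finset MulAction

variable {α : Type*} [Fintype α] [DecidableEq α] {p : ℕ} [Fact p.Prime] {H : Subgroup (Perm α)}

theorem stepB (hp : p ≠ 2) (h : C0 p H) {k : ℕ} (hpk : p ∣ k) (hk : 2 * p ≤ k) (ht : Tr H univ (k - 1))
    {X : Finset α} (hX : X.card = k + p - 1) {T : Subgroup (Perm α)} (hT : IsSylowIn p T (H ⊓ fx X)) :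
    Fix T = X := by
  by_contra hne
  have pp : p.Prime := Fact.out
  have p2 := pp.two_le
  obtain ⟨Z, β, c, hZ, hβ, dj, cZ, cβ, hc, hu⟩ := exU hp h hpk hk ht hX hT hne
  obtain ⟨g, hg, gβ, cm, gp⟩ := sb2 hp (N := H ⊓ 𝐍(T) ⊓ st Z) inf_le_right hc (by omega) hu
  obtain ⟨a, r, hr, e⟩ := Nat.exists_eq_pow_mul_and_not_dvd (orderOf_pos g).ne' p pp.ne_one
  have hM : IsPGroup p ↥(T ⊔ Subgroup.zpowers (g ^ r)) := pgroup_sup_zpowers hT.isP (pow_mem hg.1.2 r) (a := a)
    (by rw [← pow_mul, mul_comm, ← e, pow_orderOf_eq_one]; exact one_mem _)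
  have cS : (β ∪ Z.filter fun x => ¬ g x ≠ x).card = k + p - 1 := by
    have := Finset.card_filter_add_card_filter_not (s := Z) fun x => g x ≠ x
    rw [card_union_of_disjoint (dj.symm.mono_right (filter_subset _ _))]
    omega
  have le : T ⊔ Subgroup.zpowers (g ^ r) ≤ H ⊓ fx (β ∪ Z.filter fun x => ¬ g x ≠ x) := by
    refine sup_le (le_inf (hT.le.trans inf_le_left) (le_fx_iff.2 (union_subset hβ ((filter_subset _ _).trans hZ))))
      (Subgroup.zpowers_le.2 (pow_mem (Subgroup.mem_inf.2 ⟨hg.1.1, mem_fx.2 fun x hx => ?_⟩) r))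
    rcases mem_union.1 hx with hx | hx
    · exact gβ x hx
    · exact not_not.1 (mem_filter.1 hx).2
  have t1 := tS hp h.conc (k := k) (by omega) hpk ht (S := X) (by omega) (by omega)
  have t2 := tS hp h.conc (k := k) (by omega) hpk ht (S := β ∪ Z.filter fun x => ¬ g x ≠ x) (by omega) (by omega)
  have eT : T = T ⊔ Subgroup.zpowers (g ^ r) := eq_of_v_le hM le_sup_left (by
    have := v_mono (p := p) le
    rw [v_syl hT]
    omega)
  have gr : g ^ r ∈ fx Z := le_fx_iff.2 hZ (eT.ge (Subgroup.mem_sup_right (Subgroup.mem_zpowers _)))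
  have gz : g ∈ fx Z := by
    have b := Nat.gcd_eq_gcd_ab p r
    rw [(pp.coprime_iff_not_dvd.2 hr).gcd_eq_one] at b
    have : g = (g ^ p) ^ Nat.gcdA p r * (g ^ r) ^ Nat.gcdB p r := by
      rw [← zpow_natCast, ← zpow_natCast, ← zpow_mul, ← zpow_mul, ← zpow_add, ← b, Nat.cast_one, zpow_one]
    rw [this]
    exact mul_mem (zpow_mem gp _) (zpow_mem gr _)
  obtain ⟨x, hx⟩ := card_pos.1 (cm ▸ pp.pos : 0 < (Z.filter fun x => g x ≠ x).card)
  exact (mem_filter.1 hx).2 (gz x (mem_filter.1 hx).1)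

theorem sc_ind (hp : p ≠ 2) (h : C0 p H) (d : ℕ) : ∀ k, p ∣ k → 2 * p ≤ k → Tr H univ (k - 1) →
    k + p + p * d = Fintype.card α + 1 → alternatingGroup α ≤ H := by
  have p2 := (Fact.out : p.Prime).two_le
  induction d with
  | zero => exact fun k _ hk ht e => giant_of_tr ht (by omega) (by omega) (by omega)
  | succ d ih =>
    intro k hpk hk ht e
    rw [Nat.mul_succ] at e
    refine ih (k + p) (dvd_add hpk dvd_rfl) (by omega) (gleason0 (p := p) (by omega) (by omega) fun S hS => ?_) (by omega)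
    obtain ⟨T, hT⟩ := exists_isSylowIn p (H ⊓ fx S)
    exact ⟨T, hT.le.trans inf_le_left, hT.isP, stepB hp h hpk hk ht hS hT⟩

theorem sc (hp : p ≠ 2) (h : C0 p H) (hn : 3 * p ≤ Fintype.card α + 1) (ht : Tr H univ (2 * p - 1)) :
    alternatingGroup α ≤ H := by
  obtain ⟨m, hm⟩ := h.dvd
  have p0 := (Fact.out : p.Prime).pos
  have m3 : 3 ≤ m := by
    rw [hm, mul_comm] at hn
    exact Nat.le_of_mul_le_mul_left hn p0
  obtain ⟨d, rfl⟩ := Nat.exists_eq_add_of_le m3
  exact sc_ind hp h d (2 * p) (dvd_mul_left p 2) le_rfl ht (by rw [hm]; ring)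

end H68.PC
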